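import Mathlib

/-!
Suzuki 2-groups (Higman): a finite 2-group with more than one involution admitting a commuting group of
automorphisms acting regularly on its involutions. All involutions are central, and if some central element is not
an involution then the group is abelian.
-/

set_option autoImplicit false
set_option linter.unusedSectionVars false
set_option linter.style.haveILetI false

namespace Cfsg.Agent.Suz2

universe u v

/-- A central involution of a nontrivial finite 2-group. -/
lemma exists_central_invol {H : Type*} [Group H] [Finite H] [Nontrivial H] (hH : IsPGroup 2 H) :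
    ∃ z ∈ Subgroup.center H, z ≠ 1 ∧ z * z = 1 := by
  haveI : Fact (Nat.Prime 2) := ⟨Nat.prime_two⟩
  haveI := hH.center_nontrivial
  have hp : IsPGroup 2 (Subgroup.center H) := hH.to_subgroup _
  obtain ⟨n, hn⟩ := IsPGroup.iff_card.mp hp
  have hn0 : n ≠ 0 := by
    rintro rfl
    have h1 : Nat.card (Subgroup.center H) = 1 := by simpa using hn
    have h2 : 1 < Nat.card (Subgroup.center H) := Finite.one_lt_card
    omega
  have hd : 2 ∣ Nat.card (Subgroup.center H) := by
    rw [hn]
    exact dvd_pow_self 2 hn0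
  obtain ⟨x, hx⟩ := exists_prime_orderOf_dvd_card' 2 hd
  refine ⟨x, x.2, ?_, ?_⟩
  · intro he
    have : x = 1 := Subtype.ext he
    rw [this, orderOf_one] at hx
    omega
  · have h := pow_orderOf_eq_one x
    rw [hx, pow_two] at h
    exact congrArg Subtype.val h

section basic

variable {G : Type u} [Group G] {K : Type v} [Group K]

/-- The class of groups considered. -/
structure Sz2 (φ : K →* MulAut G) : Prop where
  fin : Finite G
  two : IsPGroup 2 G
  invs : ∃ x y : G, x ≠ y ∧ x ≠ 1 ∧ x * x = 1 ∧ y ≠ 1 ∧ y * y = 1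
  reg : ∀ x y : G, x ≠ 1 → x * x = 1 → y ≠ 1 → y * y = 1 → ∃! k : K, φ k x = y
  comm : ∀ a b : K, a * b = b * a

variable {φ : K →* MulAut G}

lemma phi_mul_apply (a b : K) (x : G) : φ (a * b) x = φ a (φ b x) := by
  rw [map_mul]
  rfl

lemma phi_one_apply (x : G) : φ 1 x = x := by
  rw [map_one]
  rfl

lemma phi_comm (hS : Sz2 φ) (a b : K) (x : G) : φ a (φ b x) = φ b (φ a x) := by
  rw [← phi_mul_apply, hS.comm a b, phi_mul_apply]

lemma central_map (k : K) {c : G} (hc : c ∈ Subgroup.center G) : φ k c ∈ Subgroup.center G := by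
  rw [Subgroup.mem_center_iff] at hc ⊢
  intro g
  obtain ⟨g', rfl⟩ := (φ k).surjective g
  rw [← map_mul, ← map_mul, hc]

lemma invol_central (hS : Sz2 φ) {x : G} (h1 : x ≠ 1) (h2 : x * x = 1) : x ∈ Subgroup.center G := by
  haveI := hS.fin
  haveI : Nontrivial G := ⟨⟨x, 1, h1⟩⟩
  obtain ⟨z, hz, hz1, hz2⟩ := exists_central_invol hS.two
  obtain ⟨k, hk, -⟩ := hS.reg z x hz1 hz2 h1 h2
  rw [← hk]
  exact central_map k hz

lemma mem_central_of_sq (hS : Sz2 φ) {x : G} (h2 : x * x = 1) : x ∈ Subgroup.center G := by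
  by_cases h1 : x = 1
  · rw [h1]
    exact one_mem _
  · exact invol_central hS h1 h2

/-- The subgroup of elements of order at most two. -/
def Om (hS : Sz2 φ) : Subgroup G where
  carrier := {x | x * x = 1}
  one_mem' := mul_one 1
  mul_mem' := by
    intro a b ha hb
    have ha' : a * a = 1 := ha
    have hb' : b * b = 1 := hb
    have hc := mem_central_of_sq hS ha'
    show a * b * (a * b) = 1
    have e : b * a = a * b := (Subgroup.mem_center_iff.mp hc b)
    calc a * b * (a * b) = a * (b * a) * b := by group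
      _ = a * (a * b) * b := by rw [e]
      _ = (a * a) * (b * b) := by group
      _ = 1 := by rw [ha', hb', one_mul]
  inv_mem' := by
    intro a ha
    have ha' : a * a = 1 := ha
    show a⁻¹ * a⁻¹ = 1
    rw [← mul_inv_rev, ha', inv_one]

lemma mem_Om (hS : Sz2 φ) {x : G} : x ∈ Om hS ↔ x * x = 1 := Iff.rfl

lemma Om_le_center (hS : Sz2 φ) : Om hS ≤ Subgroup.center G := fun _ hx => mem_central_of_sq hS hx

lemma phi_mem_Om (hS : Sz2 φ) (k : K) {x : G} (hx : x ∈ Om hS) : φ k x ∈ Om hS := by
  rw [mem_Om] at hx ⊢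
  rw [← map_mul, hx, map_one]

instance Om_normal (hS : Sz2 φ) : (Om hS).Normal :=
  ⟨fun n hn g => by
    have hc := Subgroup.mem_center_iff.mp (Om_le_center hS hn) g
    rw [hc, mul_inv_cancel_right]
    exact hn⟩

/-- `K` acts freely and transitively on the non-identity elements of `Om`. -/
lemma finite_K (hS : Sz2 φ) : Finite K := by
  haveI := hS.fin
  obtain ⟨x, y, -, hx1, hx2, -, -⟩ := hS.invs
  refine Finite.of_injective (fun k : K => φ k x) ?_
  intro a b he
  have he' : φ a x = φ b x := he
  have hy : φ a x ≠ 1 := by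
    intro h
    apply hx1
    have := (φ a).injective (h.trans (map_one (φ a)).symm)
    exact this
  have hy2 : φ a x * φ a x = 1 := by
    rw [← map_mul, hx2, map_one]
  obtain ⟨k, -, hk⟩ := hS.reg x (φ a x) hx1 hx2 hy hy2
  rw [hk a rfl, hk b he'.symm]

lemma card_K (hS : Sz2 φ) : Nat.card K + 1 = Nat.card (Om hS) := by
  classical
  haveI := hS.fin
  haveI := finite_K hS
  obtain ⟨x, y, -, hx1, hx2, -, -⟩ := hS.invs
  have hphi : ∀ k : K, φ k x ≠ 1 ∧ φ k x * φ k x = 1 := by
    intro k
    constructor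
    · intro h
      apply hx1
      exact (φ k).injective (h.trans (map_one (φ k)).symm)
    · rw [← map_mul, hx2, map_one]
  let f : Option K → Om hS := fun o =>
    match o with
    | none => 1
    | some k => ⟨φ k x, (hphi k).2⟩
  have hf : Function.Bijective f := by
    constructor
    · rintro (_ | a) (_ | b) he
      · rfl
      · exfalso
        have : (1 : G) = φ b x := congrArg Subtype.val he
        exact (hphi b).1 this.symm
      · exfalso
        have : φ a x = 1 := congrArg Subtype.val he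
        exact (hphi a).1 this
      · have he' : φ a x = φ b x := congrArg Subtype.val he
        obtain ⟨k, -, hk⟩ := hS.reg x (φ a x) hx1 hx2 (hphi a).1 (hphi a).2
        rw [hk a rfl, hk b he'.symm]
    · rintro ⟨w, hw⟩
      by_cases hw1 : w = 1
      · exact ⟨none, Subtype.ext hw1.symm⟩
      · obtain ⟨k, hk, -⟩ := hS.reg x w hx1 hx2 hw1 hw
        exact ⟨some k, Subtype.ext hk⟩
  rw [← Nat.card_congr (Equiv.ofBijective f hf), Finite.card_option]

lemma odd_card_K (hS : Sz2 φ) : Odd (Nat.card K) := by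
  haveI : Fact (Nat.Prime 2) := ⟨Nat.prime_two⟩
  haveI := hS.fin
  have hp : IsPGroup 2 (Om hS) := hS.two.to_subgroup _
  obtain ⟨n, hn⟩ := IsPGroup.iff_card.mp hp
  have h1 := card_K hS
  obtain ⟨x, y, hxy, hx1, hx2, hy1, hy2⟩ := hS.invs
  have hgt : 1 < Nat.card (Om hS) :=
    (Finite.one_lt_card_iff_nontrivial).mpr ⟨⟨⟨x, hx2⟩, 1, fun he => hx1 (congrArg Subtype.val he)⟩⟩
  have hn0 : n ≠ 0 := by
    rintro rfl
    rw [pow_zero] at hn
    omega
  have hev : Even (Nat.card (Om hS)) := by
    rw [hn]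
    exact (Nat.even_pow' hn0).mpr even_two
  rw [← h1] at hev
  by_contra hodd
  rw [Nat.not_odd_iff_even] at hodd
  have := hodd.add_one
  exact (Nat.not_even_iff_odd.mpr this) hev

lemma sq_surj (hS : Sz2 φ) (k : K) : ∃ l : K, l * l = k := by
  have hc : (Nat.card K).Coprime 2 := Nat.coprime_two_right.mpr (odd_card_K hS)
  obtain ⟨l, hl⟩ := (powCoprime hc).surjective k
  refine ⟨l, ?_⟩
  have : l ^ 2 = k := hl
  rwa [pow_two] at this

/-- The additive structure on `Om`: the sum of two powers of an automorphism is a power. -/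
lemma add_closure (hS : Sz2 φ) (α : K) : α = 1 ∨ ∃ β : K, ∀ z ∈ Om hS, φ α z * z = φ β z := by
  by_cases hα : α = 1
  · exact Or.inl hα
  right
  obtain ⟨x, y, -, hx1, hx2, -, -⟩ := hS.invs
  have hx : x ∈ Om hS := hx2
  set w := φ α x * x with hw
  have hwO : w ∈ Om hS := mul_mem (phi_mem_Om hS α hx) hx
  have hw1 : w ≠ 1 := by
    intro he
    have e : φ α x = x := by
      rw [hw, mul_eq_one_iff_eq_inv] at he
      rw [he, inv_eq_of_mul_eq_one_left hx2]
    have hph : φ 1 x = x := phi_one_apply x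
    obtain ⟨k, -, hk⟩ := hS.reg x x hx1 hx2 hx1 hx2
    exact hα ((hk α e).trans (hk 1 hph).symm)
  obtain ⟨β, hβ, -⟩ := hS.reg x w hx1 hx2 hw1 hwO
  refine ⟨β, ?_⟩
  intro z hz
  by_cases hz1 : z = 1
  · rw [hz1, map_one, map_one, one_mul]
  obtain ⟨γ, hγ, -⟩ := hS.reg x z hx1 hx2 hz1 hz
  rw [← hγ, phi_comm hS α γ, phi_comm hS β γ, ← map_mul, hβ]

end basic

end Cfsg.Agent.Suz2
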