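import Mathlib
import Cfsg.Agent.Lib.Suz2.Basic

/-!
Suzuki 2-groups: if a central element is not an involution, the group is abelian.
-/

set_option autoImplicit false
set_option linter.unusedSectionVars false
set_option linter.style.haveILetI false

namespace Cfsg.Agent.Suz2

universe u v

section comm

variable {G : Type u} [Group G] {K : Type v} [Group K] {φ : K →* MulAut G}

/-- the commutator -/
def BB (x y : G) : G := x⁻¹ * y⁻¹ * x * y

lemma BB_self (x : G) : BB x x = 1 := by
  unfold BB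
  group

lemma BB_eq_one {x y : G} : BB x y = 1 ↔ x * y = y * x := by
  unfold BB
  constructor
  · intro h
    have e : x * y = (y * x) * (x⁻¹ * y⁻¹ * x * y) := by group
    rw [e, h, mul_one]
  · intro h
    have e : x⁻¹ * y⁻¹ * x * y = x⁻¹ * y⁻¹ * (x * y) := by group
    rw [e, h]
    group

lemma BB_map (k : K) (x y : G) : φ k (BB x y) = BB (φ k x) (φ k y) := by
  unfold BB
  simp only [map_mul, map_inv]

section
variable (hc : ∀ x y : G, BB x y ∈ Subgroup.center G)
include hc

lemma BB_mul_left (x x' y : G) : BB (x * x') y = BB x y * BB x' y := by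
  have h1 := Subgroup.mem_center_iff.mp (hc x y) (x'⁻¹)
  unfold BB at h1 ⊢
  calc (x * x')⁻¹ * y⁻¹ * (x * x') * y = x'⁻¹ * (x⁻¹ * y⁻¹ * x * y) * y⁻¹ * x' * y := by group
    _ = (x⁻¹ * y⁻¹ * x * y) * x'⁻¹ * y⁻¹ * x' * y := by rw [h1]
    _ = _ := by group

lemma BB_mul_right (x y y' : G) : BB x (y * y') = BB x y * BB x y' := by
  have h1 := Subgroup.mem_center_iff.mp (hc x y) (x⁻¹ * y'⁻¹ * x)
  unfold BB at h1 ⊢
  calc x⁻¹ * (y * y')⁻¹ * x * (y * y') = (x⁻¹ * y'⁻¹ * x) * (x⁻¹ * y⁻¹ * x * y) * y' := by group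
    _ = (x⁻¹ * y⁻¹ * x * y) * (x⁻¹ * y'⁻¹ * x) * y' := by rw [h1]
    _ = _ := by group

end

lemma BB_central_left {c y : G} (hc : c ∈ Subgroup.center G) : BB c y = 1 :=
  BB_eq_one.mpr (Subgroup.mem_center_iff.mp hc y).symm

lemma BB_central_right {x c : G} (hc : c ∈ Subgroup.center G) : BB x c = 1 :=
  BB_eq_one.mpr (Subgroup.mem_center_iff.mp hc x)

/-- squaring in a group of class two -/
lemma sq_mul_of_class2 (hc : ∀ x y : G, BB x y ∈ Subgroup.center G) (x y : G) :
    (x * y) * (x * y) = (x * x) * (y * y) * BB y x := by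
  have h1 := Subgroup.mem_center_iff.mp (hc y x) y
  unfold BB at h1 ⊢
  calc (x * y) * (x * y) = (x * x) * y * (y⁻¹ * x⁻¹ * y * x) * y⁻¹ * y * y := by group
    _ = (x * x) * (y * (y⁻¹ * x⁻¹ * y * x)) * y := by group
    _ = (x * x) * ((y⁻¹ * x⁻¹ * y * x) * y) * y := by rw [h1]
    _ = (x * x) * (y⁻¹ * x⁻¹ * y * x * (y * y)) := by group
    _ = _ := by
        have h2 := Subgroup.mem_center_iff.mp (hc y x) (y * y)
        unfold BB at h2
        rw [← h2]
        group

end comm

section main

variable {G : Type u} [Group G] {K : Type v} [Group K] {φ : K →* MulAut G}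

section central
variable (hS : Sz2 φ) (hm : ∃ m ∈ Subgroup.center G, m * m ≠ 1 ∧ (m * m) * (m * m) = 1)
include hS hm

/-- Every element of `Om` is the square of a central element. -/
lemma sq_lift {c : G} (hc : c ∈ Om hS) : ∃ w ∈ Subgroup.center G, w * w = c := by
  by_cases hc1 : c = 1
  · exact ⟨1, one_mem _, by rw [hc1, one_mul]⟩
  obtain ⟨m, hm1, hm2, hm3⟩ := hm
  obtain ⟨k, hk, -⟩ := hS.reg (m * m) c hm2 hm3 hc1 hc
  refine ⟨φ k m, central_map k hm1, ?_⟩
  rw [← map_mul, hk]

lemma central_of_sq {y : G} (hy : y * y ∈ Om hS) : y ∈ Subgroup.center G := by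
  obtain ⟨w, hw, he⟩ := sq_lift hS hm hy
  have hcomm := Subgroup.mem_center_iff.mp hw y
  have h1 : (y * w⁻¹) * (y * w⁻¹) = 1 := by
    have hcomm' : w⁻¹ * y = y * w⁻¹ := by
      have := Subgroup.mem_center_iff.mp (inv_mem hw) y
      exact this.symm
    calc (y * w⁻¹) * (y * w⁻¹) = y * (w⁻¹ * y) * w⁻¹ := by group
      _ = y * (y * w⁻¹) * w⁻¹ := by rw [hcomm']
      _ = (y * y) * (w * w)⁻¹ := by group
      _ = 1 := by rw [he, mul_inv_cancel]
  have h2 := mem_central_of_sq hS h1
  have e : y = (y * w⁻¹) * w := by group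
  rw [e]
  exact mul_mem h2 hw

/-- The quotient by `Om` has the same shape. -/
noncomputable def phiQ' (hS : Sz2 φ) : K →* MulAut (G ⧸ Om hS) where
  toFun k := QuotientGroup.congr (Om hS) (Om hS) (φ k) (by
    ext x
    constructor
    · rintro ⟨y, hy, rfl⟩
      exact phi_mem_Om hS k hy
    · intro hx
      refine ⟨(φ k).symm x, ?_, by simp⟩
      have : (φ k).symm x * (φ k).symm x = 1 := by
        rw [← map_mul]
        have hx' : x * x = 1 := hx
        rw [hx', map_one]
      exact this)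
  map_one' := by
    ext x
    induction x using QuotientGroup.induction_on with
    | H x =>
      show ((φ 1 x : G) : G ⧸ Om hS) = (x : G ⧸ Om hS)
      rw [phi_one_apply]
  map_mul' := by
    intro a b
    ext x
    induction x using QuotientGroup.induction_on with
    | H x =>
      show ((φ (a * b) x : G) : G ⧸ Om hS) = ((φ a (φ b x) : G) : G ⧸ Om hS)
      rw [phi_mul_apply]

omit hm in
lemma phiQ'_mk (k : K) (x : G) : phiQ' hS k (x : G ⧸ Om hS) = ((φ k x : G) : G ⧸ Om hS) := rfl

lemma mk_invol {x : G} : ((x : G ⧸ Om hS) * (x : G ⧸ Om hS) = 1) ↔ x * x ∈ Om hS := by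
  rw [← QuotientGroup.mk_mul, QuotientGroup.eq_one_iff]

omit hm in
lemma mk_one {x : G} : (x : G ⧸ Om hS) = 1 ↔ x ∈ Om hS := QuotientGroup.eq_one_iff x

/-- The quotient is in the class. -/
lemma sz2_quot : Sz2 (phiQ' hS) := by
  haveI := hS.fin
  refine ⟨inferInstance, hS.two.to_quotient _, ?_, ?_, hS.comm⟩
  · obtain ⟨x, y, hxy, hx1, hx2, hy1, hy2⟩ := hS.invs
    obtain ⟨a, ha, hae⟩ := sq_lift hS hm (show x ∈ Om hS from hx2)
    obtain ⟨b, hb, hbe⟩ := sq_lift hS hm (show y ∈ Om hS from hy2)
    have hnt : ∀ w : G, w * w ≠ 1 → (w : G ⧸ Om hS) ≠ 1 := by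
      intro w hw he
      exact hw ((mk_one hS).mp he)
    refine ⟨(a : G ⧸ Om hS), (b : G ⧸ Om hS), ?_, hnt a (by rwa [hae]), ?_, hnt b (by rwa [hbe]), ?_⟩
    · intro he
      rw [QuotientGroup.eq] at he
      have hO : a⁻¹ * b ∈ Om hS := he
      have h1 : (a⁻¹ * b) * (a⁻¹ * b) = 1 := hO
      have hab : b * a⁻¹ = a⁻¹ * b := Subgroup.mem_center_iff.mp (inv_mem ha) b
      have h2 : (a⁻¹ * b) * (a⁻¹ * b) = (a * a)⁻¹ * (b * b) := by
        calc (a⁻¹ * b) * (a⁻¹ * b) = a⁻¹ * (b * a⁻¹) * b := by group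
          _ = a⁻¹ * (a⁻¹ * b) * b := by rw [hab]
          _ = (a * a)⁻¹ * (b * b) := by group
      rw [h2, hae, hbe, inv_mul_eq_one] at h1
      exact hxy h1
    · exact (mk_invol hS hm).mpr (by rw [hae]; exact hx2)
    · exact (mk_invol hS hm).mpr (by rw [hbe]; exact hy2)
  · intro x y
    induction x using QuotientGroup.induction_on with
    | H x =>
    induction y using QuotientGroup.induction_on with
    | H y =>
    intro hx1 hx2 hy1 hy2
    have hx2' := (mk_invol hS hm).mp hx2
    have hy2' := (mk_invol hS hm).mp hy2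
    have hxc := central_of_sq hS hm hx2'
    have hyc := central_of_sq hS hm hy2'
    have hxs : x * x ≠ 1 := fun he => hx1 ((mk_one hS).mpr he)
    have hys : y * y ≠ 1 := fun he => hy1 ((mk_one hS).mpr he)
    -- a relation between the squares and the cosets
    have hkey : ∀ k : K, phiQ' hS k (x : G ⧸ Om hS) = (y : G ⧸ Om hS) ↔ φ k (x * x) = y * y := by
      intro k
      rw [phiQ'_mk, QuotientGroup.eq]
      have hφc : φ k x ∈ Subgroup.center G := central_map k hxc
      have hcomm : y * (φ k x)⁻¹ = (φ k x)⁻¹ * y := Subgroup.mem_center_iff.mp (inv_mem hφc) y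
      have hform : ((φ k x)⁻¹ * y) * ((φ k x)⁻¹ * y) = (φ k (x * x))⁻¹ * (y * y) := by
        rw [map_mul]
        calc ((φ k x)⁻¹ * y) * ((φ k x)⁻¹ * y) = (φ k x)⁻¹ * (y * (φ k x)⁻¹) * y := by group
          _ = (φ k x)⁻¹ * ((φ k x)⁻¹ * y) * y := by rw [hcomm]
          _ = _ := by group
      constructor
      · intro h
        have h1 : ((φ k x)⁻¹ * y) * ((φ k x)⁻¹ * y) = 1 := h
        rw [hform, inv_mul_eq_one] at h1
        exact h1
      · intro h
        show ((φ k x)⁻¹ * y) * ((φ k x)⁻¹ * y) = 1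
        rw [hform, h, inv_mul_cancel]
    obtain ⟨k, hk, huniq⟩ := hS.reg (x * x) (y * y) hxs hx2' hys hy2'
    refine ⟨k, (hkey k).mpr hk, ?_⟩
    intro l hl
    exact huniq l ((hkey l).mp hl)

end central

/-- The subgroup of elements whose square has order at most two, when it is central. -/
def MMc (hS : Sz2 φ) (hm : ∃ m ∈ Subgroup.center G, m * m ≠ 1 ∧ (m * m) * (m * m) = 1) : Subgroup G where
  carrier := {y | y * y ∈ Om hS}
  one_mem' := by
    show (1 : G) * 1 ∈ Om hS
    rw [one_mul]
    exact one_mem _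
  mul_mem' := by
    intro a b ha hb
    have hac := central_of_sq hS hm ha
    show a * b * (a * b) ∈ Om hS
    have e : b * a = a * b := Subgroup.mem_center_iff.mp hac b
    have e2 : a * b * (a * b) = (a * a) * (b * b) := by
      calc a * b * (a * b) = a * (b * a) * b := by group
        _ = a * (a * b) * b := by rw [e]
        _ = _ := by group
    rw [e2]
    exact mul_mem ha hb
  inv_mem' := by
    intro a ha
    show a⁻¹ * a⁻¹ ∈ Om hS
    rw [← mul_inv_rev]
    exact inv_mem ha

section final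

variable (hS : Sz2 φ) (hm : ∃ m ∈ Subgroup.center G, m * m ≠ 1 ∧ (m * m) * (m * m) = 1)
  (hcomm : ∀ x y : G, BB x y ∈ Om hS)
include hS hm hcomm

/-- The last step: class two. -/
theorem abelian_of_comm_Om : ∀ a b : G, a * b = b * a := by
  classical
  haveI : Fact (Nat.Prime 2) := ⟨Nat.prime_two⟩
  haveI := hS.fin
  have hc : ∀ x y : G, BB x y ∈ Subgroup.center G := fun x y => Om_le_center hS (hcomm x y)
  have hBB2 : ∀ x y : G, BB x y * BB x y = 1 := fun x y => hcomm x y
  -- squares are central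
  have hsqc : ∀ x : G, x * x ∈ Subgroup.center G := by
    intro x
    rw [Subgroup.mem_center_iff]
    intro g
    have e : BB (x * x) g = 1 := by
      rw [BB_mul_left hc, hBB2]
    exact (BB_eq_one.mp e).symm
  -- the exponent of the centre
  set C := Subgroup.center G with hC
  have hpC : IsPGroup 2 C := hS.two.to_subgroup _
  obtain ⟨e, he⟩ : ∃ e, Monoid.exponent C = 2 ^ e := by
    obtain ⟨n, hn⟩ := IsPGroup.iff_card.mp hpC
    have h1 : Monoid.exponent C ∣ 2 ^ n := by
      rw [← hn]
      exact Group.exponent_dvd_nat_card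
    obtain ⟨j, -, hj⟩ := (Nat.dvd_prime_pow Nat.prime_two).mp h1
    exact ⟨j, hj⟩
  obtain ⟨m, hm1, hm2, hm3⟩ := id hm
  have he2 : 2 ≤ e := by
    by_contra hlt
    have h1 : e ≤ 1 := by omega
    have h2 : Monoid.exponent C ∣ 2 := by
      rw [he]
      exact pow_dvd_pow 2 h1 |>.trans (by norm_num)
    have h3 : (⟨m, hm1⟩ : C) ^ 2 = 1 := Monoid.exponent_dvd_iff_forall_pow_eq_one.mp h2 _
    apply hm2
    have h4 := congrArg Subtype.val h3
    simpa [pow_two] using h4
  obtain ⟨N, hN⟩ : ∃ N, e = N + 1 := ⟨e - 1, by omega⟩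
  have hN1 : 1 ≤ N := by omega
  have hpowC : ∀ c ∈ C, c ^ (2 ^ e) = 1 := by
    intro c hc'
    have h1 : (⟨c, hc'⟩ : C) ^ (2 ^ e) = 1 := by
      rw [← he]
      exact Monoid.pow_exponent_eq_one _
    exact congrArg Subtype.val h1
  -- the power map
  let powC : ℕ → (C →* C) := fun n =>
    { toFun := fun c => c ^ n
      map_one' := one_pow n
      map_mul' := fun a b => by
        have hab : Commute a b := Subtype.ext (Subgroup.mem_center_iff.mp b.2 (a : G))
        exact hab.mul_pow n }
  let P : C →* C := powC (2 ^ N)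
  let Sq : C →* C := powC 2
  have hrange_le : Sq.range ≤ P.ker := by
    rintro _ ⟨c, rfl⟩
    show (c ^ 2) ^ (2 ^ N) = 1
    rw [← pow_mul, mul_comm, ← pow_succ, ← hN, ← he]
    exact Monoid.pow_exponent_eq_one _
  -- image of `P` contains everything of order two
  have hPne : ∃ c : C, c ^ (2 ^ N) ≠ 1 := by
    by_contra hall
    push Not at hall
    have h1 : Monoid.exponent C ∣ 2 ^ N := Monoid.exponent_dvd_of_forall_pow_eq_one hall
    rw [he, hN] at h1
    have := (Nat.pow_dvd_pow_iff_le_right (by norm_num : 1 < 2)).mp h1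
    omega
  obtain ⟨c₀, hc₀⟩ := hPne
  have hPrange : P.range = Sq.ker := by
    apply le_antisymm
    · rintro _ ⟨c, rfl⟩
      show (c ^ (2 ^ N)) ^ 2 = 1
      rw [← pow_mul, ← pow_succ, ← hN, ← he]
      exact Monoid.pow_exponent_eq_one _
    · intro w hw
      have hw2 : (w : G) * (w : G) = 1 := by
        have h1 : w ^ 2 = 1 := hw
        have h2 := congrArg Subtype.val h1
        simpa [pow_two] using h2
      by_cases hw1 : w = 1
      · rw [hw1]
        exact one_mem _
      have hw1' : (w : G) ≠ 1 := fun he' => hw1 (Subtype.ext he')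
      have hz : ((c₀ ^ (2 ^ N) : C) : G) * ((c₀ ^ (2 ^ N) : C) : G) = 1 := by
        have h1 : (c₀ ^ (2 ^ N)) ^ 2 = 1 := by
          rw [← pow_mul, ← pow_succ, ← hN, ← he]
          exact Monoid.pow_exponent_eq_one _
        have h2 := congrArg Subtype.val h1
        simpa [pow_two] using h2
      have hz1 : ((c₀ ^ (2 ^ N) : C) : G) ≠ 1 := fun he' => hc₀ (Subtype.ext he')
      obtain ⟨k, hk, -⟩ := hS.reg _ _ hz1 hz hw1' hw2
      refine ⟨⟨φ k c₀, central_map k c₀.2⟩, ?_⟩
      apply Subtype.ext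
      show (φ k (c₀ : G)) ^ (2 ^ N) = w
      rw [← map_pow]
      have : ((c₀ ^ (2 ^ N) : C) : G) = (c₀ : G) ^ (2 ^ N) := rfl
      rw [← this, hk]
  have hkerP : P.ker = Sq.range := by
    symm
    apply Subgroup.eq_of_le_of_card_ge hrange_le
    have h1 := Subgroup.card_mul_index P.ker
    have h2 := Subgroup.card_mul_index Sq.ker
    rw [Subgroup.index_ker] at h1 h2
    rw [hPrange] at h1
    have hpos : 0 < Nat.card Sq.ker := Nat.card_pos
    apply Nat.le_of_mul_le_mul_left _ hpos
    rw [h2, mul_comm, h1]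
  -- the map `π`
  let π : G → G := fun x => x ^ (2 ^ e)
  have hπ_sq : ∀ x : G, π x = (x * x) ^ (2 ^ N) := by
    intro x
    show x ^ (2 ^ e) = _
    rw [← pow_two, ← pow_mul, hN, pow_succ, mul_comm]
  have hπO : ∀ x : G, π x ∈ Om hS := by
    intro x
    show π x * π x = 1
    rw [hπ_sq, ← pow_add, ← two_mul, ← pow_succ', ← hN]
    exact hpowC _ (hsqc x)
  have hπmul : ∀ x y : G, π (x * y) = π x * π y := by
    intro x y
    rw [hπ_sq, hπ_sq, hπ_sq, sq_mul_of_class2 hc]
    have hcom1 : Commute ((x * x) * (y * y)) (BB y x) :=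
      Subgroup.mem_center_iff.mp (hc y x) _
    have hcom2 : Commute (x * x) (y * y) := Subgroup.mem_center_iff.mp (hsqc y) _
    rw [hcom1.mul_pow, hcom2.mul_pow]
    have h1 : BB y x ^ (2 ^ N) = 1 := by
      obtain ⟨M, hM⟩ : ∃ M, N = M + 1 := ⟨N - 1, by omega⟩
      rw [hM, pow_succ', pow_mul, pow_two, hBB2, one_pow]
    rw [h1, mul_one]
  have hπmap : ∀ (k : K) (x : G), π (φ k x) = φ k (π x) := by
    intro k x
    show (φ k x) ^ (2 ^ e) = φ k (x ^ (2 ^ e))
    rw [map_pow]
  have hπinv : ∀ x : G, π x⁻¹ = (π x)⁻¹ := by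
    intro x
    show x⁻¹ ^ (2 ^ e) = (x ^ (2 ^ e))⁻¹
    rw [inv_pow]
  -- the kernel of `π` is central
  have hπker : ∀ x : G, π x = 1 → x ∈ C := by
    intro x hx
    rw [hπ_sq] at hx
    have h1 : (⟨x * x, hsqc x⟩ : C) ∈ P.ker := by
      show (⟨x * x, hsqc x⟩ : C) ^ (2 ^ N) = 1
      apply Subtype.ext
      exact hx
    rw [hkerP] at h1
    obtain ⟨c, hc'⟩ := h1
    have h2 : (c : G) ^ 2 = x * x := congrArg Subtype.val hc'
    rw [pow_two] at h2
    have hcc : (c : G) ∈ C := c.2
    have hcomm' : (c : G)⁻¹ * x = x * (c : G)⁻¹ := (Subgroup.mem_center_iff.mp (inv_mem hcc) x).symm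
    have h3 : (x * (c : G)⁻¹) * (x * (c : G)⁻¹) = 1 := by
      calc (x * (c : G)⁻¹) * (x * (c : G)⁻¹) = x * ((c : G)⁻¹ * x) * (c : G)⁻¹ := by group
        _ = x * (x * (c : G)⁻¹) * (c : G)⁻¹ := by rw [hcomm']
        _ = (x * x) * ((c : G) * (c : G))⁻¹ := by group
        _ = 1 := by rw [h2, mul_inv_cancel]
    have h4 := mem_central_of_sq hS h3
    have e' : x = (x * (c : G)⁻¹) * c := by group
    rw [e']
    exact mul_mem h4 hcc
  -- self-adjointness
  have hself : ∀ (α : K) (x y : G), BB (φ α x) y = BB x (φ α y) := by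
    intro α x y
    rcases add_closure hS α with rfl | ⟨β, hβ⟩
    · rw [phi_one_apply, phi_one_apply]
    have hmod : ∀ x : G, φ α x * x * (φ β x)⁻¹ ∈ C := by
      intro x
      apply hπker
      rw [hπmul, hπmul, hπinv, hπmap, hπmap, hβ _ (hπO x), mul_inv_cancel]
    have hcongr : BB (φ α x * x) (φ α y * y) = BB (φ β x) (φ β y) := by
      have e1 : φ α x * x = (φ α x * x * (φ β x)⁻¹) * φ β x := by group
      have e2 : φ α y * y = (φ α y * y * (φ β y)⁻¹) * φ β y := by group
      rw [e1, e2, BB_mul_left hc, BB_central_left (hmod x), one_mul, BB_mul_right hc,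
        BB_central_right (hmod y), one_mul]
    rw [← BB_map, ← hβ _ (hcomm x y)] at hcongr
    rw [BB_mul_left hc, BB_mul_right hc, BB_mul_right hc, ← BB_map] at hcongr
    -- all terms commute and have order two
    have h2 : BB (φ α x) y * BB x (φ α y) = 1 := by
      have hcancel : (φ α (BB x y) * BB (φ α x) y) * (BB x (φ α y) * BB x y) = φ α (BB x y) * BB x y := hcongr
      have e3 : (φ α (BB x y) * BB (φ α x) y) * (BB x (φ α y) * BB x y) =
          φ α (BB x y) * (BB (φ α x) y * BB x (φ α y)) * BB x y := by group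
      rw [e3] at hcancel
      have hcancel' := mul_right_cancel hcancel
      exact mul_left_cancel (hcancel'.trans (mul_one _).symm)
    have h3 : BB (φ α x) y = (BB x (φ α y))⁻¹ := eq_inv_of_mul_eq_one_left h2
    rw [h3]
    exact inv_eq_of_mul_eq_one_left (hBB2 x (φ α y))
  -- conclusion
  by_contra hna
  push Not at hna
  obtain ⟨a, b, hab⟩ := hna
  have haC : a ∉ C := fun h => hab (Subgroup.mem_center_iff.mp h b).symm
  have hπa : π a ≠ 1 := fun h => haC (hπker a h)
  have hconj : ∀ x : G, x ∈ C ∨ ∃ α : K, (φ α a)⁻¹ * x ∈ C := by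
    intro x
    by_cases hx : x ∈ C
    · exact Or.inl hx
    right
    have hπx : π x ≠ 1 := fun h => hx (hπker x h)
    obtain ⟨α, hα, -⟩ := hS.reg (π a) (π x) hπa (hπO a) hπx (hπO x)
    refine ⟨α, hπker _ ?_⟩
    rw [hπmul, hπinv, hπmap, hα, inv_mul_cancel]
  have hform : ∀ (x : G) (α : K), (φ α a)⁻¹ * x ∈ C → ∀ y : G, BB x y = BB (φ α a) y := by
    intro x α hx y
    have e1 : x = φ α a * ((φ α a)⁻¹ * x) := by group
    rw [e1, BB_mul_left hc, BB_central_left hx, mul_one]
  have hform' : ∀ (y : G) (α : K), (φ α a)⁻¹ * y ∈ C → ∀ x : G, BB x y = BB x (φ α a) := by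
    intro y α hy x
    have e1 : y = φ α a * ((φ α a)⁻¹ * y) := by group
    rw [e1, BB_mul_right hc, BB_central_right hy, mul_one]
  have hzero : ∀ α γ : K, BB (φ α a) (φ γ a) = 1 := by
    intro α γ
    rw [hself, ← phi_mul_apply]
    obtain ⟨δ, hδ⟩ := sq_surj hS (α * γ)
    rw [← hδ, phi_mul_apply, ← hself]
    exact BB_self _
  apply hab
  apply BB_eq_one.mp
  rcases hconj a with h | ⟨α, hα⟩
  · exact absurd h haC
  rcases hconj b with h | ⟨γ, hγ⟩
  · exact BB_central_right h
  rw [hform a α hα, hform' b γ hγ]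
  exact hzero α γ

end final

end main

/-- If a central element is not an involution, the group is abelian. -/
theorem abelian_of_central {K : Type v} [Group K] : ∀ (n : ℕ) (G : Type u) [Group G] (φ : K →* MulAut G),
    Sz2 φ → Nat.card G = n → (∃ x ∈ Subgroup.center G, x * x ≠ 1) → ∀ a b : G, a * b = b * a := by
  intro n
  induction n using Nat.strong_induction_on with
  | _ n IH =>
  intro G _ φ hS hn hx
  classical
  haveI : Fact (Nat.Prime 2) := ⟨Nat.prime_two⟩
  haveI := hS.fin
  -- an element of order 4 in the centre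
  have hm : ∃ m ∈ Subgroup.center G, m * m ≠ 1 ∧ (m * m) * (m * m) = 1 := by
    obtain ⟨x, hxc, hx2⟩ := hx
    obtain ⟨j, hj⟩ := hS.two x
    -- the least `j` with `x ^ (2 ^ j) = 1`
    have hex : ∃ j, x ^ (2 ^ j) = 1 := ⟨j, hj⟩
    set t := Nat.find hex with ht
    have hts : x ^ (2 ^ t) = 1 := Nat.find_spec hex
    have ht2 : 2 ≤ t := by
      by_contra hlt
      have : t ≤ 1 := by omega
      have h1 : x ^ 2 = 1 := by
        have h3 : 2 ^ t ∣ 2 := by
          calc 2 ^ t ∣ 2 ^ 1 := pow_dvd_pow 2 this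
            _ = 2 := by norm_num
        exact orderOf_dvd_iff_pow_eq_one.mp ((orderOf_dvd_of_pow_eq_one hts).trans h3)
      exact hx2 (by rwa [pow_two] at h1)
    obtain ⟨r, hr⟩ : ∃ r, t = r + 2 := ⟨t - 2, by omega⟩
    refine ⟨x ^ (2 ^ r), pow_mem hxc _, ?_, ?_⟩
    · intro he
      have h1 : x ^ (2 ^ (r + 1)) = 1 := by
        rw [pow_succ, pow_mul, pow_two]
        exact he
      have := Nat.find_min' hex h1
      omega
    · rw [← pow_add, ← pow_add, ← two_mul, ← two_mul]
      have h1 : 2 * (2 * 2 ^ r) = 2 ^ t := by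
        rw [hr]
        ring
      rw [h1, hts]
  obtain ⟨m, hm1, hm2, hm3⟩ := id hm
  let M := MMc hS hm
  have hMc : M ≤ Subgroup.center G := fun y hy => central_of_sq hS hm hy
  have hOM : Om hS ≤ M := by
    intro y hy
    show y * y ∈ Om hS
    have : y * y = 1 := hy
    rw [this]
    exact one_mem _
  -- the quotient
  have hSQ := sz2_quot hS hm
  have hlt : Nat.card (G ⧸ Om hS) < n := by
    rw [← hn]
    have h1 := Subgroup.card_eq_card_quotient_mul_card_subgroup (Om hS)
    have h2 : 1 < Nat.card (Om hS) := by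
      obtain ⟨x, y, -, hx1, hx2, -, -⟩ := hS.invs
      exact (Finite.one_lt_card_iff_nontrivial).mpr ⟨⟨⟨x, hx2⟩, 1, fun he => hx1 (congrArg Subtype.val he)⟩⟩
    have h3 : 0 < Nat.card (G ⧸ Om hS) := Nat.card_pos
    rw [h1]
    nlinarith
  have hIH := IH _ hlt (G ⧸ Om hS) (phiQ' hS) hSQ rfl
  by_cases hcase : ∃ x ∈ Subgroup.center (G ⧸ Om hS), x * x ≠ 1
  · -- the quotient is abelian
    have hab := hIH hcase
    have hcomm : ∀ x y : G, BB x y ∈ Om hS := by
      intro x y
      have h1 : ((y * x : G) : G ⧸ Om hS) = ((x * y : G) : G ⧸ Om hS) := by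
        rw [QuotientGroup.mk_mul, QuotientGroup.mk_mul]
        exact hab _ _
      rw [QuotientGroup.eq] at h1
      have e : (y * x)⁻¹ * (x * y) = BB x y := by
        unfold BB
        group
      rwa [e] at h1
    exact abelian_of_comm_Om hS hm hcomm
  · -- the central elements of the quotient are involutions: `G = M`.
    push Not at hcase
    have hall : ∀ g : G, g ∈ M := by
      by_contra hne
      push Not at hne
      obtain ⟨g, hg⟩ := hne
      haveI hMn : M.Normal := ⟨fun n hn g => by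
        have hc := Subgroup.mem_center_iff.mp (hMc hn) g
        rw [hc, mul_inv_cancel_right]
        exact hn⟩
      haveI : Nontrivial (G ⧸ M) := by
        refine ⟨⟨(g : G ⧸ M), 1, fun he => hg ((QuotientGroup.eq_one_iff g).mp he)⟩⟩
      obtain ⟨z, hzc, hz1, hz2⟩ := exists_central_invol (hS.two.to_quotient M)
      obtain ⟨x, rfl⟩ := QuotientGroup.mk_surjective z
      have hx2 : x * x ∈ M := by
        rw [← QuotientGroup.mk_mul] at hz2
        exact (QuotientGroup.eq_one_iff _).mp hz2
      have hxM : x ∉ M := fun h => hz1 ((QuotientGroup.eq_one_iff x).mpr h)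
      have hcm : ∀ y : G, BB x y ∈ M := by
        intro y
        have h1 := Subgroup.mem_center_iff.mp hzc (y : G ⧸ M)
        rw [← QuotientGroup.mk_mul, ← QuotientGroup.mk_mul, QuotientGroup.eq] at h1
        have e : (y * x)⁻¹ * (x * y) = BB x y := by
          unfold BB
          group
        rwa [e] at h1
      have hcO : ∀ y : G, BB x y ∈ Om hS := by
        intro y
        -- `x * x` is central, so the square of the commutator is trivial
        have hcC : BB x y ∈ Subgroup.center G := hMc (hcm y)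
        have hxxC : x * x ∈ Subgroup.center G := hMc hx2
        have e1 : y⁻¹ * x * y = x * BB x y := by
          unfold BB
          group
        have e2 : (y⁻¹ * x * y) * (y⁻¹ * x * y) = x * x := by
          have h5 : y⁻¹ * (x * x) = (x * x) * y⁻¹ := Subgroup.mem_center_iff.mp hxxC y⁻¹
          calc (y⁻¹ * x * y) * (y⁻¹ * x * y) = y⁻¹ * (x * x) * y := by group
            _ = (x * x) * y⁻¹ * y := by rw [h5]
            _ = x * x := by group
        have e3 : (x * BB x y) * (x * BB x y) = (x * x) * (BB x y * BB x y) := by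
          have h5 : x * BB x y = BB x y * x := Subgroup.mem_center_iff.mp hcC x
          calc (x * BB x y) * (x * BB x y) = x * (BB x y * x) * BB x y := by group
            _ = x * (x * BB x y) * BB x y := by rw [h5]
            _ = _ := by group
        rw [e1, e3] at e2
        exact mul_left_cancel (e2.trans (mul_one _).symm)
      have hxbar : ((x : G) : G ⧸ Om hS) ∈ Subgroup.center (G ⧸ Om hS) := by
        rw [Subgroup.mem_center_iff]
        intro ybar
        induction ybar using QuotientGroup.induction_on with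
        | H y =>
        rw [← QuotientGroup.mk_mul, ← QuotientGroup.mk_mul, QuotientGroup.eq]
        have e : (y * x)⁻¹ * (x * y) = BB x y := by
          unfold BB
          group
        rw [e]
        exact hcO y
      have h3 := hcase _ hxbar
      apply hxM
      rw [← QuotientGroup.mk_mul] at h3
      exact (QuotientGroup.eq_one_iff (x * x)).mp h3
    intro a b
    exact (Subgroup.mem_center_iff.mp (hMc (hall a)) b).symm

end Cfsg.Agent.Suz2
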