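import Mathlib

/-!
Gauss sums of quadratic maps over the field with two elements and a counting consequence.
-/

set_option autoImplicit false
set_option linter.unusedSectionVars false
set_option linter.style.haveILetI false

namespace Cfsg.Agent.Suz2

/-- The sign character. -/
def ee (a : ZMod 2) : ℤ := if a = 0 then 1 else -1

lemma ee_add (a b : ZMod 2) : ee (a + b) = ee a * ee b := by
  revert a b
  decide

lemma ee_zero : ee 0 = 1 := by
  unfold ee
  rw [if_pos rfl]

lemma sum_ee_hom {A : Type*} [AddCommGroup A] [Fintype A] (f : A →+ ZMod 2) {a : A} (ha : f a ≠ 0) :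
    ∑ x, ee (f x) = 0 := by
  have h1 : ee (f a) = -1 := by
    unfold ee
    rw [if_neg ha]
  have h2 : ∑ x, ee (f x) = ∑ x, ee (f (x + a)) := (Equiv.sum_comp (Equiv.addRight a) (fun x => ee (f x))).symm
  have h3 : ∑ x, ee (f (x + a)) = - ∑ x, ee (f x) := by
    rw [← Finset.sum_neg_distrib]
    apply Finset.sum_congr rfl
    intro x _
    rw [map_add, ee_add, h1]
    ring
  linarith

lemma sum_ee_zero {A : Type*} [Fintype A] (f : A → ZMod 2) (h : ∀ a, f a = 0) :
    ∑ x, ee (f x) = Fintype.card A := by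
  have : ∀ x, ee (f x) = 1 := fun x => by rw [h, ee_zero]
  simp [this]

/-- The square of a quadratic Gauss sum over the field with two elements. -/
theorem gauss_sq {V : Type*} [AddCommGroup V] [Fintype V] (g : V → ZMod 2) (hg0 : g 0 = 0)
    (b : V →+ (V →+ ZMod 2)) (hV2 : ∀ v : V, v + v = 0) (hb : ∀ u v, g (u + v) = g u + g v + b u v) :
    (∑ v, ee (g v)) ^ 2 = 0 ∨ ∃ r : ℕ, r ∣ Fintype.card V ∧ (∑ v, ee (g v)) ^ 2 = Fintype.card V * r := by
  classical
  have h2 : ∀ a : ZMod 2, a + a = 0 := CharTwo.add_self_eq_zero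
  have hsymm : ∀ u v, b u v = b v u := by
    intro u v
    have h1 := hb u v
    have h3 := hb v u
    rw [add_comm v u, h1, add_comm (g v) (g u)] at h3
    exact add_left_cancel h3
  have h1 : (∑ v, ee (g v)) ^ 2 = ∑ w, ee (g w) * ∑ u, ee (b w u) := by
    rw [pow_two, Finset.sum_mul]
    have h : ∀ u, ee (g u) * ∑ v, ee (g v) = ∑ w, ee (g w) * ee (b w u) := by
      intro u
      rw [← Equiv.sum_comp (Equiv.addLeft u) (fun v => ee (g v)), Finset.mul_sum]
      apply Finset.sum_congr rfl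
      intro w _
      simp only [Equiv.coe_addLeft]
      rw [← ee_add, ← ee_add, hb u w, hsymm u w]
      congr 1
      have := h2 (g u)
      linear_combination this
    rw [Finset.sum_congr rfl (fun u _ => h u), Finset.sum_comm]
    apply Finset.sum_congr rfl
    intro w _
    rw [Finset.mul_sum]
  let R : AddSubgroup V := b.ker
  have hmemR : ∀ w, w ∈ R ↔ b w = 0 := fun w => AddMonoidHom.mem_ker
  have h3 : ∀ w, ∑ u, ee (b w u) = if w ∈ R then (Fintype.card V : ℤ) else 0 := by
    intro w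
    split_ifs with hw
    · apply sum_ee_zero
      intro u
      rw [(hmemR w).mp hw]
      rfl
    · have : ∃ u, b w u ≠ 0 := by
        by_contra hc
        push Not at hc
        exact hw ((hmemR w).mpr (AddMonoidHom.ext hc))
      obtain ⟨u, hu⟩ := this
      exact sum_ee_hom (b w) hu
  have h4 : (∑ v, ee (g v)) ^ 2 = (Fintype.card V : ℤ) * ∑ w : R, ee (g w) := by
    rw [h1, Finset.mul_sum]
    have e : ∑ w ∈ Finset.univ.filter (fun w => w ∈ R), (Fintype.card V : ℤ) * ee (g w) =
        ∑ w : R, (Fintype.card V : ℤ) * ee (g w) :=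
      Finset.sum_subtype (Finset.univ.filter (fun w => w ∈ R)) (p := fun w => w ∈ R) (by simp)
        (fun w => (Fintype.card V : ℤ) * ee (g w))
    rw [← e, Finset.sum_filter]
    apply Finset.sum_congr rfl
    intro w _
    rw [h3]
    split_ifs
    · ring
    · simp
  let gR : R →+ ZMod 2 :=
    { toFun := fun w => g w
      map_zero' := hg0
      map_add' := fun w w' => by
        show g ((w : V) + w') = g w + g w'
        rw [hb, (hmemR w).mp w.2]
        simp }
  by_cases hc : ∃ w : R, gR w ≠ 0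
  · obtain ⟨w, hw⟩ := hc
    left
    rw [h4]
    have := sum_ee_hom gR hw
    have e : ∑ x : R, ee (gR x) = ∑ w : R, ee (g w) := rfl
    rw [← e, this, mul_zero]
  · push Not at hc
    right
    refine ⟨Fintype.card R, ?_, ?_⟩
    · rw [← Nat.card_eq_fintype_card, ← Nat.card_eq_fintype_card]
      exact AddSubgroup.card_addSubgroup_dvd_card R
    · rw [h4]
      have := sum_ee_zero gR hc
      have e : ∑ x : R, ee (gR x) = ∑ w : R, ee (g w) := rfl
      rw [← e, this]

/-- Counting through a regular action on the fibres of a quadratic map. -/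
theorem gauss_count {V Z : Type*} [AddCommGroup V] [AddCommGroup Z] [Fintype V] [Fintype Z] (hV2 : ∀ v : V, v + v = 0)
    (hZ2 : ∀ z : Z, z + z = 0) (s : V → Z) (hs0 : s 0 = 0) (hs1 : ∀ v, s v = 0 → v = 0) (B : V → V → Z)
    (hB : ∀ u v, s (u + v) = s u + s v + B u v) (hBadd : ∀ u u' v, B (u + u') v = B u v + B u' v)
    (hreg : ∀ z z' : Z, z ≠ 0 → z' ≠ 0 → ∃ f : V → V, Function.Injective f ∧ ∀ v, s v = z → s (f v) = z')
    (hnt : ∃ z : Z, z ≠ 0) :
    ∃ N : ℕ, (Fintype.card V : ℤ) = 1 + ((Fintype.card Z : ℤ) - 1) * N ∧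
      ((N : ℤ) - 1 = 0 ∨ ∃ r : ℕ, r ∣ Fintype.card V ∧ ((N : ℤ) - 1) ^ 2 = Fintype.card V * r) := by
  classical
  haveI : Fact (Nat.Prime 2) := ⟨Nat.prime_two⟩
  obtain ⟨z₀, hz₀⟩ := hnt
  letI iZ : Module (ZMod 2) Z := AddCommGroup.zmodModule (n := 2) (by
    intro x
    rw [two_nsmul]
    exact hZ2 x)
  obtain ⟨f₀, hf₀⟩ : ∃ f : Module.Dual (ZMod 2) Z, f z₀ ≠ 0 := by
    by_contra hc
    push Not at hc
    exact hz₀ ((Module.forall_dual_apply_eq_zero_iff (ZMod 2) z₀).mp hc)
  let f : Z →+ ZMod 2 := f₀.toAddMonoidHom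
  have hfne : f z₀ ≠ 0 := hf₀
  have hsymm : ∀ u v, B u v = B v u := by
    intro u v
    have h1 := hB u v
    have h3 := hB v u
    rw [add_comm v u, h1, add_comm (s v) (s u)] at h3
    exact add_left_cancel h3
  let b : V →+ (V →+ ZMod 2) := AddMonoidHom.mk' (fun u => AddMonoidHom.mk' (fun v => f (B u v)) (by
      intro v v'
      rw [hsymm, hBadd, map_add, hsymm v, hsymm v'])) (by
      intro u u'
      ext v
      show f (B (u + u') v) = f (B u v) + f (B u' v)
      rw [hBadd, map_add])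
  have hbdef : ∀ u v, b u v = f (B u v) := fun _ _ => rfl
  have hG := gauss_sq (fun v => f (s v)) (by simp only [hs0, map_zero]) b hV2 (by
    intro u v
    simp only [hB, map_add, hbdef])
  let c : Z → ℕ := fun z => (Finset.univ.filter (fun v => s v = z)).card
  have hc0 : c 0 = 1 := by
    have : Finset.univ.filter (fun v => s v = 0) = {0} := by
      ext v
      simp only [Finset.mem_filter, Finset.mem_univ, true_and, Finset.mem_singleton]
      exact ⟨hs1 v, fun h => by rw [h, hs0]⟩
    show (Finset.univ.filter (fun v => s v = 0)).card = 1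
    rw [this, Finset.card_singleton]
  have hcle : ∀ z z', z ≠ 0 → z' ≠ 0 → c z ≤ c z' := by
    intro z z' hz hz'
    obtain ⟨φ, hφ, hφs⟩ := hreg z z' hz hz'
    apply Finset.card_le_card_of_injOn φ
    · intro v hv
      simp only [Finset.coe_filter, Finset.mem_univ, true_and, Set.mem_setOf_eq] at hv ⊢
      exact hφs v hv
    · exact hφ.injOn
  have hcN : ∀ z, z ≠ 0 → c z = c z₀ := fun z hz => le_antisymm (hcle z z₀ hz hz₀) (hcle z₀ z hz₀ hz)
  set N := c z₀ with hN
  have hcform : ∀ z, (c z : ℤ) = N + (if z = 0 then (1 : ℤ) - N else 0) := by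
    intro z
    by_cases hz : z = 0
    · subst hz
      rw [hc0, if_pos rfl]
      simp
    · rw [hcN z hz, if_neg hz, add_zero]
  have hfib : ∀ F : Z → ℤ, ∑ v, F (s v) = ∑ z, (c z : ℤ) * F z := by
    intro F
    rw [← Finset.sum_fiberwise Finset.univ s (fun v => F (s v))]
    apply Finset.sum_congr rfl
    intro z _
    rw [Finset.sum_congr rfl (g := fun _ => F z) (by
      intro v hv
      rw [(Finset.mem_filter.mp hv).2])]
    rw [Finset.sum_const, nsmul_eq_mul]
  have hcard : (Fintype.card V : ℤ) = 1 + ((Fintype.card Z : ℤ) - 1) * N := by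
    have h := hfib (fun _ => 1)
    simp only [Finset.sum_const, Finset.card_univ, mul_one, nsmul_eq_mul, hcform] at h
    rw [h, Finset.sum_add_distrib]
    simp only [Finset.sum_const, Finset.sum_ite_eq', Finset.mem_univ, if_true, Finset.card_univ, nsmul_eq_mul]
    ring
  have hS : ∑ v, ee (f (s v)) = 1 - N := by
    rw [hfib (fun z => ee (f z))]
    simp only [hcform, add_mul, Finset.sum_add_distrib, ← Finset.mul_sum, sum_ee_hom f hfne, mul_zero, zero_add]
    simp only [ite_mul, zero_mul, Finset.sum_ite_eq', Finset.mem_univ, if_true, map_zero, ee_zero]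
    ring
  refine ⟨N, hcard, ?_⟩
  rcases hG with h | ⟨r, hr, h⟩
  · left
    have h' := pow_eq_zero_iff (two_ne_zero) |>.mp h
    have h'' : ∑ v, ee (f (s v)) = 0 := h'
    rw [hS] at h''
    linarith
  · right
    refine ⟨r, hr, ?_⟩
    have h'' : (∑ v, ee (f (s v))) ^ 2 = (Fintype.card V : ℤ) * r := h
    rw [hS] at h''
    rw [← h'']
    ring

/-- The arithmetic of the order. -/
theorem card_cases {m n N : ℕ} (hn : n ≠ 0) (hm : (2 ^ m : ℤ) = 1 + (2 ^ n - 1) * N) (hN : N = 1 ∨ ∃ t, N = 2 ^ t + 1) :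
    m = n ∨ m = 2 * n := by
  have hinj : ∀ a b : ℕ, (2 ^ a : ℤ) = 2 ^ b → a = b := by
    intro a b h
    exact Nat.pow_right_injective (le_refl 2) (by exact_mod_cast h)
  rcases hN with rfl | ⟨t, rfl⟩
  · left
    apply hinj
    rw [hm]
    push_cast
    ring
  · have hexp : (2 ^ m : ℤ) = 2 ^ (n + t) + 2 ^ n - 2 ^ t := by
      rw [hm, pow_add]
      push_cast
      ring
    rcases lt_trichotomy t n with ht | ht | ht
    · exfalso
      obtain ⟨d, rfl⟩ : ∃ d, n = t + (d + 1) := ⟨n - t - 1, by omega⟩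
      have h1 : (2 ^ m : ℤ) = 2 ^ t * (2 * (2 ^ (t + d) + 2 ^ d - 1) + 1) := by
        rw [hexp]
        ring
      set a : ℤ := 2 ^ (t + d) + 2 ^ d - 1 with ha
      have ha1 : 1 ≤ a := by
        have h3 : (1 : ℤ) ≤ 2 ^ (t + d) := one_le_pow₀ (by norm_num)
        have h4 : (1 : ℤ) ≤ 2 ^ d := one_le_pow₀ (by norm_num)
        omega
      obtain ⟨a', ha'⟩ : ∃ a' : ℕ, a = a' := ⟨a.toNat, by omega⟩
      rw [ha'] at h1
      have h2 : 2 ^ m = 2 ^ t * (2 * a' + 1) := by exact_mod_cast h1
      have hdvd : (2 * a' + 1) ∣ 2 ^ m := ⟨2 ^ t, by rw [h2]; ring⟩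
      obtain ⟨i, -, hi⟩ := (Nat.dvd_prime_pow Nat.prime_two).mp hdvd
      cases i with
      | zero => 
        simp at hi
        omega
      | succ i =>
        rw [pow_succ] at hi
        omega
    · right
      subst ht
      apply hinj
      rw [hexp, two_mul]
      ring
    · exfalso
      obtain ⟨d, rfl⟩ : ∃ d, t = n + (d + 1) := ⟨t - n - 1, by omega⟩
      have h1 : (2 ^ m : ℤ) = 2 ^ n * (2 * (2 ^ d * (2 ^ n - 1)) + 1) := by
        rw [hexp]
        ring
      set a : ℤ := 2 ^ d * (2 ^ n - 1) with ha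
      have h5 : (2 : ℤ) ≤ 2 ^ n := by
        obtain ⟨n', rfl⟩ := Nat.exists_eq_succ_of_ne_zero hn
        rw [pow_succ]
        have : (1 : ℤ) ≤ 2 ^ n' := one_le_pow₀ (by norm_num)
        omega
      have ha1 : 1 ≤ a := by
        have h4 : (1 : ℤ) ≤ 2 ^ d := one_le_pow₀ (by norm_num)
        rw [ha]
        nlinarith
      obtain ⟨a', ha'⟩ : ∃ a' : ℕ, a = a' := ⟨a.toNat, by omega⟩
      rw [ha'] at h1
      have h2 : 2 ^ m = 2 ^ n * (2 * a' + 1) := by exact_mod_cast h1
      have hdvd : (2 * a' + 1) ∣ 2 ^ m := ⟨2 ^ n, by rw [h2]; ring⟩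
      obtain ⟨i, -, hi⟩ := (Nat.dvd_prime_pow Nat.prime_two).mp hdvd
      cases i with
      | zero =>
        simp at hi
        omega
      | succ i =>
        rw [pow_succ] at hi
        omega

end Cfsg.Agent.Suz2
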