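import Mathlib
import Cfsg.Agent.Lib.Suz2.Abs

/-!
Higman's argument in coordinates, the main statement.
-/

set_option autoImplicit false
set_option linter.unusedSectionVars false
set_option linter.style.haveILetI false

namespace Cfsg.Agent.Suz2

open Polynomial

theorem sq_zero_of_relations {F : Type*} [Field F] [Fintype F] [CharP F 2] [Algebra (ZMod 2) F]
    {H : Type*} [AddCommGroup H] [Module (ZMod 2) H]
    (ω : F) (hω : ∀ x : F, x ≠ 0 → ∃ t : ℕ, ω ^ t = x) (hω0 : ω ≠ 0) (hω1 : ω ≠ 1)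
    (T : H →ₗ[ZMod 2] H) (hfpf : ∀ (t : ℕ) (h : H), h ≠ 0 → (T ^ t) h = h → ω ^ t = 1)
    (A : H →+ (F →+ F)) (hAinj : ∀ h, A h = 0 → h = 0) (hAT : ∀ h v, A (T h) (ω * v) = ω * A h v)
    (s : H → F) (B : H → H → F) (hs : ∀ h h', s (h + h') = s h + s h' + B h h')
    (hBadd : ∀ h h' h'', B (h + h') h'' = B h h'' + B h' h'') (hBsymm : ∀ h h', B h h' = B h' h)
    (hBself : ∀ h, B h h = 0)
    (hstar : ∀ h h', A h' (s h) = B h h' + A h (B h h')) : ∀ h, s h = 0 := by
  classical
  haveI : Finite (F ≃+* F) := Finite.of_injective (fun f : F ≃+* F => (f : F → F)) (fun a b h => by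
    ext x
    exact congrFun h x)
  letI : Fintype (F ≃+* F) := Fintype.ofFinite _
  have h2 : (2 : F) = 0 := CharTwo.two_eq_zero
  obtain ⟨c, hc⟩ := Cfsg.Agent.Lib.Cl.exists_aut_coord (F := F)
  let a : (F ≃+* F) → H →+ F := fun τ => (c τ).comp A
  have hA : ∀ h v, A h v = ∑ σ, a σ h * σ v := fun h v => hc (A h) v
  have hne : ∀ τ : F ≃+* F, τ ω ≠ 0 := fun τ h0 => hω0 (τ.injective (h0.trans (map_zero τ).symm))
  have hη : ∀ τ h, a τ (T h) = ω / τ ω * a τ h := by
    intro τ h
    have h1 := aut_indep (fun σ => a σ (T h) * σ ω - ω * a σ h) (fun v => by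
      have h3 := hAT h v
      rw [hA, hA, Finset.mul_sum] at h3
      simp only [sub_mul, Finset.sum_sub_distrib]
      rw [sub_eq_zero]
      convert h3 using 2
      · rename_i σ _
        rw [map_mul]
        ring
      · rename_i σ _
        ring) τ
    have h3 := hne τ
    field_simp
    linear_combination h1
  let aL : (F ≃+* F) → H →ₗ[ZMod 2] F := fun τ => (a τ).toZModLinearMap 2
  have hexp := fun σ => exists_proj ω hω hω0 σ
  choose p hp1 hp0 using hexp
  let pr : (F ≃+* F) → H → H := fun σ h => aeval T (p σ) h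
  have hprco : ∀ σ τ h, a τ (pr σ h) = aeval (ω / τ ω) (p σ) * a τ h := fun σ τ h =>
    coord_aeval (aL τ) T (ω / τ ω) (hη τ) (p σ) h
  have hprσ : ∀ σ h, a σ (pr σ h) = a σ h := by
    intro σ h
    rw [hprco, hp1, one_mul]
  have hprτ : ∀ σ τ h, τ ≠ σ → a τ (pr σ h) = 0 := by
    intro σ τ h hτ
    rw [hprco, hp0 σ τ hτ, zero_mul]
  have hext : ∀ h h' : H, (∀ τ, a τ h = a τ h') → h = h' := by
    intro h h' hall
    have h3 : h - h' = 0 := by
      apply hAinj
      ext v
      rw [hA]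
      simp only [AddMonoidHom.zero_apply]
      apply Finset.sum_eq_zero
      intro σ _
      rw [map_sub, hall, sub_self, zero_mul]
    exact sub_eq_zero.mp h3
  have hdecomp : ∀ h, h = ∑ σ, pr σ h := by
    intro h
    apply hext
    intro τ
    rw [map_sum, Finset.sum_eq_single τ (fun σ _ hσ => hprτ σ τ h hσ.symm) (fun hh => absurd (Finset.mem_univ τ) hh),
      hprσ]
  let inH : (F ≃+* F) → H → Prop := fun σ h => ∀ τ, τ ≠ σ → a τ h = 0
  have hprin : ∀ σ h, inH σ (pr σ h) := fun σ h τ hτ => hprτ σ τ h hτ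
  have hform : ∀ σ h, inH σ h → ∀ v, A h v = a σ h * σ v := by
    intro σ h hh v
    rw [hA, Finset.sum_eq_single σ (fun τ _ hτ => by rw [hh τ hτ, zero_mul]) (fun hh' => absurd (Finset.mem_univ σ) hh')]
  have heq0 : ∀ σ h, inH σ h → a σ h = 0 → h = 0 := by
    intro σ h hh h0
    apply hext
    intro τ
    rw [map_zero]
    by_cases hτ : τ = σ
    · rw [hτ, h0]
    · exact hh τ hτ
  have hinT : ∀ σ h, inH σ h → inH σ (T h) := by
    intro σ h hh τ hτ
    rw [hη, hh τ hτ, mul_zero]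
  have hinadd : ∀ σ h h', inH σ h → inH σ h' → inH σ (h + h') := by
    intro σ h h' hh hh' τ hτ
    rw [map_add, hh τ hτ, hh' τ hτ, add_zero]
  have hinsub : ∀ σ h h', inH σ h → inH σ h' → inH σ (h - h') := by
    intro σ h h' hh hh' τ hτ
    rw [map_sub, hh τ hτ, hh' τ hτ, sub_zero]
  have hTpow : ∀ (t : ℕ) τ h, a τ ((T ^ t) h) = (ω / τ ω) ^ t * a τ h := by
    intro t
    induction t with
    | zero =>
      intro τ h
      simp
    | succ t IH =>
      intro τ h
      rw [pow_succ', Module.End.mul_apply, hη, IH, pow_succ', mul_assoc]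
  have hinpow : ∀ (t : ℕ) σ h, inH σ h → inH σ ((T ^ t) h) := by
    intro t σ h hh τ hτ
    rw [hTpow, hh τ hτ, mul_zero]
  have hTne : ∀ h, h ≠ 0 → T h ≠ 0 := by
    intro h hh h0
    apply hh
    apply hAinj
    ext v
    have h3 := hAT h v
    rw [h0, map_zero] at h3
    have h4 : ω * A h v = 0 := h3.symm
    exact (mul_eq_zero.mp h4).resolve_left hω0
  have hTmove : ∀ h, h ≠ 0 → T h ≠ h := by
    intro h hh he
    have h3 := hfpf 1 h hh (by simpa using he)
    exact hω1 (by simpa using h3)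
  -- fixed elements of `σ`
  have hfix : ∀ σ h, inH σ h → h ≠ 0 → ∀ l : F, l ≠ 0 → σ l = l → l = 1 := by
    intro σ h hh hh0 l hl hσl
    obtain ⟨t, rfl⟩ := hω l hl
    have h3 : (ω / σ ω) ^ t = 1 := by
      rw [div_pow, ← map_pow, hσl, div_self hl]
    have hsub : (T ^ t) h - h = 0 := by
      apply heq0 σ _ (hinsub σ _ _ (hinpow t σ h hh) hh)
      rw [map_sub, hTpow, h3, one_mul, sub_self]
    exact hfpf t h hh0 (sub_eq_zero.mp hsub)
  -- the form
  have hB0 : ∀ x, B 0 x = 0 := by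
    intro x
    have h3 := hBadd 0 0 x
    rw [add_zero] at h3
    exact left_eq_add.mp h3
  have hB0' : ∀ x, B x 0 = 0 := fun x => by rw [hBsymm, hB0]
  have hBadd' : ∀ h h' h'', B h (h' + h'') = B h h' + B h h'' := by
    intro h h' h''
    rw [hBsymm, hBadd, hBsymm h' h, hBsymm h'' h]
  have hs0 : s 0 = 0 := by
    have h3 := hs 0 0
    rw [add_zero, hB0, add_zero] at h3
    exact left_eq_add.mp h3
  have hszero : ∀ σ h, inH σ h → s h = 0 := by
    intro σ h hh
    by_cases hh0 : h = 0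
    · rw [hh0, hs0]
    have h3 : a σ h ≠ 0 := fun h0 => hh0 (heq0 σ h hh h0)
    have h4 := hstar h h
    rw [hBself, map_zero, add_zero, hform σ h hh] at h4
    have h5 : σ (s h) = 0 := (mul_eq_zero.mp h4).resolve_left h3
    exact σ.injective (h5.trans (map_zero σ).symm)
  have hfixpair : ∀ σ τ h₁ w, inH σ h₁ → inH τ w → a σ h₁ * σ (B h₁ w) = B h₁ w ∧ a τ w * τ (B h₁ w) = B h₁ w := by
    intro σ τ h₁ w h₁in win
    constructor
    · have h3 := hstar h₁ w
      rw [hszero σ h₁ h₁in, map_zero, hform σ h₁ h₁in] at h3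
      linear_combination -h3 - (B h₁ w) * h2
    · have h3 := hstar w h₁
      rw [hszero τ w win, map_zero, hBsymm w h₁, hform τ w win] at h3
      linear_combination -h3 - (B h₁ w) * h2
  have hB_cross : ∀ σ τ h₁ h₂, inH σ h₁ → inH τ h₂ → B h₁ h₂ = 0 := by
    intro σ τ h₁ h₂ h₁in h₂in
    by_contra hb
    have hh₁ : h₁ ≠ 0 := by
      rintro rfl
      exact hb (hB0 _)
    have hh₂ : h₂ ≠ 0 := by
      rintro rfl
      exact hb (hB0' _)
    have huniq : ∀ w w', inH τ w → inH τ w' → B h₁ w ≠ 0 → B h₁ w' ≠ 0 → w = w' := by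
      intro w w' win win' hw hw'
      obtain ⟨h3, h4⟩ := hfixpair σ τ h₁ w h₁in win
      obtain ⟨h5, h6⟩ := hfixpair σ τ h₁ w' h₁in win'
      have ha : a σ h₁ ≠ 0 := by
        intro h0
        rw [h0, zero_mul] at h3
        exact hw h3.symm
      have hσb' : σ (B h₁ w') ≠ 0 := by
        intro h0
        rw [h0, mul_zero] at h5
        exact hw' h5.symm
      have hσb : σ (B h₁ w) ≠ 0 := by
        intro h0
        rw [h0, mul_zero] at h3
        exact hw h3.symm
      have hl : B h₁ w / B h₁ w' = 1 := by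
        apply hfix σ h₁ h₁in hh₁ _ (div_ne_zero hw hw')
        rw [map_div₀]
        rw [div_eq_div_iff hσb' hw']
        calc σ (B h₁ w) * B h₁ w' = σ (B h₁ w) * (a σ h₁ * σ (B h₁ w')) := by rw [h5]
          _ = (a σ h₁ * σ (B h₁ w)) * σ (B h₁ w') := by ring
          _ = B h₁ w * σ (B h₁ w') := by rw [h3]
      have hbb : B h₁ w = B h₁ w' := by
        rwa [div_eq_one_iff_eq hw'] at hl
      have hτb : τ (B h₁ w) ≠ 0 := by
        intro h0
        rw [h0, mul_zero] at h4
        exact hw h4.symm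
      have h7 : a τ w = a τ w' := by
        apply mul_right_cancel₀ hτb
        rw [h4, hbb, h6]
      have h8 : w - w' = 0 := by
        apply heq0 τ _ (hinsub τ _ _ win win')
        rw [map_sub, h7, sub_self]
      exact sub_eq_zero.mp h8
    by_cases hw : B h₁ (T h₂) = 0
    · have h3 : B h₁ (h₂ + T h₂) ≠ 0 := by
        rw [hBadd', hw, add_zero]
        exact hb
      have h4 := huniq _ _ (hinadd τ _ _ h₂in (hinT τ _ h₂in)) h₂in h3 hb
      exact hTne h₂ hh₂ (left_eq_add.mp h4.symm)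
    · exact hTmove h₂ hh₂ (huniq _ _ (hinT τ _ h₂in) h₂in hw hb)
  have hB1 : ∀ σ h₁, inH σ h₁ → ∀ h', B h₁ h' = 0 := by
    intro σ h₁ h₁in h'
    rw [hdecomp h']
    apply Finset.sum_induction _ (fun x => B h₁ x = 0)
    · intro x y hx hy
      rw [hBadd', hx, hy, add_zero]
    · exact hB0' _
    · intro τ _
      exact hB_cross σ τ h₁ _ h₁in (hprin τ h')
  have hB2 : ∀ h h', B h h' = 0 := by
    intro h
    rw [hdecomp h]
    apply Finset.sum_induction _ (fun x => ∀ h', B x h' = 0)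
    · intro x y hx hy h'
      rw [hBadd, hx, hy, add_zero]
    · exact hB0
    · intro σ _ h'
      exact hB1 σ _ (hprin σ h) h'
  intro h
  rw [hdecomp h]
  apply Finset.sum_induction _ (fun x => s x = 0)
  · intro x y hx hy
    rw [hs, hx, hy, hB2, add_zero, add_zero]
  · exact hs0
  · intro σ _
    exact hszero σ _ (hprin σ h)

end Cfsg.Agent.Suz2
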