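import Mathlib

/-!
Binary digits and binomial coefficients: numbers all of whose middle binomial coefficients are even are powers of
two. An additive polynomial function over a finite field has only powers of two as exponents.
-/

set_option autoImplicit false
set_option linter.unusedSectionVars false
set_option linter.style.haveILetI false

namespace Cfsg.Agent.Suz2

open Polynomial

lemma lucas_two (n k : ℕ) : Nat.choose n k ≡ Nat.choose (n % 2) (k % 2) * Nat.choose (n / 2) (k / 2) [MOD 2] := by
  haveI : Fact (Nat.Prime 2) := ⟨Nat.prime_two⟩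
  exact Choose.choose_modEq_choose_mod_mul_choose_div_nat

lemma even_choose_iff_of_even (n m : ℕ) : Even (Nat.choose (2 * n) (2 * m)) ↔ Even (Nat.choose n m) := by
  have h := lucas_two (2 * n) (2 * m)
  have h1 : 2 * n % 2 = 0 := by omega
  have h2 : 2 * m % 2 = 0 := by omega
  have h3 : 2 * n / 2 = n := by omega
  have h4 : 2 * m / 2 = m := by omega
  rw [h1, h2, h3, h4, Nat.choose_zero_right, one_mul] at h
  rw [Nat.even_iff, Nat.even_iff]
  have h' : _ % 2 = _ % 2 := h
  rw [h']

lemma even_choose_iff_of_odd (n m : ℕ) : Even (Nat.choose (2 * n + 1) (2 * m + 1)) ↔ Even (Nat.choose n m) := by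
  have h := lucas_two (2 * n + 1) (2 * m + 1)
  have h1 : (2 * n + 1) % 2 = 1 := by omega
  have h2 : (2 * m + 1) % 2 = 1 := by omega
  have h3 : (2 * n + 1) / 2 = n := by omega
  have h4 : (2 * m + 1) / 2 = m := by omega
  rw [h1, h2, h3, h4, Nat.choose_self, one_mul] at h
  rw [Nat.even_iff, Nat.even_iff]
  have h' : _ % 2 = _ % 2 := h
  rw [h']

/-- All middle binomial coefficients even: a power of two. -/
lemma pow2_of_middle_even : ∀ m : ℕ, 1 ≤ m → (∀ m', 0 < m' → m' < m → Even (Nat.choose m m')) → ∃ i, m = 2 ^ i := by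
  intro m
  induction m using Nat.strong_induction_on with
  | _ m IH =>
  intro hm hall
  rcases Nat.even_or_odd' m with ⟨n, rfl | rfl⟩
  · obtain ⟨i, hi⟩ := IH n (by omega) (by omega) (by
      intro m' h1 h2
      have := hall (2 * m') (by omega) (by omega)
      exact (even_choose_iff_of_even n m').mp this)
    exact ⟨i + 1, by rw [hi, pow_succ]; ring⟩
  · by_cases hn : n = 0
    · exact ⟨0, by rw [hn]; norm_num⟩
    · exfalso
      have := hall 1 (by omega) (by omega)
      rw [Nat.choose_one_right] at this
      exact (Nat.not_even_iff_odd.mpr ⟨n, rfl⟩) this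

/-- Middle binomial coefficients odd only at powers of two: at most two binary digits. -/
lemma two_bits : ∀ e : ℕ, 1 ≤ e → (∀ m, 0 < m → m < e → ¬ Even (Nat.choose e m) → ∃ i, m = 2 ^ i) →
    (∃ i, e = 2 ^ i) ∨ ∃ i j, i < j ∧ e = 2 ^ i + 2 ^ j := by
  intro e
  induction e using Nat.strong_induction_on with
  | _ e IH =>
  intro he hall
  rcases Nat.even_or_odd' e with ⟨n, rfl | rfl⟩
  · rcases IH n (by omega) (by omega) (by
      intro m h1 h2 h3
      obtain ⟨i, hi⟩ := hall (2 * m) (by omega) (by omega) (fun h => h3 ((even_choose_iff_of_even n m).mp h))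
      cases i with
      | zero => omega
      | succ i => exact ⟨i, by rw [pow_succ] at hi; omega⟩) with ⟨i, hi⟩ | ⟨i, j, hij, hi⟩
    · exact Or.inl ⟨i + 1, by rw [hi, pow_succ]; ring⟩
    · exact Or.inr ⟨i + 1, j + 1, by omega, by rw [hi, pow_succ, pow_succ]; ring⟩
  · by_cases hn : n = 0
    · exact Or.inl ⟨0, by rw [hn]; norm_num⟩
    -- `n` has only even middle binomial coefficients
    have hmid : ∀ m', 0 < m' → m' < n → Even (Nat.choose n m') := by
      intro m' h1 h2
      by_contra hne
      obtain ⟨i, hi⟩ := hall (2 * m' + 1) (by omega) (by omega)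
        (fun h => hne ((even_choose_iff_of_odd n m').mp h))
      cases i with
      | zero => omega
      | succ i => rw [pow_succ] at hi; omega
    obtain ⟨i, hi⟩ := pow2_of_middle_even n (by omega) hmid
    refine Or.inr ⟨0, i + 1, by omega, ?_⟩
    rw [hi, pow_succ, pow_zero]
    ring

section field

variable {F : Type*} [Field F] [Fintype F]

/-- An additive polynomial of small degree only has exponents with even middle binomials. -/
lemma additive_coeff (P : F[X]) (hdeg : P.natDegree < Fintype.card F)
    (hadd : ∀ u v : F, P.eval (u + v) = P.eval u + P.eval v)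
    {m m' : ℕ} (h0 : 0 < m') (hm : m' < m) (hc : P.coeff m ≠ 0) : (Nat.choose m m' : F) = 0 := by
  classical
  have hcard : ∀ Q : F[X], Q.natDegree < Fintype.card F → (∀ u : F, Q.eval u = 0) → Q = 0 := by
    intro Q hQ hall
    apply Polynomial.eq_zero_of_natDegree_lt_card_of_eval_eq_zero' Q Finset.univ
    · intro x _
      exact hall x
    · simpa using hQ
  -- fix `y`: the Taylor shift of `P`
  have hT : ∀ y : F, Polynomial.taylor y P = P + C (P.eval y) := by
    intro y
    have h := hcard (Polynomial.taylor y P - (P + C (P.eval y))) ?_ ?_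
    · exact sub_eq_zero.mp h
    · refine lt_of_le_of_lt (natDegree_sub_le _ _) ?_
      rw [Polynomial.natDegree_taylor]
      refine max_lt hdeg ?_
      refine lt_of_le_of_lt (natDegree_add_C.le) hdeg
    · intro u
      rw [eval_sub, eval_add, eval_C, Polynomial.taylor_eval, hadd, sub_self]
  have hH : ∀ y : F, (Polynomial.hasseDeriv m' P).eval y = P.coeff m' := by
    intro y
    have h := congrArg (fun Q => Q.coeff m') (hT y)
    simp only [Polynomial.taylor_coeff, coeff_add, coeff_C] at h
    rw [h, if_neg (by omega), add_zero]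
  have hzero : Polynomial.hasseDeriv m' P - C (P.coeff m') = 0 := by
    apply hcard
    · refine lt_of_le_of_lt (natDegree_sub_C.le) ?_
      refine lt_of_le_of_lt (Polynomial.natDegree_hasseDeriv_le _ _) ?_
      omega
    · intro u
      rw [eval_sub, eval_C, hH, sub_self]
  have h := congrArg (fun Q => Q.coeff (m - m')) hzero
  simp only [coeff_sub, coeff_C, coeff_zero, Polynomial.hasseDeriv_coeff] at h
  rw [if_neg (by omega), sub_zero, show m - m' + m' = m by omega] at h
  exact (mul_eq_zero.mp h).resolve_right hc

/-- The exponents which can make the second difference additive. -/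
lemma exponent_bits [CharP F 2] (e : ℕ) (he : 1 ≤ e) (he' : e < Fintype.card F)
    (hadd : ∀ u v : F, (u + v + 1) ^ e + (u + v) ^ e + 1 = (u + 1) ^ e + u ^ e + 1 + ((v + 1) ^ e + v ^ e + 1)) :
    (∃ i, e = 2 ^ i) ∨ ∃ i j, i < j ∧ e = 2 ^ i + 2 ^ j := by
  classical
  apply two_bits e he
  intro m h0 hm hodd
  -- the polynomial
  set P : F[X] := (X + 1) ^ e + X ^ e + 1 with hP
  have hdeg : P.natDegree < Fintype.card F := by
    have h1 : ((X + 1 : F[X]) ^ e).natDegree ≤ e := by
      refine le_trans (natDegree_pow_le) ?_
      have : (X + 1 : F[X]).natDegree ≤ 1 := by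
        have := natDegree_X_add_C (R := F) 1
        simpa using this.le
      nlinarith
    have h2 : ((X : F[X]) ^ e).natDegree ≤ e := by simp
    have h3 : (1 : F[X]).natDegree ≤ e := by simp
    have : P.natDegree ≤ e := by
      refine le_trans (natDegree_add_le _ _) (max_le (le_trans (natDegree_add_le _ _) (max_le h1 h2)) h3)
    omega
  have hcoef : P.coeff m = (Nat.choose e m : F) := by
    rw [hP, coeff_add, coeff_add, coeff_X_add_one_pow, coeff_X_pow, if_neg (by omega), add_zero, coeff_one,
      if_neg (by omega), add_zero]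
  have hne : (Nat.choose e m : F) ≠ 0 := by
    intro h
    rw [CharP.cast_eq_zero_iff F 2] at h
    exact hodd (even_iff_two_dvd.mpr h)
  have hev : ∀ u : F, P.eval u = (u + 1) ^ e + u ^ e + 1 := by
    intro u
    simp [hP]
  have hP2 : ∀ u v : F, P.eval (u + v) = P.eval u + P.eval v := by
    intro u v
    rw [hev, hev, hev]
    exact hadd u v
  apply pow2_of_middle_even m (by omega)
  intro m' h1 h2
  have := additive_coeff P hdeg hP2 h1 h2 (by rw [hcoef]; exact hne)
  rw [CharP.cast_eq_zero_iff F 2] at this
  exact even_iff_two_dvd.mpr this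

end field

end Cfsg.Agent.Suz2
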