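import Mathlib
import Cfsg.Agent.Lib.Suz2.Bits

/-!
A commuting group acting regularly on the non-zero elements of an elementary abelian 2-group makes it into a field,
with the group acting by multiplications. An equivariant map which is quadratic is `u ↦ u φ(u)` in suitable
coordinates.
-/

set_option autoImplicit false
set_option linter.unusedSectionVars false
set_option linter.style.haveILetI false

namespace Cfsg.Agent.Suz2

universe u v w

/-- A commuting group acting regularly on the non-zero elements. -/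
structure RegAct {X : Type u} {K : Type v} [AddCommGroup X] [Group K] (T : K → X →+ X) : Prop where
  mul : ∀ a b x, T (a * b) x = T a (T b x)
  one : ∀ x, T 1 x = x
  comm : ∀ a b : K, a * b = b * a
  two : ∀ x : X, x + x = 0
  reg : ∀ x y : X, x ≠ 0 → y ≠ 0 → ∃! k, T k x = y

section model

variable {X : Type u} {K : Type v} [AddCommGroup X] [Group K] {T : K → X →+ X} (hT : RegAct T) (x₀ : X)
  (hx₀ : x₀ ≠ 0)

include hT hx₀

lemma T_ne_zero (k : K) {x : X} (hx : x ≠ 0) : T k x ≠ 0 := by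
  intro h
  apply hx
  have h1 := hT.mul k⁻¹ k x
  rw [inv_mul_cancel, hT.one, h, map_zero] at h1
  exact h1

lemma rep (a : X) : a = 0 ∨ ∃ k, T k x₀ = a := by
  by_cases ha : a = 0
  · exact Or.inl ha
  · obtain ⟨k, hk, -⟩ := hT.reg x₀ a hx₀ ha
    exact Or.inr ⟨k, hk⟩

omit hT hx₀ in
/-- multiplication by `a` -/
noncomputable def LL (hT : RegAct T) (x₀ : X) (hx₀ : x₀ ≠ 0) (a : X) : X →+ X := by
  classical
  exact if h : a = 0 then 0 else T (hT.reg x₀ a hx₀ h).exists.choose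

lemma LL_zero : LL hT x₀ hx₀ 0 = 0 := by
  classical
  unfold LL
  rw [dif_pos rfl]

lemma LL_T (k : K) : LL hT x₀ hx₀ (T k x₀) = T k := by
  classical
  unfold LL
  have h : T k x₀ ≠ 0 := T_ne_zero hT x₀ hx₀ k hx₀
  rw [dif_neg h]
  congr 1
  obtain ⟨l, hl, hu⟩ := hT.reg x₀ (T k x₀) hx₀ h
  rw [hu _ (hT.reg x₀ (T k x₀) hx₀ h).exists.choose_spec, hu k rfl]

lemma LL_one : LL hT x₀ hx₀ x₀ = AddMonoidHom.id X := by
  have h := LL_T hT x₀ hx₀ 1
  rw [hT.one] at h
  rw [h]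
  ext x
  exact hT.one x

lemma LL_comm (a b : X) : LL hT x₀ hx₀ a b = LL hT x₀ hx₀ b a := by
  rcases rep hT x₀ hx₀ a with rfl | ⟨k, rfl⟩
  · rw [LL_zero, map_zero]
    rfl
  rcases rep hT x₀ hx₀ b with rfl | ⟨l, rfl⟩
  · rw [LL_zero, map_zero]
    rfl
  rw [LL_T hT x₀ hx₀, LL_T hT x₀ hx₀, ← hT.mul, ← hT.mul, hT.comm]

lemma LL_add (a b : X) : LL hT x₀ hx₀ (a + b) = LL hT x₀ hx₀ a + LL hT x₀ hx₀ b := by
  rcases rep hT x₀ hx₀ a with rfl | ⟨k, rfl⟩
  · rw [LL_zero, zero_add, zero_add]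
  rcases rep hT x₀ hx₀ b with rfl | ⟨l, rfl⟩
  · rw [LL_zero, add_zero, add_zero]
  rcases rep hT x₀ hx₀ (T k x₀ + T l x₀) with h | ⟨m, hm⟩
  · rw [h, LL_zero]
    have hab : T k x₀ = T l x₀ := by
      have h2 := hT.two (T l x₀)
      exact add_right_cancel (h.trans h2.symm)
    rw [← hab]
    ext y
    exact (hT.two _).symm
  rw [← hm, LL_T hT x₀ hx₀, LL_T hT x₀ hx₀, LL_T hT x₀ hx₀]
  ext y
  rcases rep hT x₀ hx₀ y with rfl | ⟨j, rfl⟩
  · simp
  show T m (T j x₀) = T k (T j x₀) + T l (T j x₀)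
  rw [← hT.mul, hT.comm, hT.mul, hm, map_add, ← hT.mul, ← hT.mul, hT.comm j k, hT.comm j l, hT.mul, hT.mul]

lemma LL_LL (a b c : X) : LL hT x₀ hx₀ (LL hT x₀ hx₀ a b) c = LL hT x₀ hx₀ a (LL hT x₀ hx₀ b c) := by
  rcases rep hT x₀ hx₀ a with rfl | ⟨k, rfl⟩
  · rw [LL_zero]
    show LL hT x₀ hx₀ 0 c = 0
    rw [LL_zero]
    rfl
  rcases rep hT x₀ hx₀ b with rfl | ⟨l, rfl⟩
  · rw [LL_zero, LL_T hT x₀ hx₀]
    show LL hT x₀ hx₀ (T k 0) c = T k 0
    rw [map_zero, LL_zero]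
    rfl
  rw [LL_T hT x₀ hx₀, LL_T hT x₀ hx₀, ← hT.mul, LL_T hT x₀ hx₀, hT.mul]

omit hT hx₀ in
/-- The ring structure. -/
noncomputable abbrev ringOf (hT : RegAct T) (x₀ : X) (hx₀ : x₀ ≠ 0) : CommRing X :=
  { (inferInstance : AddCommGroup X) with
    mul := fun a b => LL hT x₀ hx₀ a b
    one := x₀
    mul_assoc := fun a b c => LL_LL hT x₀ hx₀ a b c
    one_mul := fun a => by
      show LL hT x₀ hx₀ x₀ a = a
      rw [LL_one hT x₀ hx₀]
      rfl
    mul_one := fun a => by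
      show LL hT x₀ hx₀ a x₀ = a
      rw [LL_comm hT x₀ hx₀, LL_one hT x₀ hx₀]
      rfl
    left_distrib := fun a b c => map_add (LL hT x₀ hx₀ a) b c
    right_distrib := fun a b c => by
      show LL hT x₀ hx₀ (a + b) c = LL hT x₀ hx₀ a c + LL hT x₀ hx₀ b c
      rw [LL_add hT x₀ hx₀]
      rfl
    zero_mul := fun a => by
      show LL hT x₀ hx₀ 0 a = 0
      rw [LL_zero]
      rfl
    mul_zero := fun a => map_zero (LL hT x₀ hx₀ a)
    mul_comm := fun a b => LL_comm hT x₀ hx₀ a b }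

omit hT hx₀ in
lemma ringOf_isField (hT : RegAct T) (x₀ : X) (hx₀ : x₀ ≠ 0) : @IsField X (ringOf hT x₀ hx₀).toSemiring := by
  letI := ringOf hT x₀ hx₀
  refine ⟨⟨x₀, 0, hx₀⟩, mul_comm, ?_⟩
  intro a ha
  obtain ⟨k, hk, -⟩ := hT.reg x₀ a hx₀ ha
  refine ⟨T k⁻¹ x₀, ?_⟩
  show LL hT x₀ hx₀ a (T k⁻¹ x₀) = x₀
  rw [← hk, LL_T hT x₀ hx₀, ← hT.mul, mul_inv_cancel, hT.one]

/-- The field structure, with the same additive group. -/
theorem field_model [Finite X] (F : Type w) [Field F] [Fintype F] (hcard : Nat.card X = Fintype.card F) :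
    ∃ (ν : X ≃+ F) (χ : K →* F), (∀ k x, ν (T k x) = χ k * ν x) ∧ (∀ u : F, u ≠ 0 → ∃ k, χ k = u) := by
  classical
  haveI := Fintype.ofFinite X
  letI iR : CommRing X := ringOf hT x₀ hx₀
  letI iF : Field X := (ringOf_isField hT x₀ hx₀).toField
  have hc : Fintype.card X = Fintype.card F := by
    rw [← hcard, Nat.card_eq_fintype_card]
  let e : X ≃+* F := FiniteField.ringEquivOfCardEq hc
  have hmul : ∀ a b : X, e (LL hT x₀ hx₀ a b) = e a * e b := fun a b => map_mul e a b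
  have hadd : ∀ a b : X, e (a + b) = e a + e b := fun a b => map_add e a b
  have hone : e x₀ = 1 := map_one e
  let ν : X ≃+ F := { toFun := e, invFun := e.symm, left_inv := e.left_inv, right_inv := e.right_inv,
                      map_add' := hadd }
  have hχmul : ∀ a b : K, e (T (a * b) x₀) = e (T a x₀) * e (T b x₀) := by
    intro a b
    rw [← hmul, LL_T hT x₀ hx₀, hT.mul]
  let χ : K →* F :=
    { toFun := fun k => e (T k x₀)
      map_one' := by
        show e (T 1 x₀) = 1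
        rw [hT.one, hone]
      map_mul' := hχmul }
  refine ⟨ν, χ, ?_, ?_⟩
  · intro k x
    show e (T k x) = e (T k x₀) * e x
    rw [← hmul, LL_T hT x₀ hx₀]
  · intro u hu
    have hne : e.symm u ≠ 0 := by
      intro h
      apply hu
      have h2 : e (e.symm u) = e 0 := congrArg e h
      have h3 : e 0 = 0 := map_zero e
      rw [e.apply_symm_apply, h3] at h2
      exact h2
    obtain ⟨k, hk, -⟩ := hT.reg x₀ (e.symm u) hx₀ hne
    refine ⟨k, ?_⟩
    show e (T k x₀) = u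
    rw [hk, e.apply_symm_apply]

end model

section power

variable {F : Type w} [Field F] [Fintype F] {K : Type v} [Group K]

/-- Equivariant maps are monomials. -/
lemma power_form (χV χZ : K →* F) (hV : ∀ u : F, u ≠ 0 → ∃ k, χV k = u) (s : F → F) (h0 : s 0 = 0)
    (hs : ∀ k u, s (χV k * u) = χZ k * s u) :
    ∃ e : ℕ, 1 ≤ e ∧ e < Fintype.card F ∧ ∀ u, s u = s 1 * u ^ e := by
  classical
  obtain ⟨ρ, hρ⟩ := IsCyclic.exists_monoid_generator (α := Fˣ)
  obtain ⟨θ, hθ⟩ := hV ρ ρ.ne_zero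
  have hωne : χZ θ ≠ 0 := by
    intro h
    have h1 := map_mul χZ θ θ⁻¹
    rw [mul_inv_cancel, map_one, h, zero_mul] at h1
    exact one_ne_zero h1
  obtain ⟨i, hi⟩ := Submonoid.mem_powers_iff _ _ |>.mp (hρ (Units.mk0 (χZ θ) hωne))
  have hi' : (ρ : F) ^ i = χZ θ := by
    have := congrArg Units.val hi
    simpa using this
  have hcardpos : 1 < Fintype.card F := Fintype.one_lt_card
  have hpow1 : (ρ : F) ^ (Fintype.card F - 1) = 1 := FiniteField.pow_card_sub_one_eq_one _ ρ.ne_zero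
  set N := Fintype.card F - 1 with hN
  have hNpos : 0 < N := by omega
  -- reduce the exponent
  obtain ⟨e, he1, he2, he3⟩ : ∃ e, 1 ≤ e ∧ e < Fintype.card F ∧ (ρ : F) ^ e = χZ θ := by
    by_cases hmod : i % N = 0
    · refine ⟨N, hNpos, by omega, ?_⟩
      obtain ⟨t, ht⟩ := Nat.dvd_of_mod_eq_zero hmod
      rw [hpow1, ← hi', ht, pow_mul, hpow1, one_pow]
    · refine ⟨i % N, by omega, ?_, ?_⟩
      · have := Nat.mod_lt i hNpos
        omega
      · rw [← hi']
        conv_rhs => rw [← Nat.mod_add_div i N, pow_add, pow_mul, hpow1, one_pow, mul_one]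
  refine ⟨e, he1, he2, ?_⟩
  intro u
  by_cases hu : u = 0
  · rw [hu, h0, zero_pow (by omega), mul_zero]
  obtain ⟨j, hj⟩ := Submonoid.mem_powers_iff _ _ |>.mp (hρ (Units.mk0 u hu))
  have hj' : (ρ : F) ^ j = u := by
    have := congrArg Units.val hj
    simpa using this
  have hχ : χV (θ ^ j) = u := by
    rw [map_pow, hθ, hj']
  calc s u = s (χV (θ ^ j) * 1) := by rw [hχ, mul_one]
    _ = χZ (θ ^ j) * s 1 := hs _ _
    _ = s 1 * u ^ e := by
        rw [map_pow, ← he3, ← hj', ← pow_mul, ← pow_mul, mul_comm, mul_comm e j]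

end power

end Cfsg.Agent.Suz2
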