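import Mathlib
import Cfsg.Agent.Lib.Suz2.Central
import Cfsg.Agent.Lib.PGroup.MaxNormal

/-!
Suzuki 2-groups with `|P| = |Z(P)|²`: the quotient by the centre is elementary abelian.
-/

set_option autoImplicit false
set_option linter.unusedSectionVars false
set_option linter.style.haveILetI false

namespace Cfsg.Agent.Suz2

universe u v

variable {G : Type u} [Group G] {K : Type v} [Group K] {φ : K →* MulAut G}

lemma BB_mul_left' {x y : G} (hc : BB x y ∈ Subgroup.center G) (x' : G) : BB (x * x') y = BB x y * BB x' y := by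
  have h1 := Subgroup.mem_center_iff.mp hc (x'⁻¹)
  unfold BB at h1 ⊢
  calc (x * x')⁻¹ * y⁻¹ * (x * x') * y = x'⁻¹ * (x⁻¹ * y⁻¹ * x * y) * y⁻¹ * x' * y := by group
    _ = (x⁻¹ * y⁻¹ * x * y) * x'⁻¹ * y⁻¹ * x' * y := by rw [h1]
    _ = _ := by group

lemma BB_mul_right' {x y : G} (hc : BB x y ∈ Subgroup.center G) (y' : G) : BB x (y * y') = BB x y * BB x y' := by
  have h1 := Subgroup.mem_center_iff.mp hc (x⁻¹ * y'⁻¹ * x)
  unfold BB at h1 ⊢
  calc x⁻¹ * (y * y')⁻¹ * x * (y * y') = (x⁻¹ * y'⁻¹ * x) * (x⁻¹ * y⁻¹ * x * y) * y' := by group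
    _ = (x⁻¹ * y⁻¹ * x * y) * (x⁻¹ * y'⁻¹ * x) * y' := by rw [h1]
    _ = _ := by group

lemma BB_one_left (y : G) : BB 1 y = 1 := by
  unfold BB
  group

lemma BB_one_right (x : G) : BB x 1 = 1 := by
  unfold BB
  group

lemma BB_inv_right' {x y : G} (hc : BB x y ∈ Subgroup.center G) : BB x y⁻¹ = (BB x y)⁻¹ := by
  have h := BB_mul_right' hc y⁻¹
  rw [mul_inv_cancel, BB_one_right] at h
  exact eq_inv_of_mul_eq_one_right h.symm

section elem

variable (hS : Sz2 φ)

lemma Om_central {c : G} (hc : c ∈ Om hS) : c ∈ Subgroup.center G := Om_le_center hS hc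

/-- The central elementary part of `G / Om`. -/
def MM : Subgroup G where
  carrier := {x | x * x ∈ Om hS ∧ ∀ y, BB x y ∈ Om hS}
  one_mem' := ⟨by rw [mul_one]; exact one_mem _, fun y => by rw [BB_one_left]; exact one_mem _⟩
  mul_mem' := by
    rintro a b ⟨ha1, ha2⟩ ⟨hb1, hb2⟩
    constructor
    · have hc := ha2 b
      have hci : (BB a b)⁻¹ ∈ Subgroup.center G := inv_mem (Om_central hS hc)
      have h1 : (a * b) * (a * b) = a * (a * b * (BB a b)⁻¹) * b := by
        unfold BB
        group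
      have h2 := Subgroup.mem_center_iff.mp hci b
      have h3 : a * (a * b * (BB a b)⁻¹) * b = (a * a) * (b * b) * (BB a b)⁻¹ := by
        calc a * (a * b * (BB a b)⁻¹) * b = a * a * b * ((BB a b)⁻¹ * b) := by group
          _ = a * a * b * (b * (BB a b)⁻¹) := by rw [← h2]
          _ = _ := by group
      rw [h1, h3]
      exact mul_mem (mul_mem ha1 hb1) (inv_mem hc)
    · intro y
      rw [BB_mul_left' (Om_central hS (ha2 y))]
      exact mul_mem (ha2 y) (hb2 y)
  inv_mem' := by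
    rintro a ⟨ha1, ha2⟩
    constructor
    · rw [← mul_inv_rev]
      exact inv_mem ha1
    · intro y
      have h := BB_mul_left' (Om_central hS (ha2 y)) a⁻¹
      rw [mul_inv_cancel, BB_one_left] at h
      rw [eq_inv_of_mul_eq_one_right h.symm]
      exact inv_mem (ha2 y)

lemma mem_MM {x : G} : x ∈ MM hS ↔ x * x ∈ Om hS ∧ ∀ y, BB x y ∈ Om hS := Iff.rfl

lemma Om_le_MM : Om hS ≤ MM hS := by
  intro x hx
  refine ⟨?_, fun y => ?_⟩
  · rw [show x * x = 1 from hx]
    exact one_mem _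
  · rw [BB_central_left (Om_central hS hx)]
    exact one_mem _

lemma phi_mem_MM (k : K) {x : G} (hx : x ∈ MM hS) : φ k x ∈ MM hS := by
  refine ⟨?_, fun y => ?_⟩
  · rw [← map_mul]
    exact phi_mem_Om hS k hx.1
  · have h := BB_map (φ := φ) k x ((φ k).symm y)
    rw [MulEquiv.apply_symm_apply] at h
    rw [← h]
    exact phi_mem_Om hS k (hx.2 _)

lemma conj_mem_MM {m : G} (hm : m ∈ MM hS) (g : G) : g⁻¹ * m * g ∈ MM hS := by
  have h : g⁻¹ * m * g = m * BB m g := by
    unfold BB
    group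
  rw [h]
  exact mul_mem hm (Om_le_MM hS (hm.2 g))

/-- A normal subgroup larger than `Om` contains an element of `MM` outside `Om`. -/
lemma exists_MM_of_normal (D : Subgroup G) [hD : D.Normal] (hne : ∃ x ∈ D, x ∉ Om hS) :
    ∃ w ∈ D, w ∉ Om hS ∧ w ∈ MM hS := by
  classical
  haveI : Fact (Nat.Prime 2) := ⟨Nat.prime_two⟩
  haveI := hS.fin
  obtain ⟨x, hxD, hxO⟩ := hne
  let Dbar : Subgroup (G ⧸ Om hS) := D.map (QuotientGroup.mk' (Om hS))
  haveI : Dbar.Normal := hD.map _ (QuotientGroup.mk'_surjective _)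
  have hne' : Dbar ≠ ⊥ := by
    intro h
    have h1 : (x : G ⧸ Om hS) ∈ Dbar := ⟨x, hxD, rfl⟩
    rw [h, Subgroup.mem_bot] at h1
    exact hxO ((QuotientGroup.eq_one_iff x).mp h1)
  obtain ⟨z, hzD, hzc, hz2⟩ := Cfsg.Agent.Lib.PGroup.exists_central_of_order_prime
    (hS.two.to_quotient (Om hS)) hne'
  obtain ⟨w, hwD, rfl⟩ := hzD
  have hz1 : ((QuotientGroup.mk' (Om hS)) w) ≠ 1 := by
    intro he
    rw [he, orderOf_one] at hz2
    omega
  refine ⟨w, hwD, ?_, ?_, ?_⟩
  · intro h
    exact hz1 ((QuotientGroup.eq_one_iff w).mpr h)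
  · have h := pow_orderOf_eq_one ((QuotientGroup.mk' (Om hS)) w)
    rw [hz2, pow_two, ← map_mul] at h
    exact (QuotientGroup.eq_one_iff _).mp h
  · intro y
    have h := Subgroup.mem_center_iff.mp hzc ((QuotientGroup.mk' (Om hS)) y)
    have h2 : (QuotientGroup.mk' (Om hS)) (BB w y) = 1 := by
      unfold BB
      simp only [map_mul, map_inv]
      have e : ((QuotientGroup.mk' (Om hS)) w)⁻¹ * ((QuotientGroup.mk' (Om hS)) y)⁻¹ * (QuotientGroup.mk' (Om hS)) w *
          (QuotientGroup.mk' (Om hS)) y = ((QuotientGroup.mk' (Om hS)) w)⁻¹ * ((QuotientGroup.mk' (Om hS)) y)⁻¹ *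
          ((QuotientGroup.mk' (Om hS)) w * (QuotientGroup.mk' (Om hS)) y) := by group
      rw [e, ← h]
      group
    exact (QuotientGroup.eq_one_iff _).mp h2

/-- In the nonabelian case, `MM` is not abelian if the order is right. -/
lemma MM_nonabelian (hna : ∃ a b : G, a * b ≠ b * a) (hcard : Nat.card G = Nat.card (Om hS) ^ 2) :
    ∃ a ∈ MM hS, ∃ b ∈ MM hS, a * b ≠ b * a := by
  classical
  haveI := hS.fin
  by_contra hall
  push Not at hall
  obtain ⟨a, b, hab⟩ := hna
  have hGne : ∃ x ∈ (⊤ : Subgroup G), x ∉ Om hS := by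
    refine ⟨a, Subgroup.mem_top _, ?_⟩
    intro h
    exact hab (Subgroup.mem_center_iff.mp (Om_central hS h) b).symm
  obtain ⟨w, -, hwO, hwM⟩ := exists_MM_of_normal hS ⊤ hGne
  -- the squaring homomorphism
  let f : MM hS →* Om hS :=
    { toFun := fun x => ⟨(x : G) * x, x.2.1⟩
      map_one' := by
        apply Subtype.ext
        show (1 : G) * 1 = 1
        rw [mul_one]
      map_mul' := fun x y => by
        apply Subtype.ext
        show ((x : G) * y) * ((x : G) * y) = ((x : G) * x) * ((y : G) * y)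
        have h := hall x x.2 y y.2
        calc ((x : G) * y) * ((x : G) * y) = (x : G) * ((y : G) * x) * y := by group
          _ = (x : G) * ((x : G) * y) * y := by rw [← h]
          _ = _ := by group }
  have hfsurj : Function.Surjective f := by
    rintro ⟨c, hc⟩
    by_cases hc1 : c = 1
    · refine ⟨1, Subtype.ext ?_⟩
      show (1 : G) * 1 = c
      rw [hc1, mul_one]
    have hw1 : w * w ≠ 1 := hwO
    obtain ⟨k, hk, -⟩ := hS.reg (w * w) c hw1 hwM.1 hc1 hc
    refine ⟨⟨φ k w, phi_mem_MM hS k hwM⟩, Subtype.ext ?_⟩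
    show φ k w * φ k w = c
    rw [← map_mul, hk]
  have hker : Nat.card f.ker = Nat.card (Om hS) := by
    apply Nat.card_congr
    refine ⟨fun x => ⟨x.1.1, ?_⟩, fun x => ⟨⟨x.1, Om_le_MM hS x.2⟩, ?_⟩, ?_, ?_⟩
    · have h : f x.1 = 1 := x.2
      exact congrArg Subtype.val h
    · apply Subtype.ext
      exact x.2
    · intro x
      rfl
    · intro x
      rfl
  have hM : Nat.card (MM hS) = Nat.card (Om hS) ^ 2 := by
    have h1 := Subgroup.card_mul_index f.ker
    rw [Subgroup.index_ker, MonoidHom.range_eq_top.mpr hfsurj, Subgroup.card_top, hker] at h1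
    rw [pow_two]
    exact h1.symm
  have htop : MM hS = ⊤ := Subgroup.eq_top_of_card_eq _ (hM.trans hcard.symm)
  exact hab (hall a (htop ▸ Subgroup.mem_top a) b (htop ▸ Subgroup.mem_top b))

/-- The centralizer of `MM` is `Om`. -/
lemma centralizer_MM_le (hMna : ∃ a ∈ MM hS, ∃ b ∈ MM hS, a * b ≠ b * a) {w : G}
    (hw : ∀ m ∈ MM hS, w * m = m * w) : w ∈ Om hS := by
  classical
  by_contra hwO
  let D : Subgroup G := Subgroup.centralizer (MM hS : Set G)
  have hmemD : ∀ x, x ∈ D ↔ ∀ m ∈ MM hS, x * m = m * x := by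
    intro x
    rw [Subgroup.mem_centralizer_iff]
    constructor
    · intro h m hm
      exact (h m hm).symm
    · intro h m hm
      exact (h m hm).symm
  haveI hDn : D.Normal := by
    constructor
    intro n hn g
    rw [hmemD] at hn ⊢
    intro m hm
    have h1 := hn _ (conj_mem_MM hS hm g)
    calc g * n * g⁻¹ * m = g * (n * (g⁻¹ * m * g)) * g⁻¹ := by group
      _ = g * ((g⁻¹ * m * g) * n) * g⁻¹ := by rw [h1]
      _ = m * (g * n * g⁻¹) := by group
  obtain ⟨u, huD, huO, huM⟩ := exists_MM_of_normal hS D ⟨w, (hmemD w).mpr hw, hwO⟩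
  obtain ⟨a, ha, b, hb, hab⟩ := hMna
  have hu1 : u * u ≠ 1 := huO
  have hcent : ∀ m ∈ MM hS, ∀ c ∈ MM hS, m * c = c * m := by
    intro m hm c hc
    by_cases hmO : m ∈ Om hS
    · exact (Subgroup.mem_center_iff.mp (Om_central hS hmO) c).symm
    have hm1 : m * m ≠ 1 := hmO
    obtain ⟨k, hk, -⟩ := hS.reg (u * u) (m * m) hu1 huM.1 hm1 hm.1
    set t := φ k u with ht
    have htM : t ∈ MM hS := phi_mem_MM hS k huM
    have htcomm : ∀ d ∈ MM hS, t * d = d * t := by
      intro d hd
      have h1 := (hmemD u).mp huD _ (phi_mem_MM hS k⁻¹ hd)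
      have h2 : φ k (φ k⁻¹ d) = d := by
        rw [← phi_mul_apply, mul_inv_cancel, phi_one_apply]
      have h3 := congrArg (φ k) h1
      rw [map_mul, map_mul, h2] at h3
      exact h3
    have ht2 : t * t = m * m := by
      rw [ht, ← map_mul, hk]
    have hmt : (m * t⁻¹) * (m * t⁻¹) = 1 := by
      have h1 : t⁻¹ * m = m * t⁻¹ := by
        have := htcomm m hm
        exact (show Commute t m from this).inv_left
      calc (m * t⁻¹) * (m * t⁻¹) = m * (t⁻¹ * m) * t⁻¹ := by group
        _ = m * (m * t⁻¹) * t⁻¹ := by rw [h1]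
        _ = (m * m) * (t * t)⁻¹ := by group
        _ = 1 := by rw [ht2, mul_inv_cancel]
    have hmtc : m * t⁻¹ ∈ Subgroup.center G := mem_central_of_sq hS hmt
    have e : m = (m * t⁻¹) * t := by group
    rw [e]
    calc (m * t⁻¹) * t * c = (m * t⁻¹) * (t * c) := by group
      _ = (m * t⁻¹) * (c * t) := by rw [htcomm c hc]
      _ = ((m * t⁻¹) * c) * t := by group
      _ = (c * (m * t⁻¹)) * t := by rw [(Subgroup.mem_center_iff.mp hmtc c).symm]
      _ = _ := by group
  exact hab (hcent a ha b hb)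

/-- With `|P| = |Z(P)|²`, the quotient by `Om` is elementary abelian. -/
theorem elem_of_card (hna : ∃ a b : G, a * b ≠ b * a) (hcard : Nat.card G = Nat.card (Om hS) ^ 2) :
    (∀ x : G, x * x ∈ Om hS) ∧ ∀ x y : G, BB x y ∈ Om hS := by
  have hMna := MM_nonabelian hS hna hcard
  constructor
  · intro x
    apply centralizer_MM_le hS hMna
    intro m hm
    have hc := hm.2 x
    have h1 := BB_mul_right' (Om_central hS hc) x
    rw [show BB m x * BB m x = 1 from hc] at h1
    exact (BB_eq_one.mp h1).symm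
  · intro x y
    apply centralizer_MM_le hS hMna
    intro m hm
    have hcx := Om_central hS (hm.2 x)
    have hcy := Om_central hS (hm.2 y)
    have hcxi : BB m x⁻¹ ∈ Subgroup.center G := by
      rw [BB_inv_right' hcx]
      exact inv_mem hcx
    have hcyi : BB m y⁻¹ ∈ Subgroup.center G := by
      rw [BB_inv_right' hcy]
      exact inv_mem hcy
    have hcxy : BB m (x⁻¹ * y⁻¹) ∈ Subgroup.center G := by
      rw [BB_mul_right' hcxi]
      exact mul_mem hcxi hcyi
    have hcxyx : BB m (x⁻¹ * y⁻¹ * x) ∈ Subgroup.center G := by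
      rw [BB_mul_right' hcxy]
      exact mul_mem hcxy hcx
    have h1 : BB m (BB x y) = 1 := by
      show BB m (x⁻¹ * y⁻¹ * x * y) = 1
      rw [BB_mul_right' hcxyx, BB_mul_right' hcxy, BB_mul_right' hcxi, BB_inv_right' hcx, BB_inv_right' hcy]
      have h2 := Subgroup.mem_center_iff.mp hcx (BB m y)
      calc (BB m x)⁻¹ * (BB m y)⁻¹ * BB m x * BB m y = (BB m x)⁻¹ * (BB m y)⁻¹ * (BB m x * BB m y) := by group
        _ = (BB m x)⁻¹ * (BB m y)⁻¹ * (BB m y * BB m x) := by rw [h2]
        _ = 1 := by group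
    exact (BB_eq_one.mp h1).symm

end elem

end Cfsg.Agent.Suz2
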