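import Mathlib
import Cfsg.Agent.Lib.Suz2.Elem

/-!
Suzuki 2-groups: the group `K` acts without fixed points on the group and on its sections.
-/

set_option autoImplicit false
set_option linter.unusedSectionVars false
set_option linter.style.haveILetI false

namespace Cfsg.Agent.Suz2

universe u v

variable {G : Type u} [Group G] {K : Type v} [Group K] {φ : K →* MulAut G}

lemma phi_pow_apply (k : K) (x : G) (n : ℕ) : φ k (x ^ n) = (φ k x) ^ n := map_pow (φ k) x n

/-- `K` acts fixed-point-freely. -/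
lemma fpf (hS : Sz2 φ) {k : K} {x : G} (hx : x ≠ 1) (h : φ k x = x) : k = 1 := by
  classical
  obtain ⟨j, hj⟩ := hS.two x
  have hex : ∃ j, x ^ (2 ^ j) = 1 := ⟨j, hj⟩
  set t := Nat.find hex with ht
  have hts : x ^ (2 ^ t) = 1 := Nat.find_spec hex
  have ht0 : t ≠ 0 := by
    intro h0
    rw [h0, pow_zero, pow_one] at hts
    exact hx hts
  obtain ⟨r, hr⟩ : ∃ r, t = r + 1 := ⟨t - 1, by omega⟩
  set w := x ^ (2 ^ r) with hw
  have hw1 : w ≠ 1 := by
    intro h1
    have := Nat.find_min' hex h1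
    omega
  have hw2 : w * w = 1 := by
    rw [hw, ← pow_add, ← two_mul, ← pow_succ']
    rw [hr] at hts
    exact hts
  have hφw : φ k w = w := by
    rw [hw, phi_pow_apply, h]
  obtain ⟨m, -, hm⟩ := hS.reg w w hw1 hw2 hw1 hw2
  rw [hm k hφw, hm 1 (phi_one_apply w)]

/-- The elements fixing a coset of an invariant subgroup are trivial. -/
lemma stab_trivial (hS : Sz2 φ) (N : Subgroup G) (hN : ∀ k, ∀ x ∈ N, φ k x ∈ N) {y : G} (hy : y ∉ N) {k : K}
    (h : y⁻¹ * φ k y ∈ N) : k = 1 := by
  classical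
  haveI : Fact (Nat.Prime 2) := ⟨Nat.prime_two⟩
  haveI := hS.fin
  haveI := finite_K hS
  let Γ : Subgroup K :=
    { carrier := {k | y⁻¹ * φ k y ∈ N}
      one_mem' := by
        show y⁻¹ * φ 1 y ∈ N
        rw [phi_one_apply, inv_mul_cancel]
        exact one_mem _
      mul_mem' := by
        intro a b ha hb
        show y⁻¹ * φ (a * b) y ∈ N
        have h1 : y⁻¹ * φ (a * b) y = (y⁻¹ * φ a y) * φ a (y⁻¹ * φ b y) := by
          rw [phi_mul_apply, map_mul, map_inv]
          group
        rw [h1]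
        exact mul_mem ha (hN a _ hb)
      inv_mem' := by
        intro a ha
        show y⁻¹ * φ a⁻¹ y ∈ N
        have hh : φ a⁻¹ (φ a y) = y := by
          rw [← phi_mul_apply, inv_mul_cancel, phi_one_apply]
        have h1 : y⁻¹ * φ a⁻¹ y = φ a⁻¹ (y⁻¹ * φ a y)⁻¹ := by
          rw [mul_inv_rev, inv_inv, map_mul (φ a⁻¹), map_inv (φ a⁻¹), hh]
        rw [h1]
        exact hN _ _ (inv_mem ha) }
  let X := {x : G // y⁻¹ * x ∈ N}
  have hmap : ∀ (g : Γ) (x : X), y⁻¹ * φ (g : K) x.1 ∈ N := by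
    intro g x
    have h1 : y⁻¹ * φ (g : K) x.1 = (y⁻¹ * φ (g : K) y) * φ (g : K) (y⁻¹ * x.1) := by
      rw [map_mul, map_inv]
      group
    rw [h1]
    exact mul_mem g.2 (hN _ _ x.2)
  letI : MulAction Γ X :=
    { smul := fun g x => ⟨φ (g : K) x.1, hmap g x⟩
      one_smul := fun x => Subtype.ext (phi_one_apply x.1)
      mul_smul := fun a b x => Subtype.ext (phi_mul_apply (a : K) (b : K) x.1) }
  have hfree : ∀ b : X, MulAction.stabilizer Γ b = ⊥ := by
    intro b
    rw [eq_bot_iff]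
    intro g hg
    rw [Subgroup.mem_bot]
    have h1 : φ (g : K) b.1 = b.1 := congrArg Subtype.val (MulAction.mem_stabilizer_iff.mp hg)
    have hb1 : b.1 ≠ 1 := by
      intro he
      have h2 := b.2
      rw [he, mul_one] at h2
      exact hy (by simpa using inv_mem h2)
    exact Subtype.ext (fpf hS hb1 h1)
  have hcard : Nat.card X = Nat.card N := by
    apply Nat.card_congr
    exact ⟨fun x => ⟨y⁻¹ * x.1, x.2⟩, fun z => ⟨y * z.1, by simpa using z.2⟩, fun x => Subtype.ext (by simp),
      fun z => Subtype.ext (by simp)⟩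
  have hdvd : Nat.card Γ ∣ Nat.card X := by
    have e := Nat.card_congr (MulAction.selfEquivOrbitsQuotientProd hfree)
    rw [e, Nat.card_prod]
    exact dvd_mul_left _ _
  rw [hcard] at hdvd
  obtain ⟨a, ha⟩ := IsPGroup.iff_card.mp (hS.two.to_subgroup N)
  rw [ha] at hdvd
  have hodd : Odd (Nat.card Γ) := Odd.of_dvd_nat (odd_card_K hS) (Subgroup.card_subgroup_dvd_card Γ)
  obtain ⟨i, -, hi⟩ := (Nat.dvd_prime_pow Nat.prime_two).mp hdvd
  have hone : Nat.card Γ = 1 := by
    rw [hi] at hodd ⊢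
    cases i with
    | zero => rfl
    | succ i =>
      exfalso
      rw [pow_succ] at hodd
      exact (Nat.not_odd_iff_even.mpr (even_two.mul_left _)) hodd
  haveI := Finite.card_le_one_iff_subsingleton.mp (le_of_eq hone)
  have := Subsingleton.elim (⟨k, h⟩ : Γ) 1
  exact congrArg Subtype.val this

end Cfsg.Agent.Suz2
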