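import Mathlib
import Cfsg.Agent.Lib.Suz2.Free

/-!
Suzuki 2-groups, the case where the central elementary part `MM` of `G / Om` is abelian: its centralizer is itself.
-/

set_option autoImplicit false
set_option linter.unusedSectionVars false
set_option linter.style.haveILetI false

namespace Cfsg.Agent.Suz2

universe u v

variable {G : Type u} [Group G] {K : Type v} [Group K] {φ : K →* MulAut G}

lemma Om_comm (hS : Sz2 φ) {a b : G} (ha : a ∈ Om hS) : a * b = b * a :=
  (Subgroup.mem_center_iff.mp (Om_le_center hS ha) b).symm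

/-- A root in `MM`. -/
noncomputable def rr (hS : Sz2 φ) (v : G) : G := by
  classical
  exact if h : ∃ x, x ∈ MM hS ∧ x * x = v then h.choose else 1

lemma rr_spec (hS : Sz2 φ) {v : G} (h : ∃ x, x ∈ MM hS ∧ x * x = v) : rr hS v ∈ MM hS ∧ rr hS v * rr hS v = v := by
  classical
  unfold rr
  rw [dif_pos h]
  exact h.choose_spec

/-- The endomorphism of `Om` attached to an element. -/
noncomputable def AA (hS : Sz2 φ) (y v : G) : G := BB (rr hS v) y

/-- The restricted action. -/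
noncomputable def phiRes (D : Subgroup G) (hD : ∀ k, ∀ x ∈ D, φ k x ∈ D) : K →* MulAut D where
  toFun k :=
    { toFun := fun x => ⟨φ k x, hD k x x.2⟩
      invFun := fun x => ⟨φ k⁻¹ x, hD k⁻¹ x x.2⟩
      left_inv := fun x => Subtype.ext (by
        show φ k⁻¹ (φ k x) = x
        rw [← phi_mul_apply, inv_mul_cancel, phi_one_apply])
      right_inv := fun x => Subtype.ext (by
        show φ k (φ k⁻¹ x) = x
        rw [← phi_mul_apply, mul_inv_cancel, phi_one_apply])
      map_mul' := fun x y => Subtype.ext (map_mul (φ k) (x : G) (y : G)) }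
  map_one' := by
    ext x
    exact phi_one_apply (x : G)
  map_mul' a b := by
    ext x
    exact phi_mul_apply a b (x : G)

lemma sz2_res (hS : Sz2 φ) (D : Subgroup G) (hD : ∀ k, ∀ x ∈ D, φ k x ∈ D) (hOD : Om hS ≤ D) : Sz2 (phiRes D hD) := by
  haveI := hS.fin
  refine ⟨inferInstance, hS.two.to_subgroup D, ?_, ?_, hS.comm⟩
  · obtain ⟨x, y, hxy, hx1, hx2, hy1, hy2⟩ := hS.invs
    refine ⟨⟨x, hOD hx2⟩, ⟨y, hOD hy2⟩, fun h => hxy (congrArg Subtype.val h), fun h => hx1 (congrArg Subtype.val h),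
      Subtype.ext hx2, fun h => hy1 (congrArg Subtype.val h), Subtype.ext hy2⟩
  · intro x y hx1 hx2 hy1 hy2
    obtain ⟨k, hk, hu⟩ := hS.reg (x : G) (y : G) (fun h => hx1 (Subtype.ext h)) (congrArg Subtype.val hx2)
      (fun h => hy1 (Subtype.ext h)) (congrArg Subtype.val hy2)
    refine ⟨k, Subtype.ext hk, fun l hl => hu l (congrArg Subtype.val hl)⟩

section caseA

variable (hS : Sz2 φ)

/-- The centralizer of `MM`. -/
def DD : Subgroup G := Subgroup.centralizer (MM hS : Set G)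

lemma mem_DD {x : G} : x ∈ DD hS ↔ ∀ m ∈ MM hS, x * m = m * x := by
  unfold DD
  rw [Subgroup.mem_centralizer_iff]
  constructor
  · intro h m hm
    exact (h m hm).symm
  · intro h m hm
    exact (h m hm).symm

lemma DD_normal : (DD hS).Normal := by
  constructor
  intro n hn g
  rw [mem_DD] at hn ⊢
  intro m hm
  have h1 := hn _ (conj_mem_MM hS hm g)
  calc g * n * g⁻¹ * m = g * (n * (g⁻¹ * m * g)) * g⁻¹ := by group
    _ = g * ((g⁻¹ * m * g) * n) * g⁻¹ := by rw [h1]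
    _ = m * (g * n * g⁻¹) := by group

lemma DD_inv (k : K) {x : G} (hx : x ∈ DD hS) : φ k x ∈ DD hS := by
  rw [mem_DD] at hx ⊢
  intro m hm
  have h1 := hx _ (phi_mem_MM hS k⁻¹ hm)
  have h2 : φ k (φ k⁻¹ m) = m := by
    rw [← phi_mul_apply, mul_inv_cancel, phi_one_apply]
  have h3 := congrArg (φ k) h1
  rw [map_mul, map_mul, h2] at h3
  exact h3

lemma sq_mem_DD (y : G) : y * y ∈ DD hS := by
  rw [mem_DD]
  intro m hm
  have hc := hm.2 y
  have h1 := BB_mul_right' (Om_central hS hc) y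
  rw [show BB m y * BB m y = 1 from hc] at h1
  exact (BB_eq_one.mp h1).symm

variable {hS} (hall : ∀ a ∈ MM hS, ∀ b ∈ MM hS, a * b = b * a) (hna : ∃ a b : G, a * b ≠ b * a)

include hall

lemma MM_le_DD : MM hS ≤ DD hS := fun a ha => (mem_DD hS).mpr (hall a ha)

lemma AA_spec {x : G} (hx : x ∈ MM hS) (y : G) : AA hS y (x * x) = BB x y := by
  obtain ⟨hr, hr2⟩ := rr_spec hS (v := x * x) ⟨x, hx, rfl⟩
  set r := rr hS (x * x) with hrdef
  have hcomm : r⁻¹ * x = x * r⁻¹ := hall _ (inv_mem hr) _ hx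
  have ht : (r⁻¹ * x) * (r⁻¹ * x) = 1 := by
    calc (r⁻¹ * x) * (r⁻¹ * x) = r⁻¹ * (x * r⁻¹) * x := by group
      _ = r⁻¹ * (r⁻¹ * x) * x := by rw [hcomm]
      _ = (r * r)⁻¹ * (x * x) := by group
      _ = 1 := by rw [hr2, inv_mul_cancel]
  have hO : r⁻¹ * x ∈ Om hS := ht
  have e : x = r * (r⁻¹ * x) := by group
  show BB r y = BB x y
  conv_rhs => rw [e]
  rw [BB_mul_left' (Om_central hS (hr.2 y)), BB_central_left (Om_central hS hO), mul_one]

lemma AA_one (y : G) : AA hS y 1 = 1 := by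
  have h := AA_spec hall (one_mem (MM hS)) y
  rw [mul_one, BB_one_left] at h
  exact h

include hna

/-- Squaring is onto. -/
lemma exists_root {v : G} (hv : v ∈ Om hS) : ∃ x, x ∈ MM hS ∧ x * x = v := by
  by_cases hv1 : v = 1
  · exact ⟨1, one_mem _, by rw [hv1, one_mul]⟩
  obtain ⟨a, b, hab⟩ := hna
  have hGne : ∃ x ∈ (⊤ : Subgroup G), x ∉ Om hS := by
    refine ⟨a, Subgroup.mem_top _, ?_⟩
    intro h
    exact hab (Subgroup.mem_center_iff.mp (Om_central hS h) b).symm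
  obtain ⟨w, -, hwO, hwM⟩ := exists_MM_of_normal hS ⊤ hGne
  have hw1 : w * w ≠ 1 := hwO
  obtain ⟨k, hk, -⟩ := hS.reg (w * w) v hw1 hwM.1 hv1 hv
  refine ⟨φ k w, phi_mem_MM hS k hwM, ?_⟩
  rw [← map_mul, hk]

lemma AA_om (y : G) {v : G} (hv : v ∈ Om hS) : AA hS y v ∈ Om hS := by
  obtain ⟨x, hx, rfl⟩ := exists_root hall hna hv
  rw [AA_spec hall hx]
  exact hx.2 y

lemma AA_add (y : G) {v v' : G} (hv : v ∈ Om hS) (hv' : v' ∈ Om hS) : AA hS y (v * v') = AA hS y v * AA hS y v' := by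
  obtain ⟨x, hx, rfl⟩ := exists_root hall hna hv
  obtain ⟨x', hx', rfl⟩ := exists_root hall hna hv'
  have h1 : (x * x) * (x' * x') = (x * x') * (x * x') := by
    have hc := hall x hx x' hx'
    calc (x * x) * (x' * x') = x * (x * x') * x' := by group
      _ = x * (x' * x) * x' := by rw [hc]
      _ = _ := by group
  rw [h1, AA_spec hall (mul_mem hx hx'), AA_spec hall hx, AA_spec hall hx', BB_mul_left' (Om_central hS (hx.2 y))]

lemma AA_mul (y y' : G) {v : G} (hv : v ∈ Om hS) : AA hS (y * y') v = AA hS y v * AA hS y' v := by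
  obtain ⟨x, hx, rfl⟩ := exists_root hall hna hv
  rw [AA_spec hall hx, AA_spec hall hx, AA_spec hall hx, BB_mul_right' (Om_central hS (hx.2 y))]

lemma AA_map (k : K) (y : G) {v : G} (hv : v ∈ Om hS) : AA hS (φ k y) (φ k v) = φ k (AA hS y v) := by
  obtain ⟨x, hx, rfl⟩ := exists_root hall hna hv
  rw [AA_spec hall hx, map_mul, AA_spec hall (phi_mem_MM hS k hx), BB_map]

lemma AA_triv {y : G} (h : ∀ v ∈ Om hS, AA hS y v = 1) : y ∈ DD hS := by
  rw [mem_DD]
  intro m hm
  have h1 := h _ hm.1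
  rw [AA_spec hall hm] at h1
  exact (BB_eq_one.mp h1).symm

lemma AA_of_DD {y : G} (hy : y ∈ DD hS) {v : G} (hv : v ∈ Om hS) : AA hS y v = 1 := by
  obtain ⟨x, hx, rfl⟩ := exists_root hall hna hv
  rw [AA_spec hall hx]
  exact BB_eq_one.mpr ((mem_DD hS).mp hy x hx).symm

/-- `DD` is abelian. -/
lemma DD_abelian {a b : G} (ha : a ∈ DD hS) (hb : b ∈ DD hS) : a * b = b * a := by
  classical
  obtain ⟨x, y, hxy⟩ := id hna
  have hGne : ∃ x ∈ (⊤ : Subgroup G), x ∉ Om hS := by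
    refine ⟨x, Subgroup.mem_top _, ?_⟩
    intro h
    exact hxy (Subgroup.mem_center_iff.mp (Om_central hS h) y).symm
  obtain ⟨w, -, hwO, hwM⟩ := exists_MM_of_normal hS ⊤ hGne
  have hOD : Om hS ≤ DD hS := fun z hz => (mem_DD hS).mpr fun m _ =>
    (Subgroup.mem_center_iff.mp (Om_central hS hz) m).symm
  have hres := sz2_res hS (DD hS) (fun k x hx => DD_inv hS k hx) hOD
  have hwD : w ∈ DD hS := MM_le_DD hall hwM
  have hcen : (⟨w, hwD⟩ : DD hS) ∈ Subgroup.center (DD hS) := by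
    rw [Subgroup.mem_center_iff]
    intro g
    apply Subtype.ext
    exact (mem_DD hS).mp g.2 w hwM
  have hne : (⟨w, hwD⟩ : DD hS) * ⟨w, hwD⟩ ≠ 1 := fun h => hwO (congrArg Subtype.val h)
  have := abelian_of_central (Nat.card (DD hS)) (DD hS) (phiRes (DD hS) (fun k x hx => DD_inv hS k hx)) hres rfl
    ⟨⟨w, hwD⟩, hcen, hne⟩ ⟨a, ha⟩ ⟨b, hb⟩
  exact congrArg Subtype.val this

lemma mem_MM_of_DD {t : G} (ht : t ∈ DD hS) (h4 : (t * t) * (t * t) = 1) : t ∈ MM hS := by
  obtain ⟨x, hx, hxe⟩ := exists_root hall hna (show t * t ∈ Om hS from h4)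
  have hxD := MM_le_DD hall hx
  have hcomm : x⁻¹ * t = t * x⁻¹ := DD_abelian hall hna (inv_mem hxD) ht
  have h1 : (t * x⁻¹) * (t * x⁻¹) = 1 := by
    calc (t * x⁻¹) * (t * x⁻¹) = t * (x⁻¹ * t) * x⁻¹ := by group
      _ = t * (t * x⁻¹) * x⁻¹ := by rw [hcomm]
      _ = (t * t) * (x * x)⁻¹ := by group
      _ = 1 := by rw [hxe, mul_inv_cancel]
  have h2 : t * x⁻¹ ∈ MM hS := Om_le_MM hS h1
  have e : t = (t * x⁻¹) * x := by group
  rw [e]
  exact mul_mem h2 hx

/-- The key computation. -/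
lemma AA_idem_of {t : G} (ht : t ∈ DD hS) (ht8 : ((t * t) * (t * t)) * ((t * t) * (t * t)) = 1) (y : G) :
    AA hS y (AA hS y ((t * t) * (t * t))) = AA hS y ((t * t) * (t * t)) := by
  have hDn := DD_normal hS
  have hDab : ∀ {a b : G}, a ∈ DD hS → b ∈ DD hS → a * b = b * a := fun ha hb => DD_abelian hall hna ha hb
  have hx₁ : t * t ∈ MM hS := mem_MM_of_DD hall hna (mul_mem ht ht) ht8
  set c := BB t y with hc
  have hty : y⁻¹ * t * y = t * c := by
    rw [hc]
    unfold BB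
    group
  have hcD : c ∈ DD hS := by
    have h1 : c = t⁻¹ * (y⁻¹ * t * y) := by
      rw [hc]
      unfold BB
      group
    rw [h1]
    have h2 := hDn.conj_mem t ht y⁻¹
    rw [inv_inv] at h2
    exact mul_mem (inv_mem ht) h2
  have h1 : y⁻¹ * (t * t) * y = (t * c) * (t * c) := by
    rw [← hty]
    group
  have h2 : (t * c) * (t * c) = (t * t) * (c * c) := by
    have hcomm := hDab hcD ht
    calc (t * c) * (t * c) = t * (c * t) * c := by group
      _ = t * (t * c) * c := by rw [hcomm]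
      _ = _ := by group
  have h3 : y⁻¹ * (t * t) * y = (t * t) * BB (t * t) y := by
    unfold BB
    group
  have hcc : c * c = BB (t * t) y := by
    rw [h1, h2] at h3
    exact mul_left_cancel h3
  have hsp := AA_spec hall hx₁ y
  rw [← hcc] at hsp
  -- `u = c * c`
  have hu : c * c ∈ Om hS := by
    rw [hcc]
    exact hx₁.2 y
  have hcM : c ∈ MM hS := mem_MM_of_DD hall hna hcD hu
  have hcy : y⁻¹ * c * y = c * BB c y := by
    unfold BB
    group
  have h4 : y⁻¹ * (y⁻¹ * t * y) * y = t * ((c * c) * BB c y) := by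
    rw [hty]
    calc y⁻¹ * (t * c) * y = (y⁻¹ * t * y) * (y⁻¹ * c * y) := by group
      _ = (t * c) * (c * BB c y) := by rw [hty, hcy]
      _ = _ := by group
  have h5 : y⁻¹ * (y⁻¹ * t * y) * y = t := by
    have hyy := sq_mem_DD hS y
    have hcomm := hDab hyy ht
    calc y⁻¹ * (y⁻¹ * t * y) * y = (y * y)⁻¹ * (t * (y * y)) := by group
      _ = (y * y)⁻¹ * ((y * y) * t) := by rw [hcomm]
      _ = t := by group
  rw [h5] at h4
  have h6 : (c * c) * BB c y = 1 := by
    have : t * 1 = t * ((c * c) * BB c y) := by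
      rw [mul_one]
      exact h4
    exact (mul_left_cancel this).symm
  have h7 : BB c y = c * c := by
    have h8 : (c * c) * (c * c) = 1 := hu
    calc BB c y = (c * c) * (c * c) * BB c y := by rw [h8, one_mul]
      _ = (c * c) * ((c * c) * BB c y) := by group
      _ = c * c := by rw [h6, mul_one]
  rw [hsp, AA_spec hall hcM, h7]

/-- Powers. -/
lemma exists_eight {t₀ : G} (h : (t₀ * t₀) * (t₀ * t₀) ≠ 1) :
    ∃ t, (∃ n : ℕ, t = t₀ ^ n) ∧ (t * t) * (t * t) ≠ 1 ∧ ((t * t) * (t * t)) * ((t * t) * (t * t)) = 1 := by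
  classical
  obtain ⟨j, hj⟩ := hS.two t₀
  have hex : ∃ j, t₀ ^ (2 ^ j) = 1 := ⟨j, hj⟩
  set e := Nat.find hex with he
  have hes : t₀ ^ (2 ^ e) = 1 := Nat.find_spec hex
  have h4 : (t₀ * t₀) * (t₀ * t₀) = t₀ ^ 4 := by
    simp only [pow_succ, pow_zero, one_mul, mul_assoc]
  have he3 : 3 ≤ e := by
    by_contra hlt
    have hle : e ≤ 2 := by omega
    apply h
    rw [h4]
    obtain ⟨m, hm⟩ : 2 ^ e ∣ 4 := by
      calc 2 ^ e ∣ 2 ^ 2 := pow_dvd_pow 2 hle
        _ = 4 := by norm_num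
    rw [hm, pow_mul, hes, one_pow]
  obtain ⟨r, hr⟩ : ∃ r, e = r + 3 := ⟨e - 3, by omega⟩
  have hf : ∀ t : G, (t * t) * (t * t) = t ^ 4 := by
    intro t
    simp only [pow_succ, pow_zero, one_mul, mul_assoc]
  refine ⟨t₀ ^ (2 ^ r), ⟨_, rfl⟩, ?_, ?_⟩
  · rw [hf, ← pow_mul]
    intro h1
    have h2 : t₀ ^ (2 ^ (r + 2)) = 1 := by
      rw [pow_add]
      exact h1
    have := Nat.find_min' hex h2
    omega
  · have hf8 : ∀ t : G, ((t * t) * (t * t)) * ((t * t) * (t * t)) = t ^ 8 := by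
      intro t
      simp only [pow_succ, pow_zero, one_mul, mul_assoc]
    rw [hf8, ← pow_mul]
    rw [hr] at hes
    convert hes using 2
    rw [pow_add]
    norm_num

/-- Idempotents. -/
lemma AA_idem (h : ∃ t ∈ DD hS, (t * t) * (t * t) ≠ 1) (y : G) {v : G} (hv : v ∈ Om hS) :
    AA hS y (AA hS y v) = AA hS y v := by
  by_cases hv1 : v = 1
  · rw [hv1, AA_one hall, AA_one hall]
  obtain ⟨t₀, ht₀, hne⟩ := h
  obtain ⟨t, ⟨n, rfl⟩, ht4, ht8⟩ := exists_eight hall hna hne
  obtain ⟨k, hk, -⟩ := hS.reg _ v ht4 ht8 hv1 hv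
  have hD : φ k (t₀ ^ n) ∈ DD hS := DD_inv hS k (pow_mem ht₀ n)
  have h8 : ((φ k (t₀ ^ n) * φ k (t₀ ^ n)) * (φ k (t₀ ^ n) * φ k (t₀ ^ n))) *
      ((φ k (t₀ ^ n) * φ k (t₀ ^ n)) * (φ k (t₀ ^ n) * φ k (t₀ ^ n))) = 1 := by
    simp only [← map_mul]
    rw [ht8, map_one]
  have h9 := AA_idem_of hall hna hD h8 y
  have e : (φ k (t₀ ^ n) * φ k (t₀ ^ n)) * (φ k (t₀ ^ n) * φ k (t₀ ^ n)) = v := by
    simp only [← map_mul]
    exact hk
  rwa [e] at h9

/-- Commuting. -/
lemma AA_comm (h : ∃ t ∈ DD hS, (t * t) * (t * t) ≠ 1) (y y' : G) {v : G} (hv : v ∈ Om hS) :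
    AA hS y (AA hS y' v) = AA hS y' (AA hS y v) := by
  have hm := AA_om hall hna
  have h1 := AA_idem hall hna h (y * y') hv
  rw [AA_mul hall hna y y' hv, AA_mul hall hna y y' (AA_om hall hna y hv |> fun h3 =>
    mul_mem h3 (AA_om hall hna y' hv)), AA_add hall hna y (hm y hv) (hm y' hv),
    AA_add hall hna y' (hm y hv) (hm y' hv), AA_idem hall hna h y hv, AA_idem hall hna h y' hv] at h1
  -- cancel in the abelian group of exponent two
  set a := AA hS y v with ha
  set b := AA hS y' v with hb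
  set p := AA hS y b with hp
  set r := AA hS y' a with hr
  have haO : a ∈ Om hS := hm y hv
  have hbO : b ∈ Om hS := hm y' hv
  have hpO : p ∈ Om hS := hm y hbO
  have hrO : r ∈ Om hS := hm y' haO
  have h2 : (a * p) * (r * b) = (a * b) * (p * r) := by
    have hb1 : ∀ x, b * x = x * b := fun x => Om_comm hS hbO
    calc (a * p) * (r * b) = (a * p) * (b * r) := by rw [hb1 r]
      _ = a * (p * b) * r := by group
      _ = a * (b * p) * r := by rw [hb1 p]
      _ = (a * b) * (p * r) := by group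
  rw [h2] at h1
  have h3 : p * r = 1 := by
    have : (a * b) * (p * r) = (a * b) * 1 := by
      rw [h1, mul_one]
    exact mul_left_cancel this
  have h4 : r * r = 1 := hrO
  calc p = p * (r * r) := by rw [h4, mul_one]
    _ = (p * r) * r := by group
    _ = r := by rw [h3, one_mul]

/-- A common eigenvector. -/
lemma exists_eigen (h : ∃ t ∈ DD hS, (t * t) * (t * t) ≠ 1) :
    ∃ u ∈ Om hS, u ≠ 1 ∧ ∀ y, AA hS y u = 1 ∨ AA hS y u = u := by
  classical
  haveI := hS.fin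
  obtain ⟨x, -, -, hx1, hx2, -, -⟩ := hS.invs
  let f : {u : G // u ∈ Om hS ∧ u ≠ 1} → ℕ := fun u => Set.ncard {y | AA hS y u.1 = u.1}
  haveI : Nonempty {u : G // u ∈ Om hS ∧ u ≠ 1} := ⟨⟨x, hx2, hx1⟩⟩
  obtain ⟨⟨u, huO, hu1⟩, hu⟩ := Finite.exists_max f
  refine ⟨u, huO, hu1, ?_⟩
  intro y
  by_contra hcon
  push Not at hcon
  obtain ⟨hw1, hw2⟩ := hcon
  have hwO := AA_om hall hna y huO
  have hlt : Set.ncard {y | AA hS y u = u} < Set.ncard {y' | AA hS y' (AA hS y u) = AA hS y u} := by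
    apply Set.ncard_lt_ncard _ (Set.toFinite _)
    constructor
    · intro y' hy'
      have hy'' : AA hS y' u = u := hy'
      show AA hS y' (AA hS y u) = AA hS y u
      rw [AA_comm hall hna h y' y huO, hy'']
    · intro hsub
      have h3 : y ∈ {y' | AA hS y' (AA hS y u) = AA hS y u} := AA_idem hall hna h y huO
      exact hw2 (hsub h3)
  have := hu ⟨AA hS y u, hwO, hw1⟩
  exact absurd this (not_le.mpr hlt)

/-- All the endomorphisms are trivial or identity. -/
lemma dichotomy (h : ∃ t ∈ DD hS, (t * t) * (t * t) ≠ 1) (y : G) :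
    (∀ v ∈ Om hS, AA hS y v = 1) ∨ (∀ v ∈ Om hS, AA hS y v = v) := by
  obtain ⟨u₀, hu₀, hu₀1, heig⟩ := exists_eigen hall hna h
  have hall_eig : ∀ u ∈ Om hS, u ≠ 1 → ∀ y, AA hS y u = 1 ∨ AA hS y u = u := by
    intro u hu hu1 y
    obtain ⟨k, hk, -⟩ := hS.reg u₀ u hu₀1 hu₀ hu1 hu
    have e : y = φ k (φ k⁻¹ y) := by
      rw [← phi_mul_apply, mul_inv_cancel, phi_one_apply]
    rw [e, ← hk, AA_map hall hna k _ hu₀]
    rcases heig (φ k⁻¹ y) with h1 | h1
    · left
      rw [h1, map_one]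
    · right
      rw [h1]
  by_contra hcon
  push Not at hcon
  obtain ⟨⟨b, hb, hb1⟩, ⟨a, ha, ha1⟩⟩ := hcon
  have hbne : b ≠ 1 := by
    rintro rfl
    exact hb1 (AA_one hall y)
  have hane : a ≠ 1 := by
    rintro rfl
    exact ha1 (AA_one hall y)
  have hb0 : AA hS y b = b := (hall_eig b hb hbne y).resolve_left hb1
  have ha0 : AA hS y a = 1 := (hall_eig a ha hane y).resolve_right ha1
  have hab : a * b ≠ 1 := by
    intro he
    have h1 : a = b := by
      have h2 : b * b = 1 := hb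
      calc a = a * (b * b) := by rw [h2, mul_one]
        _ = (a * b) * b := by group
        _ = b := by rw [he, one_mul]
    rw [h1] at ha0
    rw [ha0] at hb0
    exact hbne hb0.symm
  have hadd := AA_add hall hna y ha hb
  rw [ha0, hb0, one_mul] at hadd
  rcases hall_eig (a * b) (mul_mem ha hb) hab y with h1 | h1
  · rw [h1] at hadd
    exact hbne hadd.symm
  · rw [h1] at hadd
    exact hane (mul_eq_right.mp hadd)

/-- The centralizer of `MM` has exponent four. -/
lemma DD_exp {t : G} (ht : t ∈ DD hS) : (t * t) * (t * t) = 1 := by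
  classical
  by_contra hne
  have h : ∃ t ∈ DD hS, (t * t) * (t * t) ≠ 1 := ⟨t, ht, hne⟩
  obtain ⟨a, b, hab⟩ := id hna
  have hnot : ∃ y, y ∉ DD hS := by
    by_contra hcon
    push Not at hcon
    exact hab (DD_abelian hall hna (hcon a) (hcon b))
  obtain ⟨y₀, hy₀⟩ := hnot
  have hid : ∀ y, y ∉ DD hS → ∀ v ∈ Om hS, AA hS y v = v := by
    intro y hy
    rcases dichotomy hall hna h y with h1 | h1
    · exact absurd (AA_triv hall hna h1) hy
    · exact h1
  -- a nontrivial element of `K`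
  obtain ⟨x, z, hxz, hx1, hx2, hz1, hz2⟩ := hS.invs
  obtain ⟨k, hk, -⟩ := hS.reg x z hx1 hx2 hz1 hz2
  have hk1 : k ≠ 1 := by
    rintro rfl
    rw [phi_one_apply] at hk
    exact hxz hk
  have hk' : φ k y₀ ∉ DD hS := by
    intro h1
    apply hy₀
    have h2 := DD_inv hS k⁻¹ h1
    rwa [← phi_mul_apply, inv_mul_cancel, phi_one_apply] at h2
  have hinv : y₀⁻¹ ∉ DD hS := fun h1 => hy₀ (by simpa using inv_mem h1)
  apply hk1
  apply stab_trivial hS (DD hS) (fun k x hx => DD_inv hS k hx) hy₀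
  apply AA_triv hall hna
  intro v hv
  rw [AA_mul hall hna _ _ hv, hid _ hinv v hv, hid _ hk' v hv]
  exact hv

/-- The centralizer of `MM` is `MM`. -/
lemma DD_le_MM {t : G} (ht : t ∈ DD hS) : t ∈ MM hS := mem_MM_of_DD hall hna ht (DD_exp hall hna ht)

end caseA

end Cfsg.Agent.Suz2
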