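import Mathlib
import Cfsg.Agent.Lib.Suz2.MA1
import Cfsg.Agent.Lib.Suz2.Abs2
import Cfsg.Agent.Lib.Suz2.Field

/-!
Suzuki 2-groups: the central elementary part `MM` of `G / Om` is not abelian, hence `G / Om` is elementary abelian.
-/

set_option autoImplicit false
set_option linter.unusedSectionVars false
set_option linter.style.haveILetI false

namespace Cfsg.Agent.Suz2

universe u v

variable {G : Type u} [Group G] {K : Type v} [Group K] {φ : K →* MulAut G}

/-- The field coordinates on `Om`. -/
theorem exists_om_model (hS : Sz2 φ) (F : Type) [Field F] [Fintype F] (hF : Fintype.card F = Nat.card (Om hS)) :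
    ∃ (ι : Om hS → F) (ι' : F → Om hS) (χ : K →* F), (∀ a b, ι (a * b) = ι a + ι b) ∧ (∀ z, ι' (ι z) = z) ∧
      (∀ x, ι (ι' x) = x) ∧ (∀ (k : K) (z : Om hS), ι ⟨φ k (z : G), phi_mem_Om hS k z.2⟩ = χ k * ι z) ∧ ∀ u : F, u ≠ 0 → ∃ k, χ k = u := by
  classical
  haveI := hS.fin
  let O := Om hS
  letI iO : CommGroup O :=
    { (inferInstance : Group O) with
      mul_comm := fun a b => by
        apply Subtype.ext
        exact (Subgroup.mem_center_iff.mp (Om_le_center hS a.2) (b : G)).symm }
  let φO : K → O →* O := fun k =>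
    { toFun := fun z => ⟨φ k z, phi_mem_Om hS k z.2⟩
      map_one' := Subtype.ext (map_one (φ k))
      map_mul' := fun a b => Subtype.ext (map_mul (φ k) (a : G) (b : G)) }
  let TZ : K → Additive O →+ Additive O := fun k => (φO k).toAdditive
  have hzero : ∀ a : Additive O, a = 0 ↔ ((a.toMul : O) : G) = 1 := by
    intro a
    constructor
    · rintro rfl
      rfl
    · intro h
      exact Additive.toMul.injective (Subtype.ext h)
  have hRZ : RegAct TZ :=
    { mul := fun a b x => by
        apply Additive.toMul.injective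
        apply Subtype.ext
        exact phi_mul_apply a b ((x.toMul : O) : G)
      one := fun x => by
        apply Additive.toMul.injective
        apply Subtype.ext
        exact phi_one_apply ((x.toMul : O) : G)
      comm := hS.comm
      two := fun x => by
        apply (hzero _).mpr
        exact x.toMul.2
      reg := fun x y hx hy => by
        have hx' : ((x.toMul : O) : G) ≠ 1 := fun h => hx ((hzero x).mpr h)
        have hy' : ((y.toMul : O) : G) ≠ 1 := fun h => hy ((hzero y).mpr h)
        obtain ⟨k, hk, hu⟩ := hS.reg _ _ hx' x.toMul.2 hy' y.toMul.2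
        refine ⟨k, ?_, ?_⟩
        · apply Additive.toMul.injective
          apply Subtype.ext
          exact hk
        · intro l hl
          apply hu
          have := congrArg (fun a : Additive O => ((a.toMul : O) : G)) hl
          exact this }
  obtain ⟨x, -, -, hx1, hx2, -, -⟩ := hS.invs
  have hx0 : Additive.ofMul (⟨x, hx2⟩ : O) ≠ 0 := by
    intro h
    exact hx1 ((hzero _).mp h)
  obtain ⟨ν, χ, h1, h2⟩ := field_model hRZ _ hx0 F hF.symm
  refine ⟨fun z => ν (Additive.ofMul z), fun u => (ν.symm u).toMul, χ, ?_, ?_, ?_, ?_, h2⟩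
  · intro a b
    show ν (Additive.ofMul a + Additive.ofMul b) = _
    rw [map_add]
  · intro z
    simp
  · intro u
    simp
  · intro k z
    exact h1 k (Additive.ofMul z)

section main

variable {hS : Sz2 φ} (hall : ∀ a ∈ MM hS, ∀ b ∈ MM hS, a * b = b * a) (hna : ∃ a b : G, a * b ≠ b * a)

lemma MM_normal (hS : Sz2 φ) : (MM hS).Normal := by
  constructor
  intro m hm g
  have h := conj_mem_MM hS hm g⁻¹
  rwa [inv_inv] at h

include hall hna

lemma sq_mem_MM (y : G) : y * y ∈ MM hS := DD_le_MM hall hna (sq_mem_DD hS y)

lemma sq_sq_mem_Om (y : G) : (y * y) * (y * y) ∈ Om hS := (sq_mem_MM hall hna y).1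

/-- The quotient by `MM` has exponent two. -/
lemma BB_mem_MM (x y : G) : BB x y ∈ MM hS := by
  haveI := MM_normal hS
  have hQ2 : ∀ q : G ⧸ MM hS, q * q = 1 := by
    intro q
    induction q using QuotientGroup.induction_on with
    | H x =>
      rw [← QuotientGroup.mk_mul, QuotientGroup.eq_one_iff]
      exact sq_mem_MM hall hna x
  have h1 : ((BB x y : G) : G ⧸ MM hS) = 1 := by
    unfold BB
    simp only [QuotientGroup.mk_mul, QuotientGroup.mk_inv]
    have ha := hQ2 (x : G ⧸ MM hS)
    have hb := hQ2 (y : G ⧸ MM hS)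
    have hab := hQ2 ((x : G ⧸ MM hS) * (y : G ⧸ MM hS))
    rw [inv_eq_of_mul_eq_one_left ha, inv_eq_of_mul_eq_one_left hb, ← mul_assoc] at *
    exact hab
  exact (QuotientGroup.eq_one_iff _).mp h1

/-- The fourth power depends only on the coset. -/
lemma fourth_cong {y m : G} (hm : m ∈ MM hS) : ((y * m) * (y * m)) * ((y * m) * (y * m)) = (y * y) * (y * y) := by
  have hc : BB m y ∈ Om hS := hm.2 y
  have hcc := Subgroup.mem_center_iff.mp (Om_central hS hc)
  have h1 : (y * m) * (y * m) = (y * y) * (m * m) * BB m y := by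
    have e : m * y = y * m * BB m y := by
      unfold BB
      group
    calc (y * m) * (y * m) = y * (m * y) * m := by group
      _ = y * (y * m * BB m y) * m := by rw [e]
      _ = y * y * m * (BB m y * m) := by group
      _ = y * y * m * (m * BB m y) := by rw [← hcc m]
      _ = _ := by group
  rw [h1]
  have hyy := sq_mem_MM hall hna y
  have hmm : m * m ∈ Om hS := hm.1
  have hcomm : (m * m) * (y * y) = (y * y) * (m * m) := hall _ (Om_le_MM hS hmm) _ hyy
  have h2 : ((y * y) * (m * m)) * ((y * y) * (m * m)) = ((y * y) * (y * y)) * ((m * m) * (m * m)) := by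
    calc ((y * y) * (m * m)) * ((y * y) * (m * m)) = (y * y) * ((m * m) * (y * y)) * (m * m) := by group
      _ = (y * y) * ((y * y) * (m * m)) * (m * m) := by rw [hcomm]
      _ = _ := by group
  have h3 : (m * m) * (m * m) = 1 := hmm
  have h4 : BB m y * BB m y = 1 := hc
  calc ((y * y) * (m * m) * BB m y) * ((y * y) * (m * m) * BB m y)
      = ((y * y) * (m * m)) * (BB m y * ((y * y) * (m * m))) * BB m y := by group
    _ = ((y * y) * (m * m)) * (((y * y) * (m * m)) * BB m y) * BB m y := by rw [hcc ((y * y) * (m * m))]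
    _ = (((y * y) * (m * m)) * ((y * y) * (m * m))) * (BB m y * BB m y) := by group
    _ = _ := by rw [h4, h2, h3, mul_one, mul_one]

/-- The square of a commutator. -/
def bb (x y : G) : G := BB x y * BB x y

lemma bb_om (x y : G) : bb x y ∈ Om hS := (BB_mem_MM hall hna x y).1

lemma bb_self (x : G) : bb x x = 1 := by
  unfold bb
  rw [BB_self, mul_one]

lemma bb_symm (x y : G) : bb x y = bb y x := by
  have h1 : BB y x = (BB x y)⁻¹ := by
    unfold BB
    group
  have h2 : bb x y * bb x y = 1 := bb_om hall hna x y
  unfold bb at *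
  rw [h1, ← mul_inv_rev]
  exact eq_inv_of_mul_eq_one_left h2

/-- Additivity of the squared commutator. -/
lemma bb_mul (x y z : G) : bb x (y * z) = bb x y * bb x z := by
  set a := BB x y with ha
  have haM : a ∈ MM hS := BB_mem_MM hall hna x y
  have hzM : BB x z ∈ MM hS := BB_mem_MM hall hna x z
  have hd : BB a z ∈ Om hS := haM.2 z
  have hdc := Subgroup.mem_center_iff.mp (Om_central hS hd)
  have h1 : BB x (y * z) = BB x z * (a * BB a z) := by
    rw [ha]
    unfold BB
    group
  unfold bb
  rw [h1, ← ha]
  have hcomm : a * BB x z = BB x z * a := hall _ haM _ hzM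
  have h2 : BB a z * BB a z = 1 := hd
  calc (BB x z * (a * BB a z)) * (BB x z * (a * BB a z))
      = BB x z * (a * (BB a z * (BB x z * a)) * BB a z) := by group
    _ = BB x z * (a * ((BB x z * a) * BB a z) * BB a z) := by rw [hdc (BB x z * a)]
    _ = BB x z * (a * BB x z) * a * (BB a z * BB a z) := by group
    _ = BB x z * (BB x z * a) * a * (BB a z * BB a z) := by rw [hcomm]
    _ = (BB x z * BB x z) * (a * a) := by rw [h2]; group
    _ = (a * a) * (BB x z * BB x z) := by
        have h3 : BB x z * BB x z ∈ Om hS := hzM.1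
        exact Om_comm hS h3
  
/-- The fourth power of a product. -/
lemma fourth_mul (y y' : G) : ((y * y') * (y * y')) * ((y * y') * (y * y')) =
    ((y * y) * (y * y)) * ((y' * y') * (y' * y')) * bb y' y := by
  set c := BB y' y with hc
  have hcM : c ∈ MM hS := BB_mem_MM hall hna y' y
  have hd : BB c y' ∈ Om hS := hcM.2 y'
  have hdc := Subgroup.mem_center_iff.mp (Om_central hS hd)
  have e : y' * y = y * y' * c := by
    rw [hc]
    unfold BB
    group
  have e2 : c * y' = y' * c * BB c y' := by
    unfold BB
    group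
  have h1 : (y * y') * (y * y') = (y * y) * (y' * y') * (c * BB c y') := by
    calc (y * y') * (y * y') = y * (y' * y) * y' := by group
      _ = y * (y * y' * c) * y' := by rw [e]
      _ = y * y * y' * (c * y') := by group
      _ = y * y * y' * (y' * c * BB c y') := by rw [e2]
      _ = _ := by group
  rw [h1]
  have hyy := sq_mem_MM hall hna y
  have hyy' := sq_mem_MM hall hna y'
  have hcd : c * BB c y' ∈ MM hS := mul_mem hcM (Om_le_MM hS hd)
  have hpM : (y * y) * (y' * y') ∈ MM hS := mul_mem hyy hyy'
  have hcomm := hall _ hcd _ hpM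
  have hcomm2 := hall _ hyy' _ hyy
  have h2 : (c * BB c y') * (c * BB c y') = bb y' y := by
    unfold bb
    rw [← hc]
    have h3 : BB c y' * BB c y' = 1 := hd
    calc (c * BB c y') * (c * BB c y') = c * (BB c y' * c) * BB c y' := by group
      _ = c * (c * BB c y') * BB c y' := by rw [← hdc c]
      _ = c * c * (BB c y' * BB c y') := by group
      _ = c * c := by rw [h3, mul_one]
  rw [← h2]
  calc ((y * y) * (y' * y') * (c * BB c y')) * ((y * y) * (y' * y') * (c * BB c y'))
      = ((y * y) * (y' * y')) * ((c * BB c y') * ((y * y) * (y' * y'))) * (c * BB c y') := by group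
    _ = ((y * y) * (y' * y')) * (((y * y) * (y' * y')) * (c * BB c y')) * (c * BB c y') := by rw [hcomm]
    _ = ((y * y) * (y' * y')) * ((y * y) * (y' * y')) * ((c * BB c y') * (c * BB c y')) := by group
    _ = (y * y) * ((y' * y') * (y * y)) * (y' * y') * ((c * BB c y') * (c * BB c y')) := by group
    _ = (y * y) * ((y * y) * (y' * y')) * (y' * y') * ((c * BB c y') * (c * BB c y')) := by rw [hcomm2]
    _ = _ := by group

/-- The relation between squares and commutators. -/
lemma star_rel (y y' : G) : BB (y * y) y' = (BB y y' * BB y y') * BB (BB y y') y := by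
  set c := BB y y' with hc
  have hcM : c ∈ MM hS := BB_mem_MM hall hna y y'
  have hd : BB c y ∈ Om hS := hcM.2 y
  have hdc := Subgroup.mem_center_iff.mp (Om_central hS hd)
  have e1 : y'⁻¹ * y * y' = y * c := by
    rw [hc]
    unfold BB
    group
  have e2 : c * y = y * (c * BB c y) := by
    unfold BB
    group
  have h1 : y'⁻¹ * (y * y) * y' = (y * c) * (y * c) := by
    rw [← e1]
    group
  have h2 : (y * c) * (y * c) = (y * y) * ((c * c) * BB c y) := by
    calc (y * c) * (y * c) = y * (c * y) * c := by group
      _ = y * (y * (c * BB c y)) * c := by rw [e2]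
      _ = y * y * c * (BB c y * c) := by group
      _ = y * y * c * (c * BB c y) := by rw [← hdc c]
      _ = _ := by group
  have h3 : BB (y * y) y' = (y * y)⁻¹ * (y'⁻¹ * (y * y) * y') := by
    unfold BB
    group
  rw [h3, h1, h2]
  group

end main

end Cfsg.Agent.Suz2
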