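import Mathlib
import Cfsg.Agent.Lib.Suz2.MA2

/-!
Suzuki 2-groups: the quotient by `Om` is elementary abelian.
-/

set_option autoImplicit false
set_option linter.unusedSectionVars false
set_option linter.style.haveILetI false

namespace Cfsg.Agent.Suz2

universe u v

variable {G : Type u} [Group G] {K : Type v} [Group K] {φ : K →* MulAut G}

section main

variable {hS : Sz2 φ} (hall : ∀ a ∈ MM hS, ∀ b ∈ MM hS, a * b = b * a) (hna : ∃ a b : G, a * b ≠ b * a)

include hall hna

theorem fourth_eq_one (y₀ : G) : (y₀ * y₀) * (y₀ * y₀) = 1 := by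
  classical
  haveI := hS.fin
  haveI := finite_K hS
  haveI : Fact (Nat.Prime 2) := ⟨Nat.prime_two⟩
  obtain ⟨n, hn⟩ := IsPGroup.iff_card.mp (hS.two.to_subgroup (Om hS))
  obtain ⟨x₁, x₂, hx12, hx₁, hx₁2, hx₂, hx₂2⟩ := hS.invs
  have hn0 : n ≠ 0 := by
    rintro rfl
    rw [pow_zero] at hn
    haveI := Finite.card_le_one_iff_subsingleton.mp (le_of_eq hn)
    exact hx₁ (congrArg Subtype.val (Subsingleton.elim (⟨x₁, hx₁2⟩ : Om hS) 1))
  let F := GaloisField 2 n
  haveI : Fintype F := Fintype.ofFinite F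
  have hF : Fintype.card F = Nat.card (Om hS) := by
    rw [hn, ← Nat.card_eq_fintype_card]
    exact GaloisField.card 2 n hn0
  obtain ⟨ι, ι', χ, hιadd, hι'ι, hιι', hιχ, hχsurj⟩ := exists_om_model hS F hF
  have h2F : ∀ a : F, a + a = 0 := CharTwo.add_self_eq_zero
  have hιinj : ∀ a b, ι a = ι b → a = b := by
    intro a b h
    rw [← hι'ι a, ← hι'ι b, h]
  have hι1 : ι 1 = 0 := by
    have h := hιadd 1 1
    rw [mul_one] at h
    exact (left_eq_add.mp h)
  have hι'add : ∀ u v, ι' (u + v) = ι' u * ι' v := by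
    intro u v
    apply hιinj
    rw [hιadd, hιι', hιι', hιι']
  -- a generator
  obtain ⟨g, hg⟩ := IsCyclic.exists_monoid_generator (α := Fˣ)
  let ω : F := g
  have hω0 : ω ≠ 0 := g.ne_zero
  obtain ⟨θ, hθ⟩ := hχsurj ω hω0
  have hω : ∀ x : F, x ≠ 0 → ∃ t : ℕ, ω ^ t = x := by
    intro x hx
    obtain ⟨t, ht⟩ := Submonoid.mem_powers_iff _ _ |>.mp (hg (Units.mk0 x hx))
    exact ⟨t, by
      have := congrArg (Units.val) ht
      simpa using this⟩
  have hι0 : ∀ a : Om hS, (a : G) ≠ 1 → ι a ≠ 0 := by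
    intro a ha h0
    apply ha
    have := hιinj a 1 (h0.trans hι1.symm)
    rw [this]
    rfl
  have hω1 : ω ≠ 1 := by
    intro h1
    obtain ⟨t1, ht1⟩ := hω _ (hι0 ⟨x₁, hx₁2⟩ hx₁)
    obtain ⟨t2, ht2⟩ := hω _ (hι0 ⟨x₂, hx₂2⟩ hx₂)
    rw [h1, one_pow] at ht1 ht2
    have := hιinj _ _ (ht1.symm.trans ht2)
    exact hx12 (congrArg Subtype.val this)
  -- the quotient
  haveI hMn := MM_normal hS
  let H := G ⧸ MM hS
  have hQ2 : ∀ q : H, q * q = 1 := by
    intro q
    induction q using QuotientGroup.induction_on with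
    | H x =>
      rw [← QuotientGroup.mk_mul, QuotientGroup.eq_one_iff]
      exact sq_mem_MM hall hna x
  letI iQ : CommGroup H :=
    { (inferInstance : Group H) with
      mul_comm := fun a b => by
        calc a * b = a * b * (b * a * (b * a)) := by rw [hQ2 (b * a), mul_one]
          _ = a * (b * b) * a * (b * a) := by group
          _ = b * a := by rw [hQ2 b, mul_one, hQ2 a, one_mul] }
  letI iM : Module (ZMod 2) (Additive H) := AddCommGroup.zmodModule (n := 2) (by
    intro x
    rw [two_nsmul]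
    exact hQ2 x.toMul)
  have hrep : ∀ q : Additive H, ∃ x : G, q = Additive.ofMul (x : H) := by
    intro q
    exact ⟨(q.toMul).out, by
      apply Additive.toMul.injective
      exact (QuotientGroup.out_eq' q.toMul).symm⟩
  have hzeroH : ∀ x : G, Additive.ofMul (x : H) = 0 ↔ x ∈ MM hS := by
    intro x
    constructor
    · intro h
      exact (QuotientGroup.eq_one_iff x).mp h
    · intro h
      exact (QuotientGroup.eq_one_iff x).mpr h
  have hadd : ∀ x y : G, Additive.ofMul (x : H) + Additive.ofMul (y : H) = Additive.ofMul ((x * y : G) : H) :=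
    fun _ _ => rfl
  -- the linear map
  let T₀ : H →* H := QuotientGroup.map (MM hS) (MM hS) (φ θ).toMonoidHom (fun m hm => phi_mem_MM hS θ hm)
  let T : Additive H →ₗ[ZMod 2] Additive H := (T₀.toAdditive).toZModLinearMap 2
  have hTmk : ∀ y : G, T (Additive.ofMul (y : H)) = Additive.ofMul ((φ θ y : G) : H) := fun _ => rfl
  have hTpow : ∀ (t : ℕ) (y : G), (T ^ t) (Additive.ofMul (y : H)) = Additive.ofMul ((φ (θ ^ t) y : G) : H) := by
    intro t y
    induction t with
    | zero =>
      rw [pow_zero, pow_zero, phi_one_apply]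
      rfl
    | succ t ih =>
      rw [pow_succ', pow_succ', Module.End.mul_apply, ih, hTmk, phi_mul_apply]
  have hfpf : ∀ (t : ℕ) (h : Additive H), h ≠ 0 → (T ^ t) h = h → ω ^ t = 1 := by
    intro t h hh he
    obtain ⟨y, rfl⟩ := hrep h
    rw [hTpow] at he
    have hy : y ∉ MM hS := fun hy => hh ((hzeroH y).mpr hy)
    have h1 : ((φ (θ ^ t) y : G) : H) = (y : H) := he
    have h2 : y⁻¹ * φ (θ ^ t) y ∈ MM hS := QuotientGroup.eq.mp h1.symm
    have h3 := stab_trivial hS (MM hS) (fun k x hx => phi_mem_MM hS k hx) hy h2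
    have h4 := congrArg χ h3
    rw [map_pow, hθ, map_one] at h4
    exact h4
  -- the maps `A`
  let A' : G → (F →+ F) := fun y =>
    { toFun := fun v => ι ⟨AA hS y (ι' v : G), AA_om hall hna y (ι' v).2⟩
      map_zero' := by
        have e : ι' 0 = 1 := by
          apply hιinj
          rw [hιι', hι1]
        rw [e]
        have h1 : AA hS y ((1 : Om hS) : G) = 1 := AA_one hall y
        have h2 : (⟨AA hS y ((1 : Om hS) : G), AA_om hall hna y (1 : Om hS).2⟩ : Om hS) = 1 := Subtype.ext h1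
        rw [h2, hι1]
      map_add' := fun u v => by
        rw [← hιadd]
        congr 1
        apply Subtype.ext
        rw [hι'add]
        exact AA_add hall hna y (ι' u).2 (ι' v).2 }
  have hA'def : ∀ y v, A' y v = ι ⟨AA hS y (ι' v : G), AA_om hall hna y (ι' v).2⟩ := fun _ _ => rfl
  have hA'om : ∀ (y : G) (a : Om hS), A' y (ι a) = ι ⟨AA hS y (a : G), AA_om hall hna y a.2⟩ := by
    intro y a
    rw [hA'def]
    congr 1
    apply Subtype.ext
    simp only [hι'ι]
  have hA'mul : ∀ y y', A' (y * y') = A' y + A' y' := by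
    intro y y'
    ext v
    rw [AddMonoidHom.add_apply, hA'def, hA'def, hA'def, ← hιadd]
    congr 1
    apply Subtype.ext
    exact AA_mul hall hna y y' (ι' v).2
  have hA'MM : ∀ m ∈ MM hS, A' m = 0 := by
    intro m hm
    ext v
    rw [hA'def, AddMonoidHom.zero_apply, ← hι1]
    congr 1
    apply Subtype.ext
    exact AA_of_DD hall hna (MM_le_DD hall hm) (ι' v).2
  have hA'inj : ∀ y, A' y = 0 → y ∈ MM hS := by
    intro y h
    apply DD_le_MM hall hna
    apply AA_triv hall hna
    intro v hv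
    have h1 := hA'om y ⟨v, hv⟩
    rw [h, AddMonoidHom.zero_apply, ← hι1] at h1
    have h2 := hιinj _ _ h1
    exact (congrArg Subtype.val h2).symm
  have hA'cong : ∀ y y' : G, (y : H) = (y' : H) → A' y = A' y' := by
    intro y y' h
    have h1 : y⁻¹ * y' ∈ MM hS := QuotientGroup.eq.mp h
    have e : y' = y * (y⁻¹ * y') := by group
    rw [e, hA'mul, hA'MM _ h1, add_zero]
  let Ah : Additive H →+ (F →+ F) := AddMonoidHom.mk' (fun h => A' (h.toMul).out) (by
    intro a b
    rw [← hA'mul]
    apply hA'cong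
    rw [QuotientGroup.mk_mul, QuotientGroup.out_eq', QuotientGroup.out_eq', QuotientGroup.out_eq']
    rfl)
  have hAhmk : ∀ y : G, Ah (Additive.ofMul (y : H)) = A' y := by
    intro y
    exact hA'cong _ _ (QuotientGroup.out_eq' (y : H))
  have hAinj : ∀ h, Ah h = 0 → h = 0 := by
    intro h hh
    obtain ⟨y, rfl⟩ := hrep h
    rw [hAhmk] at hh
    exact (hzeroH y).mpr (hA'inj y hh)
  have hAT : ∀ h v, Ah (T h) (ω * v) = ω * Ah h v := by
    intro h v
    obtain ⟨y, rfl⟩ := hrep h
    rw [hTmk, hAhmk, hAhmk]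
    have e : ω * v = ι ⟨φ θ (ι' v : G), phi_mem_Om hS θ (ι' v).2⟩ := by
      rw [hιχ, hιι' v, hθ]
    rw [e, hA'om, hA'def, ← hθ, ← hιχ]
    congr 1
    apply Subtype.ext
    exact AA_map hall hna θ y (ι' v).2
  -- the fourth-power map
  let s : Additive H → F := fun h => ι ⟨((h.toMul).out * (h.toMul).out) * ((h.toMul).out * (h.toMul).out),
    sq_sq_mem_Om hall hna _⟩
  have hsmk : ∀ y : G, s (Additive.ofMul (y : H)) = ι ⟨(y * y) * (y * y), sq_sq_mem_Om hall hna y⟩ := by
    intro y
    show ι _ = ι _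
    congr 1
    apply Subtype.ext
    show (((y : H)).out * ((y : H)).out) * (((y : H)).out * ((y : H)).out) = (y * y) * (y * y)
    have h1 : y⁻¹ * ((y : H)).out ∈ MM hS := QuotientGroup.eq.mp (QuotientGroup.out_eq' (y : H)).symm
    have h2 := fourth_cong hall hna (y := y) h1
    have e : y * (y⁻¹ * ((y : H)).out) = ((y : H)).out := by group
    rwa [e] at h2
  let B : Additive H → Additive H → F := fun h h' => s (h + h') + s h + s h'
  have hs : ∀ h h', s (h + h') = s h + s h' + B h h' := by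
    intro h h'
    show s (h + h') = s h + s h' + (s (h + h') + s h + s h')
    have h1 := h2F (s h)
    have h2 := h2F (s h')
    calc s (h + h') = s (h + h') + (s h + s h) + (s h' + s h') := by rw [h1, h2, add_zero, add_zero]
      _ = _ := by abel
  have hBform : ∀ y y' : G, B (Additive.ofMul (y : H)) (Additive.ofMul (y' : H)) = ι ⟨bb y' y, bb_om hall hna y' y⟩ := by
    intro y y'
    show s (Additive.ofMul (y : H) + Additive.ofMul (y' : H)) + s (Additive.ofMul (y : H)) + s (Additive.ofMul (y' : H)) = _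
    rw [hadd, hsmk, hsmk, hsmk]
    have h1 : ι ⟨((y * y') * (y * y')) * ((y * y') * (y * y')), sq_sq_mem_Om hall hna (y * y')⟩ =
        ι ⟨(y * y) * (y * y), sq_sq_mem_Om hall hna y⟩ + ι ⟨(y' * y') * (y' * y'), sq_sq_mem_Om hall hna y'⟩ +
          ι ⟨bb y' y, bb_om hall hna y' y⟩ := by
      rw [← hιadd, ← hιadd]
      congr 1
      apply Subtype.ext
      exact fourth_mul hall hna y y'
    rw [h1]
    have h3 := h2F (ι ⟨(y * y) * (y * y), sq_sq_mem_Om hall hna y⟩)
    have h4 := h2F (ι ⟨(y' * y') * (y' * y'), sq_sq_mem_Om hall hna y'⟩)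
    generalize ι ⟨(y * y) * (y * y), sq_sq_mem_Om hall hna y⟩ = a at *
    generalize ι ⟨(y' * y') * (y' * y'), sq_sq_mem_Om hall hna y'⟩ = b at *
    generalize ι ⟨bb y' y, bb_om hall hna y' y⟩ = c at *
    calc a + b + c + a + b = (a + a) + (b + b) + c := by abel
      _ = c := by rw [h3, h4, add_zero, zero_add]
  have hBadd : ∀ h h' h'', B (h + h') h'' = B h h'' + B h' h'' := by
    intro h h' h''
    obtain ⟨x, rfl⟩ := hrep h
    obtain ⟨x', rfl⟩ := hrep h'
    obtain ⟨y, rfl⟩ := hrep h''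
    rw [hadd, hBform, hBform, hBform, ← hιadd]
    congr 1
    apply Subtype.ext
    exact bb_mul hall hna y x x'
  have hBsymm : ∀ h h', B h h' = B h' h := by
    intro h h'
    obtain ⟨x, rfl⟩ := hrep h
    obtain ⟨y, rfl⟩ := hrep h'
    rw [hBform, hBform]
    congr 1
    apply Subtype.ext
    exact bb_symm hall hna y x
  have hBself : ∀ h, B h h = 0 := by
    intro h
    obtain ⟨x, rfl⟩ := hrep h
    rw [hBform, ← hι1]
    congr 1
    apply Subtype.ext
    exact bb_self hall hna x
  have hstar : ∀ h h', Ah h' (s h) = B h h' + Ah h (B h h') := by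
    intro h h'
    obtain ⟨y, rfl⟩ := hrep h
    obtain ⟨y', rfl⟩ := hrep h'
    rw [hBform, hAhmk, hAhmk, hsmk, hA'om, hA'om, ← hιadd]
    congr 1
    apply Subtype.ext
    show AA hS y' ((y * y) * (y * y)) = bb y' y * AA hS y (bb y' y)
    rw [AA_spec hall (sq_mem_MM hall hna y) y', bb_symm hall hna y' y]
    have hcM : BB y y' ∈ MM hS := BB_mem_MM hall hna y y'
    show _ = bb y y' * AA hS y (BB y y' * BB y y')
    rw [AA_spec hall hcM y, star_rel hall hna y y']
    rfl
  have hres := sq_zero_of_relations ω hω hω0 hω1 T hfpf Ah hAinj hAT s B hs hBadd hBsymm hBself hstar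
  have h := hres (Additive.ofMul (y₀ : H))
  rw [hsmk, ← hι1] at h
  exact congrArg Subtype.val (hιinj _ _ h)

/-- The quotient by `Om` has exponent two, in the case where `MM` is abelian (contradictory). -/
theorem false_of_abelian : False := by
  have h1 : ∀ y : G, y * y ∈ Om hS := fun y => fourth_eq_one hall hna y
  haveI := Om_normal hS
  have hQ2 : ∀ q : G ⧸ Om hS, q * q = 1 := by
    intro q
    induction q using QuotientGroup.induction_on with
    | H x =>
      rw [← QuotientGroup.mk_mul, QuotientGroup.eq_one_iff]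
      exact h1 x
  have h2 : ∀ x y : G, BB x y ∈ Om hS := by
    intro x y
    have h3 : ((BB x y : G) : G ⧸ Om hS) = 1 := by
      unfold BB
      simp only [QuotientGroup.mk_mul, QuotientGroup.mk_inv]
      have ha := hQ2 (x : G ⧸ Om hS)
      have hb := hQ2 (y : G ⧸ Om hS)
      have hab := hQ2 ((x : G ⧸ Om hS) * (y : G ⧸ Om hS))
      rw [inv_eq_of_mul_eq_one_left ha, inv_eq_of_mul_eq_one_left hb, ← mul_assoc] at *
      exact hab
    exact (QuotientGroup.eq_one_iff _).mp h3
  obtain ⟨a, b, hab⟩ := hna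
  exact hab (hall a ⟨h1 a, h2 a⟩ b ⟨h1 b, h2 b⟩)

end main

/-- `MM` is not abelian. -/
theorem MM_nonabelian' (hS : Sz2 φ) (hna : ∃ a b : G, a * b ≠ b * a) : ∃ a ∈ MM hS, ∃ b ∈ MM hS, a * b ≠ b * a := by
  by_contra hall
  push Not at hall
  exact false_of_abelian hall hna

/-- The quotient by `Om` is elementary abelian. -/
theorem elem_general (hS : Sz2 φ) (hna : ∃ a b : G, a * b ≠ b * a) :
    (∀ x : G, x * x ∈ Om hS) ∧ ∀ x y : G, BB x y ∈ Om hS := by
  have hMna := MM_nonabelian' hS hna
  constructor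
  · intro x
    apply centralizer_MM_le hS hMna
    intro m hm
    have hc := hm.2 x
    have h1 := BB_mul_right' (Om_central hS hc) x
    rw [show BB m x * BB m x = 1 from hc] at h1
    exact (BB_eq_one.mp h1).symm
  · intro x y
    apply centralizer_MM_le hS hMna
    intro m hm
    have hcx := Om_central hS (hm.2 x)
    have hcy := Om_central hS (hm.2 y)
    have hcxi : BB m x⁻¹ ∈ Subgroup.center G := by
      rw [BB_inv_right' hcx]
      exact inv_mem hcx
    have hcyi : BB m y⁻¹ ∈ Subgroup.center G := by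
      rw [BB_inv_right' hcy]
      exact inv_mem hcy
    have hcxy : BB m (x⁻¹ * y⁻¹) ∈ Subgroup.center G := by
      rw [BB_mul_right' hcxi]
      exact mul_mem hcxi hcyi
    have hcxyx : BB m (x⁻¹ * y⁻¹ * x) ∈ Subgroup.center G := by
      rw [BB_mul_right' hcxy]
      exact mul_mem hcxy hcx
    have h1 : BB m (BB x y) = 1 := by
      show BB m (x⁻¹ * y⁻¹ * x * y) = 1
      rw [BB_mul_right' hcxyx, BB_mul_right' hcxy, BB_mul_right' hcxi, BB_inv_right' hcx, BB_inv_right' hcy]
      have h2 := Subgroup.mem_center_iff.mp hcx (BB m y)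
      calc (BB m x)⁻¹ * (BB m y)⁻¹ * BB m x * BB m y = (BB m x)⁻¹ * (BB m y)⁻¹ * (BB m x * BB m y) := by group
        _ = (BB m x)⁻¹ * (BB m y)⁻¹ * (BB m y * BB m x) := by rw [h2]
        _ = 1 := by group
    exact (BB_eq_one.mp h1).symm

end Cfsg.Agent.Suz2
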