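import Mathlib
import Cfsg.Prelude.Def_LieRecognition

/-!
A group which is an extension of the additive group of `F` by the additive group of `F`, with central kernel and
squares given by `u ↦ u φ(u)`, is the group of matrices `suzukiTypeA F φ`.
-/

set_option autoImplicit false
set_option linter.unusedSectionVars false
set_option linter.style.haveILetI false

namespace Cfsg.Agent.Suz2

universe u w

section tw

variable {G : Type u} [Group G] {F : Type w} [Field F]

/-- The twisted product, with the cocycle `φ(u) v`. -/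
def Tw (_ : G →* Multiplicative F) (_ : F ≃+* F) : Type (max u w) := G × F

variable (π : G →* Multiplicative F) (φ : F ≃+* F)

/-- the map to the additive group of the field -/
def pa (p : G) : F := Multiplicative.toAdd (π p)

lemma pa_mul (p p' : G) : pa π (p * p') = pa π p + pa π p' := by
  unfold pa
  rw [map_mul, toAdd_mul]

lemma pa_one : pa π 1 = 0 := by
  unfold pa
  rw [map_one, toAdd_one]

lemma pa_inv (p : G) : pa π p⁻¹ = - pa π p := by
  unfold pa
  rw [map_inv, toAdd_inv]

instance twGroup : Group (Tw π φ) where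
  mul a b := (a.1 * b.1, a.2 + b.2 + φ (pa π a.1) * pa π b.1)
  one := (1, 0)
  inv a := (a.1⁻¹, - a.2 + φ (pa π a.1) * pa π a.1)
  mul_assoc a b c := by
    apply Prod.ext
    · exact mul_assoc _ _ _
    · show (a.2 + b.2 + φ (pa π a.1) * pa π b.1) + c.2 + φ (pa π (a.1 * b.1)) * pa π c.1 =
        a.2 + (b.2 + c.2 + φ (pa π b.1) * pa π c.1) + φ (pa π a.1) * pa π (b.1 * c.1)
      rw [pa_mul, pa_mul, map_add]
      ring
  one_mul a := by
    apply Prod.ext
    · exact one_mul _
    · show (0 : F) + a.2 + φ (pa π 1) * pa π a.1 = a.2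
      rw [pa_one, map_zero]
      ring
  mul_one a := by
    apply Prod.ext
    · exact mul_one _
    · show a.2 + (0 : F) + φ (pa π a.1) * pa π 1 = a.2
      rw [pa_one]
      ring
  inv_mul_cancel a := by
    apply Prod.ext
    · exact inv_mul_cancel _
    · show (- a.2 + φ (pa π a.1) * pa π a.1) + a.2 + φ (pa π a.1⁻¹) * pa π a.1 = 0
      rw [pa_inv, map_neg]
      ring

/-- constructor -/
def twMk (p : G) (w : F) : Tw π φ := (p, w)

lemma tw_mul (p p' : G) (w w' : F) :
    twMk π φ p w * twMk π φ p' w' = twMk π φ (p * p') (w + w' + φ (pa π p) * pa π p') := rfl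

lemma tw_one : (1 : Tw π φ) = twMk π φ 1 0 := rfl

end tw

/-- The lower triangular matrices. -/
def matM {F : Type w} [Field F] (φ : F ≃+* F) (x y : F) : Matrix (Fin 3) (Fin 3) F :=
  !![1, 0, 0; x, 1, 0; y, φ x, 1]

lemma matM_mul {F : Type w} [Field F] (φ : F ≃+* F) (x y x' y' : F) :
    matM φ x y * matM φ x' y' = matM φ (x + x') (y + y' + φ x * x') := by
  ext i j
  fin_cases i <;> fin_cases j <;>
    simp [matM, Matrix.mul_apply, Fin.sum_univ_three, map_add] <;> ring

lemma matM_zero {F : Type w} [Field F] (φ : F ≃+* F) : matM φ 0 0 = 1 := by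
  ext i j
  fin_cases i <;> fin_cases j <;> simp [matM]

/-- As a unit. -/
def matU {F : Type w} [Field F] (φ : F ≃+* F) (x y : F) : GL (Fin 3) F where
  val := matM φ x y
  inv := matM φ (-x) (-y + φ x * x)
  val_inv := by
    rw [matM_mul, ← matM_zero φ]
    congr 1 <;> ring
  inv_val := by
    rw [matM_mul, ← matM_zero φ, map_neg]
    congr 1 <;> ring

theorem iso_of_coords {G : Type u} [Group G] [Finite G] (F : Type w) [Field F] [Fintype F] (φ : F ≃+* F)
    (hF2 : ∀ x : F, x + x = 0) (π : G →* Multiplicative F) (O : Subgroup G)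
    (hO : ∀ p, pa π p = 0 ↔ p ∈ O) (hOc : O ≤ Subgroup.center G)
    (ι : O → F) (hι : ∀ a b : O, ι (a * b) = ι a + ι b) (hιinj : ∀ a : O, ι a = 0 → a = 1)
    (hsq : ∀ p, ∃ h : p * p ∈ O, ι ⟨p * p, h⟩ = pa π p * φ (pa π p))
    (hcard : Nat.card G = Fintype.card F ^ 2) :
    Nonempty (G ≃* Cfsg.suzukiTypeA F (φ : F →+* F)) := by
  classical
  haveI : Fact (Nat.Prime 2) := ⟨Nat.prime_two⟩
  have hι1 : ι 1 = 0 := by
    have h := hι 1 1
    rw [mul_one] at h
    exact left_eq_add.mp h
  -- the subgroup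
  let Δ : Subgroup (Tw π φ) :=
    { carrier := {t | ∃ h : t.1 ∈ O, t.2 = ι ⟨t.1, h⟩}
      one_mem' := ⟨one_mem O, by
        show (0 : F) = ι ⟨1, _⟩
        exact hι1.symm⟩
      mul_mem' := by
        rintro ⟨a, v⟩ ⟨b, v'⟩ ⟨ha, hv⟩ ⟨hb, hv'⟩
        refine ⟨mul_mem ha hb, ?_⟩
        show v + v' + φ (pa π a) * pa π b = ι ⟨a * b, _⟩
        have hb0 : pa π b = 0 := (hO b).mpr hb
        rw [hb0, mul_zero, add_zero]
        have e : (⟨a * b, mul_mem ha hb⟩ : O) = ⟨a, ha⟩ * ⟨b, hb⟩ := rfl
        rw [e, hι]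
        exact congrArg₂ _ hv hv'
      inv_mem' := by
        rintro ⟨a, v⟩ ⟨ha, hv⟩
        refine ⟨inv_mem ha, ?_⟩
        show - v + φ (pa π a) * pa π a = ι ⟨a⁻¹, _⟩
        have ha0 : pa π a = 0 := (hO a).mpr ha
        rw [ha0, mul_zero, add_zero]
        have h1 := hι ⟨a, ha⟩ ⟨a, ha⟩⁻¹
        rw [mul_inv_cancel, hι1] at h1
        have h2 : ι ⟨a, ha⟩⁻¹ = ι ⟨a⁻¹, inv_mem ha⟩ := rfl
        rw [h2] at h1
        have hv0 : v = ι ⟨a, ha⟩ := hv
        rw [hv0]
        linear_combination h1 }
  have hΔmem : ∀ (z : G) (hz : z ∈ O), twMk π φ z (ι ⟨z, hz⟩) ∈ Δ := fun z hz => ⟨hz, rfl⟩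
  haveI hΔn : Δ.Normal := by
    constructor
    rintro ⟨a, v⟩ ⟨ha, hv⟩ g
    have hcomm : g * twMk π φ a v = twMk π φ a v * g := by
      have ha0 : pa π a = 0 := (hO a).mpr ha
      apply Prod.ext
      · show g.1 * a = a * g.1
        exact (Subgroup.mem_center_iff.mp (hOc ha) g.1)
      · show g.2 + v + φ (pa π g.1) * pa π a = v + g.2 + φ (pa π a) * pa π g.1
        rw [ha0, map_zero]
        ring
    show g * twMk π φ a v * g⁻¹ ∈ Δ
    rw [hcomm, mul_inv_cancel_right]
    exact ⟨ha, hv⟩
  -- the quotient has exponent two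
  let A := Tw π φ ⧸ Δ
  have hA2 : ∀ a : A, a * a = 1 := by
    intro a
    induction a using QuotientGroup.induction_on with
    | H t =>
      rw [← QuotientGroup.mk_mul, QuotientGroup.eq_one_iff]
      obtain ⟨p, w⟩ := t
      obtain ⟨h, he⟩ := hsq p
      refine ⟨h, ?_⟩
      show w + w + φ (pa π p) * pa π p = ι ⟨p * p, h⟩
      rw [hF2, he]
      ring
  letI iA : CommGroup A :=
    { (inferInstance : Group A) with
      mul_comm := fun a b => by
        have h1 := hA2 (a * b)
        have h2 := hA2 a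
        have h3 := hA2 b
        calc a * b = a * b * (b * a * (b * a)) := by rw [hA2 (b * a), mul_one]
          _ = a * (b * b) * a * (b * a) := by group
          _ = b * a := by rw [h3, mul_one, h2, one_mul] }
  letI mA : Module (ZMod 2) (Additive A) := AddCommGroup.zmodModule (n := 2) (fun x => by
    rw [two_nsmul]
    exact hA2 (Additive.toMul x))
  letI mF : Module (ZMod 2) F := AddCommGroup.zmodModule (n := 2) (fun x => by
    rw [two_nsmul]
    exact hF2 x)
  -- the embedding and a retraction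
  let j0 : F → A := fun w => ((twMk π φ 1 w : Tw π φ) : A)
  have hj0mul : ∀ w w' : F, j0 (w + w') = j0 w * j0 w' := by
    intro w w'
    show ((twMk π φ 1 (w + w') : Tw π φ) : A) = ((twMk π φ 1 w * twMk π φ 1 w' : Tw π φ) : A)
    rw [tw_mul, pa_one, mul_zero, add_zero, mul_one]
  let j : F →+ Additive A :=
    { toFun := fun w => Additive.ofMul (j0 w)
      map_zero' := by
        show Additive.ofMul (((twMk π φ 1 0 : Tw π φ)) : A) = 0
        rw [← tw_one]
        rfl
      map_add' := fun w w' => by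
        show Additive.ofMul (j0 (w + w')) = Additive.ofMul (j0 w) + Additive.ofMul (j0 w')
        rw [hj0mul, ofMul_mul] }
  have hjinj : Function.Injective j := by
    rw [injective_iff_map_eq_zero]
    intro w hw
    have h1 : (((twMk π φ 1 w : Tw π φ)) : A) = 1 := hw
    rw [QuotientGroup.eq_one_iff] at h1
    obtain ⟨h, he⟩ := h1
    have : w = ι ⟨1, h⟩ := he
    rw [this]
    exact hι1
  let jl : F →ₗ[ZMod 2] Additive A := j.toZModLinearMap 2
  obtain ⟨r, hr⟩ := LinearMap.exists_leftInverse_of_injective jl (by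
    rw [LinearMap.ker_eq_bot]
    exact hjinj)
  have hrj : ∀ w : F, r (Additive.ofMul (j0 w)) = w := by
    intro w
    have := congrArg (fun g => g w) hr
    exact this
  have hrmul : ∀ a b : A, r (Additive.ofMul (a * b)) = r (Additive.ofMul a) + r (Additive.ofMul b) := by
    intro a b
    rw [ofMul_mul, map_add]
  -- the section
  let ζ : G → F := fun p => r (Additive.ofMul (((twMk π φ p 0 : Tw π φ)) : A))
  have hneg : ∀ x y : F, x + y = 0 → x = y := by
    intro x y h
    have h2 := hF2 y
    exact add_right_cancel (h.trans h2.symm)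
  have hζmul : ∀ p p', ζ (p * p') = ζ p + ζ p' + φ (pa π p) * pa π p' := by
    intro p p'
    set f := φ (pa π p) * pa π p' with hf
    have h1 : (((twMk π φ p 0 : Tw π φ)) : A) * (((twMk π φ p' 0 : Tw π φ)) : A) =
        (((twMk π φ (p * p') 0 : Tw π φ)) : A) * j0 f := by
      show (((twMk π φ p 0 * twMk π φ p' 0 : Tw π φ)) : A) = ((twMk π φ (p * p') 0 * twMk π φ 1 f : Tw π φ) : A)
      rw [tw_mul, tw_mul, mul_one, pa_one, mul_zero]
      simp only [zero_add, add_zero, hf]
    have h2 := congrArg (fun a => r (Additive.ofMul a)) h1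
    simp only [hrmul, hrj] at h2
    -- in characteristic two
    have h3 : ζ p + ζ p' = ζ (p * p') + f := h2
    have h4 : ζ (p * p') + (ζ p + ζ p' + f) = 0 := by
      rw [h3]
      calc ζ (p * p') + (ζ (p * p') + f + f) = (ζ (p * p') + ζ (p * p')) + (f + f) := by ring
        _ = 0 := by rw [hF2, hF2, add_zero]
    exact hneg _ _ h4
  have hζO : ∀ (z : G) (hz : z ∈ O), ζ z = ι ⟨z, hz⟩ := by
    intro z hz
    have h0 : pa π z = 0 := (hO z).mpr hz
    have h1 : (((twMk π φ z 0 : Tw π φ)) : A) * j0 (ι ⟨z, hz⟩) = 1 := by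
      show ((twMk π φ z 0 * twMk π φ 1 (ι ⟨z, hz⟩) : Tw π φ) : A) = 1
      rw [tw_mul, mul_one, pa_one, mul_zero, add_zero, zero_add]
      exact (QuotientGroup.eq_one_iff _).mpr (hΔmem z hz)
    have h2 := congrArg (fun a => r (Additive.ofMul a)) h1
    simp only [hrmul, hrj] at h2
    have h3 : r (Additive.ofMul (1 : A)) = 0 := by
      rw [ofMul_one, map_zero]
    rw [h3] at h2
    exact hneg _ _ h2
  -- the homomorphism into `GL₃`
  let Φ : G →* GL (Fin 3) F :=
    { toFun := fun p => matU φ (pa π p) (ζ p)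
      map_one' := by
        apply Units.ext
        show matM φ (pa π 1) (ζ 1) = 1
        have h1 : ζ 1 = 0 := by
          rw [hζO 1 (one_mem O)]
          exact hι1
        rw [pa_one, h1, matM_zero]
      map_mul' := fun p p' => by
        apply Units.ext
        show matM φ (pa π (p * p')) (ζ (p * p')) = matM φ (pa π p) (ζ p) * matM φ (pa π p') (ζ p')
        rw [matM_mul, pa_mul, hζmul] }
  have hpair : ∀ (x y x' y' : F), matM φ x y = matM φ x' y' → x = x' ∧ y = y' := by
    intro x y x' y' h
    have h1 := congrFun (congrFun h 1) 0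
    have h2 := congrFun (congrFun h 2) 0
    exact ⟨by simpa [matM] using h1, by simpa [matM] using h2⟩
  have hΦinj : Function.Injective Φ := by
    rw [injective_iff_map_eq_one]
    intro p hp
    have h1 : matM φ (pa π p) (ζ p) = matM φ 0 0 := by
      rw [matM_zero]
      exact congrArg Units.val hp
    obtain ⟨h2, h3⟩ := hpair _ _ _ _ h1
    have hpO : p ∈ O := (hO p).mp h2
    rw [hζO p hpO] at h3
    have := hιinj _ h3
    exact congrArg Subtype.val this
  -- bijectivity of the pair
  let pair : G → F × F := fun p => (pa π p, ζ p)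
  have hpairinj : Function.Injective pair := by
    intro p p' h
    apply hΦinj
    apply Units.ext
    show matM φ (pa π p) (ζ p) = matM φ (pa π p') (ζ p')
    have h1 : pa π p = pa π p' := congrArg Prod.fst h
    have h2 : ζ p = ζ p' := congrArg Prod.snd h
    rw [h1, h2]
  have hpairsurj : Function.Surjective pair := by
    have hc : Nat.card G = Nat.card (F × F) := by
      rw [hcard, Nat.card_prod, Nat.card_eq_fintype_card, pow_two]
    exact ((Nat.bijective_iff_injective_and_card pair).mpr ⟨hpairinj, hc⟩).2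
  have hrange : Φ.range = Cfsg.suzukiTypeA F (φ : F →+* F) := by
    apply le_antisymm
    · rintro _ ⟨p, rfl⟩
      apply Subgroup.subset_closure
      exact ⟨pa π p, ζ p, rfl⟩
    · apply (Subgroup.closure_le _).mpr
      rintro g ⟨x, y, hg⟩
      obtain ⟨p, hp⟩ := hpairsurj (x, y)
      have h1 : pa π p = x := congrArg Prod.fst hp
      have h2 : ζ p = y := congrArg Prod.snd hp
      refine ⟨p, ?_⟩
      apply Units.ext
      show matM φ (pa π p) (ζ p) = (g : Matrix (Fin 3) (Fin 3) F)
      rw [hg, h1, h2]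
      rfl
  exact ⟨(MonoidHom.ofInjective hΦinj).trans (MulEquiv.subgroupCongr hrange)⟩

end Cfsg.Agent.Suz2
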