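import Mathlib

/-!
An automorphism `φ` of a finite field of characteristic two such that `u ↦ u φ(u)` is injective has odd order.
-/

set_option autoImplicit false
set_option linter.unusedSectionVars false
set_option linter.style.haveILetI false

namespace Cfsg.Agent.Suz2

lemma sum_range_two_mul' {A : Type*} [AddCommMonoid A] (a : ℕ → A) (m : ℕ) :
    ∑ i ∈ Finset.range (2 * m), a i = ∑ i ∈ Finset.range m, (a (2 * i) + a (2 * i + 1)) := by
  induction m with
  | zero => simp
  | succ m IH =>
    rw [show 2 * (m + 1) = 2 * m + 1 + 1 by ring, Finset.sum_range_succ, Finset.sum_range_succ, IH,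
      Finset.sum_range_succ, add_assoc]

theorem odd_orderOf_of_inj {F : Type*} [Field F] [Finite F] (hchar : ∀ x : F, x + x = 0) (φ : F ≃+* F)
    (hinj : ∀ u v : F, u * φ u = v * φ v → u = v) : Odd (orderOf φ) := by
  classical
  haveI := Fintype.ofFinite F
  by_contra hodd
  rw [Nat.not_odd_iff_even] at hodd
  haveI : Finite (F ≃+* F) := Finite.of_injective (fun f : F ≃+* F => (f : F → F)) (fun a b h => by
    ext x
    exact congrFun h x)
  have hpos : 0 < orderOf φ := orderOf_pos φ
  obtain ⟨m, hm⟩ := hodd
  have hm' : orderOf φ = 2 * m := by omega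
  -- step 1
  have hfix : ∀ x : F, φ (φ x) = x → φ x = x := by
    set E : Finset F := Finset.univ.filter (fun x => φ (φ x) = x) with hE
    set F₁ : Finset F := Finset.univ.filter (fun x => φ x = x) with hF₁
    have hsub : F₁ ⊆ E := by
      intro x hx
      rw [hF₁, Finset.mem_filter] at hx
      rw [hE, Finset.mem_filter]
      refine ⟨Finset.mem_univ _, ?_⟩
      rw [hx.2, hx.2]
    have hle : E.card ≤ F₁.card := by
      apply Finset.card_le_card_of_injOn (fun x => x * φ x)
      · intro x hx
        have hx' : φ (φ x) = x := by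
          have := Finset.mem_coe.mp hx
          rw [hE, Finset.mem_filter] at this
          exact this.2
        apply Finset.mem_coe.mpr
        rw [hF₁, Finset.mem_filter]
        refine ⟨Finset.mem_univ _, ?_⟩
        show φ (x * φ x) = x * φ x
        rw [map_mul, hx', mul_comm]
      · intro a _ b _ h
        exact hinj a b h
    have heq : F₁ = E := Finset.eq_of_subset_of_card_le hsub hle
    intro x hx
    have : x ∈ F₁ := by
      rw [heq, hE, Finset.mem_filter]
      exact ⟨Finset.mem_univ _, hx⟩
    rw [hF₁, Finset.mem_filter] at this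
    exact this.2
  -- step 2
  have hpow : φ ^ (2 * m) = 1 := by
    rw [← hm']
    exact pow_orderOf_eq_one φ
  have hsum : ∀ x : F, ∑ i ∈ Finset.range (orderOf φ), (φ ^ i) x = 0 := by
    intro x
    set y : F := ∑ i ∈ Finset.range m, (φ ^ (2 * i)) x with hy
    have h1 : φ (φ y) = y := by
      rw [hy, map_sum, map_sum]
      have e : ∀ i, φ (φ ((φ ^ (2 * i)) x)) = (φ ^ (2 * (i + 1))) x := by
        intro i
        rw [show 2 * (i + 1) = 2 * i + 1 + 1 by ring, pow_succ', pow_succ']
        rfl
      simp_rw [e]
      have h2 := Finset.sum_range_succ (fun i => (φ ^ (2 * i)) x) m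
      have h3 := Finset.sum_range_succ' (fun i => (φ ^ (2 * i)) x) m
      rw [h2] at h3
      simp only [hpow] at h3
      have h4 : (1 : F ≃+* F) x = x := rfl
      rw [mul_zero, pow_zero, h4] at h3
      exact (add_right_cancel h3).symm
    have h5 : φ y = y := hfix y h1
    rw [hm', sum_range_two_mul']
    rw [Finset.sum_add_distrib, ← hy]
    have h6 : ∑ i ∈ Finset.range m, (φ ^ (2 * i + 1)) x = φ y := by
      rw [hy, map_sum]
      apply Finset.sum_congr rfl
      intro i _
      rw [pow_succ']
      rfl
    rw [h6, h5, hchar]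
  -- Dedekind
  let f : Fin (orderOf φ) → (F →* F) := fun i => ((φ ^ (i : ℕ) : F ≃+* F) : F →+* F).toMonoidHom
  have hf : Function.Injective f := by
    intro i j hij
    apply Fin.ext
    apply pow_injOn_Iio_orderOf (x := φ) (by simp) (by simp)
    ext x
    exact congrArg (fun g : F →* F => g x) hij
  have hli := (linearIndependent_monoidHom F F).comp f hf
  rw [Fintype.linearIndependent_iff] at hli
  have h0 := hli (fun _ => 1) (by
    funext x
    simp only [Function.comp, one_smul, Finset.sum_apply, Pi.zero_apply]
    rw [Finset.sum_fin_eq_sum_range]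
    rw [← hsum x]
    apply Finset.sum_congr rfl
    intro i hi
    rw [dif_pos (Finset.mem_range.mp hi)]
    rfl) ⟨0, hpos⟩
  exact one_ne_zero h0

end Cfsg.Agent.Suz2
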