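import Mathlib
import Cfsg.Agent.Lib.Suz2.Field

/-!
An equivariant quadratic map between two spaces on which a commuting group acts regularly on the non-zero elements is
`u ↦ u φ(u)` in suitable coordinates, for a field automorphism `φ`.
-/

set_option autoImplicit false
set_option linter.unusedSectionVars false
set_option linter.style.haveILetI false

namespace Cfsg.Agent.Suz2

universe u v w

theorem quad_model {V Z : Type u} {K : Type v} [AddCommGroup V] [AddCommGroup Z] [Finite V] [Finite Z] [Group K]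
    {TV : K → V →+ V} {TZ : K → Z →+ Z} (hV : RegAct TV) (hZ : RegAct TZ)
    (F : Type w) [Field F] [Fintype F] [CharP F 2]
    (hcV : Nat.card V = Fintype.card F) (hcZ : Nat.card Z = Fintype.card F)
    (s : V → Z) (hs : ∀ k v, s (TV k v) = TZ k (s v)) (hs0 : s 0 = 0)
    (B : V → V → Z) (hB : ∀ u v, s (u + v) = s u + s v + B u v)
    (hBadd : ∀ u u' v, B (u + u') v = B u v + B u' v) (hna : ∃ u v, B u v ≠ 0) :
    ∃ (φ : F ≃+* F) (ν : V ≃+ F) (ι : Z ≃+ F), ∀ v, ι (s v) = ν v * φ (ν v) := by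
  classical
  have h1 : 1 < Fintype.card F := Fintype.one_lt_card
  haveI : Nontrivial V := by
    apply (Finite.one_lt_card_iff_nontrivial).mp
    rw [hcV]
    exact h1
  haveI : Nontrivial Z := by
    apply (Finite.one_lt_card_iff_nontrivial).mp
    rw [hcZ]
    exact h1
  obtain ⟨x₀, hx₀⟩ := exists_ne (0 : V)
  obtain ⟨z₀, hz₀⟩ := exists_ne (0 : Z)
  obtain ⟨ν₀, χV, hν₀, hχV⟩ := field_model hV x₀ hx₀ F hcV
  obtain ⟨ι₀, χZ, hι₀, -⟩ := field_model hZ z₀ hz₀ F hcZ
  set s' : F → F := fun u => ι₀ (s (ν₀.symm u)) with hs'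
  have hs'0 : s' 0 = 0 := by
    simp [hs', hs0]
  have hsymm : ∀ k u, ν₀.symm (χV k * u) = TV k (ν₀.symm u) := by
    intro k u
    apply ν₀.injective
    rw [ν₀.apply_symm_apply, hν₀, ν₀.apply_symm_apply]
  have heq : ∀ k u, s' (χV k * u) = χZ k * s' u := by
    intro k u
    simp only [hs']
    rw [hsymm, hs, hι₀]
  obtain ⟨e, he1, he2, hform⟩ := power_form χV χZ hχV s' hs'0 heq
  set c := s' 1 with hc
  set B' : F → F → F := fun u v => ι₀ (B (ν₀.symm u) (ν₀.symm v)) with hB'
  have hs'B : ∀ u v, s' (u + v) = s' u + s' v + B' u v := by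
    intro u v
    simp only [hs', hB']
    rw [map_add, hB, map_add, map_add]
  have hB'add : ∀ u u' v, B' (u + u') v = B' u v + B' u' v := by
    intro u u' v
    simp only [hB']
    rw [map_add, hBadd, map_add]
  have hB'ne : ∃ u v, B' u v ≠ 0 := by
    obtain ⟨u, v, huv⟩ := hna
    refine ⟨ν₀ u, ν₀ v, ?_⟩
    simp only [hB']
    rw [ν₀.symm_apply_apply, ν₀.symm_apply_apply]
    intro h
    exact huv (ι₀.injective (h.trans (map_zero ι₀).symm))
  have h2 : (2 : F) = 0 := CharTwo.two_eq_zero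
  have hcne : c ≠ 0 := by
    intro hc0
    obtain ⟨u, v, huv⟩ := hB'ne
    apply huv
    have := hs'B u v
    rw [hform, hform, hform, hc0] at this
    simpa using this.symm
  have hadd : ∀ u v : F, (u + v + 1) ^ e + (u + v) ^ e + 1 = (u + 1) ^ e + u ^ e + 1 + ((v + 1) ^ e + v ^ e + 1) := by
    intro u v
    apply mul_left_cancel₀ hcne
    have hA : ∀ w : F, c * ((w + 1) ^ e + w ^ e + 1) = B' w 1 := by
      intro w
      have := hs'B w 1
      rw [hform (w + 1), hform w] at this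
      have h3 : s' 1 = c := rfl
      rw [h3] at this
      rw [show c * ((w + 1) ^ e + w ^ e + 1) = c * (w + 1) ^ e + c * w ^ e + c by ring, this]
      linear_combination (c * w ^ e + c) * h2
    rw [hA (u + v), mul_add, hA u, hA v, hB'add]
  haveI : Fact (Nat.Prime 2) := ⟨Nat.prime_two⟩
  have hfrob : ∀ (i : ℕ) (a b : F), (a + b) ^ 2 ^ i = a ^ 2 ^ i + b ^ 2 ^ i := fun i a b => add_pow_char_pow a b 2 i
  rcases exponent_bits e he1 he2 hadd with ⟨i, hi⟩ | ⟨i, j, hij, hi⟩
  · exfalso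
    obtain ⟨u, v, huv⟩ := hB'ne
    apply huv
    have := hs'B u v
    rw [hform (u + v), hform u, hform v, hi, hfrob, mul_add] at this
    exact (left_eq_add.mp this)
  -- the coordinates
  obtain ⟨d, rfl⟩ : ∃ d, j = i + d := ⟨j - i, by omega⟩
  let σ : F ≃+* F := iterateFrobeniusEquiv F 2 i
  let φ : F ≃+* F := iterateFrobeniusEquiv F 2 d
  have hσ : ∀ w, σ w = w ^ 2 ^ i := fun w => iterateFrobeniusEquiv_def F 2 i w
  have hφ : ∀ w, φ w = w ^ 2 ^ d := fun w => iterateFrobeniusEquiv_def F 2 d w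
  let μ : F ≃+ F :=
    { toFun := fun x => c⁻¹ * x
      invFun := fun x => c * x
      left_inv := fun x => by
        show c * (c⁻¹ * x) = x
        rw [← mul_assoc, mul_inv_cancel₀ hcne, one_mul]
      right_inv := fun x => by
        show c⁻¹ * (c * x) = x
        rw [← mul_assoc, inv_mul_cancel₀ hcne, one_mul]
      map_add' := fun a b => mul_add _ a b }
  refine ⟨φ, ν₀.trans σ.toAddEquiv, ι₀.trans μ, ?_⟩
  intro v
  show c⁻¹ * ι₀ (s v) = σ (ν₀ v) * φ (σ (ν₀ v))
  have h3 : ι₀ (s v) = s' (ν₀ v) := by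
    simp only [hs']
    rw [ν₀.symm_apply_apply]
  rw [h3, hform, ← mul_assoc, inv_mul_cancel₀ hcne, one_mul, hi, hσ, hφ, ← pow_mul, pow_add, pow_add 2 i d]

end Cfsg.Agent.Suz2
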