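import Mathlib
import Cfsg.Agent.Lib.Suz2.Elem
import Cfsg.Agent.Lib.Suz2.Quad
import Cfsg.Agent.Lib.Suz2.Order
import Cfsg.Agent.Lib.Suz2.Iso

/-!
Suzuki 2-groups with `|P| = |Z(P)|²` are of type A.
-/

set_option autoImplicit false
set_option linter.unusedSectionVars false
set_option linter.style.haveILetI false

namespace Cfsg.Agent.Suz2

universe u v

variable {G : Type u} [Group G] {K : Type v} [Group K] {φ : K →* MulAut G}

lemma sq_eq_of_mk_eq (hS : Sz2 φ) {x y : G} (h : (x : G ⧸ Om hS) = y) : x * x = y * y := by
  rw [QuotientGroup.eq] at h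
  have hc : x⁻¹ * y ∈ Subgroup.center G := Om_le_center hS h
  have h2 : (x⁻¹ * y) * (x⁻¹ * y) = 1 := h
  have e : y = x * (x⁻¹ * y) := by group
  have hcomm := Subgroup.mem_center_iff.mp hc x
  rw [e]
  generalize x⁻¹ * y = c at *
  calc x * x = x * x * (c * c) := by rw [h2, mul_one]
    _ = x * (x * c) * c := by group
    _ = x * (c * x) * c := by rw [hcomm]
    _ = _ := by group

theorem typeA_of_elem (hS : Sz2 φ) (hna : ∃ a b : G, a * b ≠ b * a) (hcard : Nat.card G = Nat.card (Om hS) ^ 2)
    (F : Type) [Field F] [Fintype F] [CharP F 2] (hF : Fintype.card F = Nat.card (Om hS)) :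
    ∃ ψ : F ≃+* F, ψ ≠ RingEquiv.refl F ∧ Odd (orderOf ψ) ∧ Nonempty (G ≃* Cfsg.suzukiTypeA F (ψ : F →+* F)) := by
  classical
  haveI := hS.fin
  haveI := finite_K hS
  obtain ⟨hsq, hcc⟩ := elem_of_card hS hna hcard
  let O := Om hS
  let Q := G ⧸ O
  have hQ2 : ∀ q : Q, q * q = 1 := by
    intro q
    induction q using QuotientGroup.induction_on with
    | H x =>
      rw [← QuotientGroup.mk_mul, QuotientGroup.eq_one_iff]
      exact hsq x
  letI iQ : CommGroup Q :=
    { (inferInstance : Group Q) with
      mul_comm := fun a b => by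
        calc a * b = a * b * (b * a * (b * a)) := by rw [hQ2 (b * a), mul_one]
          _ = a * (b * b) * a * (b * a) := by group
          _ = b * a := by rw [hQ2 b, mul_one, hQ2 a, one_mul] }
  letI iO : CommGroup O :=
    { (inferInstance : Group O) with
      mul_comm := fun a b => by
        apply Subtype.ext
        exact (Subgroup.mem_center_iff.mp (Om_le_center hS a.2) (b : G)).symm }
  -- counting
  have hcQ : Nat.card Q = Nat.card O := by
    have h1 := Subgroup.card_eq_card_quotient_mul_card_subgroup O
    rw [hcard, pow_two] at h1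
    exact (Nat.eq_of_mul_eq_mul_right Nat.card_pos h1).symm
  have hcK : Nat.card K + 1 = Nat.card O := card_K hS
  -- the actions
  let TV : K → Additive Q →+ Additive Q := fun k => (phiQ' hS k).toMonoidHom.toAdditive
  let φO : K → O →* O := fun k =>
    { toFun := fun z => ⟨φ k z, phi_mem_Om hS k z.2⟩
      map_one' := Subtype.ext (map_one (φ k))
      map_mul' := fun a b => Subtype.ext (map_mul (φ k) (a : G) (b : G)) }
  let TZ : K → Additive O →+ Additive O := fun k => (φO k).toAdditive
  have hTV : ∀ (k : K) (x : G), TV k (Additive.ofMul (x : Q)) = Additive.ofMul ((φ k x : G) : Q) := fun _ _ => rfl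
  have hTZ : ∀ (k : K) (z : O), (((TZ k (Additive.ofMul z)).toMul : O) : G) = φ k (z : G) := fun _ _ => rfl
  have hzero : ∀ a : Additive O, a = 0 ↔ ((a.toMul : O) : G) = 1 := by
    intro a
    constructor
    · rintro rfl
      rfl
    · intro h
      exact Additive.toMul.injective (Subtype.ext h)
  have hRZ : RegAct TZ :=
    { mul := fun a b x => by
        apply Additive.toMul.injective
        apply Subtype.ext
        exact phi_mul_apply a b ((x.toMul : O) : G)
      one := fun x => by
        apply Additive.toMul.injective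
        apply Subtype.ext
        exact phi_one_apply ((x.toMul : O) : G)
      comm := hS.comm
      two := fun x => by
        apply (hzero _).mpr
        exact x.toMul.2
      reg := fun x y hx hy => by
        have hx' : ((x.toMul : O) : G) ≠ 1 := fun h => hx ((hzero x).mpr h)
        have hy' : ((y.toMul : O) : G) ≠ 1 := fun h => hy ((hzero y).mpr h)
        obtain ⟨k, hk, hu⟩ := hS.reg _ _ hx' x.toMul.2 hy' y.toMul.2
        refine ⟨k, ?_, ?_⟩
        · apply Additive.toMul.injective
          apply Subtype.ext
          exact hk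
        · intro l hl
          apply hu
          have := congrArg (fun a : Additive O => ((a.toMul : O) : G)) hl
          exact this }
  -- the squaring map
  let s : Additive Q → Additive O := fun q =>
    Additive.ofMul ⟨(q.toMul).out * (q.toMul).out, hsq _⟩
  have hsmk : ∀ x : G, s (Additive.ofMul (x : Q)) = Additive.ofMul (⟨x * x, hsq x⟩ : O) := by
    intro x
    apply Additive.toMul.injective
    apply Subtype.ext
    show ((x : Q)).out * ((x : Q)).out = x * x
    exact sq_eq_of_mk_eq hS (QuotientGroup.out_eq' (x : Q))
  have hrep : ∀ q : Additive Q, ∃ x : G, q = Additive.ofMul (x : Q) := by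
    intro q
    exact ⟨(q.toMul).out, by
      apply Additive.toMul.injective
      exact (QuotientGroup.out_eq' q.toMul).symm⟩
  have hs : ∀ k v, s (TV k v) = TZ k (s v) := by
    intro k v
    obtain ⟨x, rfl⟩ := hrep v
    rw [hTV, hsmk, hsmk]
    apply Additive.toMul.injective
    apply Subtype.ext
    exact (map_mul (φ k) x x).symm
  have hs0 : s 0 = 0 := by
    have h := hsmk 1
    apply Additive.toMul.injective
    apply Subtype.ext
    have h' := congrArg (fun a : Additive O => ((a.toMul : O) : G)) h
    have e : (Additive.ofMul ((1 : G) : Q)) = 0 := rfl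
    rw [e] at h'
    have h'' : ((s 0).toMul : G) = 1 * 1 := h'
    rw [h'', mul_one]
    rfl
  have hs1 : ∀ v, s v = 0 → v = 0 := by
    intro v hv
    obtain ⟨x, rfl⟩ := hrep v
    rw [hsmk] at hv
    have h1 : x * x = 1 := (hzero _).mp hv
    apply Additive.toMul.injective
    exact (QuotientGroup.eq_one_iff x).mpr h1
  have hfree : ∀ (k l : K) (x : Additive Q), x ≠ 0 → TV k x = TV l x → k = l := by
    intro k l x hx he
    have hsx : s x ≠ 0 := fun h => hx (hs1 x h)
    have h1 : TZ k (s x) = TZ l (s x) := by
      rw [← hs, ← hs, he]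
    obtain ⟨m, -, hm⟩ := hRZ.reg (s x) (TZ k (s x)) hsx (by
      intro h0
      have := hRZ.mul k⁻¹ k (s x)
      rw [inv_mul_cancel, hRZ.one, h0, map_zero] at this
      exact hsx this)
    rw [hm k rfl, hm l h1.symm]
  have hT0 : ∀ (k : K) (x : Additive Q), x ≠ 0 → TV k x ≠ 0 := by
    intro k x hx h
    obtain ⟨y, rfl⟩ := hrep x
    rw [hTV] at h
    have h1 : ((φ k y : G) : Q) = 1 := h
    rw [QuotientGroup.eq_one_iff] at h1
    apply hx
    apply Additive.toMul.injective
    apply (QuotientGroup.eq_one_iff y).mpr
    have h2 : φ k y * φ k y = 1 := h1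
    rw [← map_mul] at h2
    have h3 : y * y = 1 := (φ k).injective (h2.trans (map_one _).symm)
    exact h3
  have hRV : RegAct TV :=
    { mul := fun a b x => by
        obtain ⟨y, rfl⟩ := hrep x
        rw [hTV, hTV, hTV, phi_mul_apply]
      one := fun x => by
        obtain ⟨y, rfl⟩ := hrep x
        rw [hTV, phi_one_apply]
      comm := hS.comm
      two := fun x => hQ2 x.toMul
      reg := fun x y hx hy => by
        let f : Option K → Additive Q := fun o =>
          match o with
          | none => 0
          | some k => TV k x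
        have hfinj : Function.Injective f := by
          rintro (_ | a) (_ | b) he
          · rfl
          · exact absurd he.symm (hT0 b x hx)
          · exact absurd he (hT0 a x hx)
          · have := hfree a b x hx he
            rw [this]
        have hfc : Nat.card (Option K) = Nat.card (Additive Q) := by
          rw [Finite.card_option, hcK]
          exact hcQ.symm
        have hfb := (Nat.bijective_iff_injective_and_card f).mpr ⟨hfinj, hfc⟩
        obtain ⟨o, ho⟩ := hfb.2 y
        rcases o with _ | k
        · exact absurd ho.symm hy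
        · refine ⟨k, ho, ?_⟩
          intro l hl
          exact hfree l k x hx (hl.trans ho.symm) }
  -- the bilinear form
  let B : Additive Q → Additive Q → Additive O := fun u v => s (u + v) + s u + s v
  have h2O : ∀ a : Additive O, a + a = 0 := hRZ.two
  have hB : ∀ u v, s (u + v) = s u + s v + B u v := by
    intro u v
    show s (u + v) = s u + s v + (s (u + v) + s u + s v)
    have h1 := h2O (s u)
    have h2 := h2O (s v)
    calc s (u + v) = s (u + v) + (s u + s u) + (s v + s v) := by rw [h1, h2, add_zero, add_zero]
      _ = _ := by abel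
  have hcG : ∀ x y : G, BB x y ∈ Subgroup.center G := fun x y => Om_le_center hS (hcc x y)
  have hBform : ∀ x y : G, B (Additive.ofMul (x : Q)) (Additive.ofMul (y : Q)) =
      Additive.ofMul (⟨BB y x, hcc y x⟩ : O) := by
    intro x y
    show s (Additive.ofMul (x : Q) + Additive.ofMul (y : Q)) + s (Additive.ofMul (x : Q)) +
      s (Additive.ofMul (y : Q)) = _
    have e : Additive.ofMul (x : Q) + Additive.ofMul (y : Q) = Additive.ofMul ((x * y : G) : Q) := rfl
    rw [e, hsmk, hsmk, hsmk]
    apply Additive.toMul.injective
    apply Subtype.ext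
    show (x * y) * (x * y) * (x * x) * (y * y) = BB y x
    rw [sq_mul_of_class2 hcG]
    have hxx : (x * x) * (x * x) = 1 := hsq x
    have hyy : (y * y) * (y * y) = 1 := hsq y
    have hcx := Subgroup.mem_center_iff.mp (Om_le_center hS (hsq x))
    have hcy := Subgroup.mem_center_iff.mp (Om_le_center hS (hsq y))
    have hcb := Subgroup.mem_center_iff.mp (hcG y x)
    calc x * x * (y * y) * BB y x * (x * x) * (y * y) = x * x * (y * y) * (BB y x * (x * x)) * (y * y) := by group
      _ = x * x * (y * y) * ((x * x) * BB y x) * (y * y) := by rw [hcb (x * x)]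
      _ = x * x * ((y * y) * (x * x)) * BB y x * (y * y) := by group
      _ = x * x * ((x * x) * (y * y)) * BB y x * (y * y) := by rw [← hcy (x * x)]
      _ = ((x * x) * (x * x)) * ((y * y) * (BB y x * (y * y))) := by group
      _ = ((x * x) * (x * x)) * ((y * y) * ((y * y) * BB y x)) := by rw [hcb (y * y)]
      _ = ((x * x) * (x * x)) * (((y * y) * (y * y)) * BB y x) := by group
      _ = BB y x := by rw [hxx, hyy, one_mul, one_mul]
  have hBadd : ∀ u u' v, B (u + u') v = B u v + B u' v := by
    intro u u' v
    obtain ⟨x, rfl⟩ := hrep u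
    obtain ⟨x', rfl⟩ := hrep u'
    obtain ⟨y, rfl⟩ := hrep v
    have e : Additive.ofMul (x : Q) + Additive.ofMul (x' : Q) = Additive.ofMul ((x * x' : G) : Q) := rfl
    rw [e, hBform, hBform, hBform]
    apply Additive.toMul.injective
    apply Subtype.ext
    show BB y (x * x') = BB y x * BB y x'
    exact BB_mul_right hcG y x x'
  obtain ⟨a, b, hab⟩ := hna
  have hBne : ∃ u v, B u v ≠ 0 := by
    refine ⟨Additive.ofMul (b : Q), Additive.ofMul (a : Q), ?_⟩
    rw [hBform]
    intro h
    have h1 := (hzero _).mp h
    exact hab (BB_eq_one.mp h1)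
  -- the model
  have hcV' : Nat.card (Additive Q) = Fintype.card F := by
    rw [hF]
    exact hcQ
  have hcZ' : Nat.card (Additive O) = Fintype.card F := by
    rw [hF]
    rfl
  obtain ⟨ψ, ν, ι, hψ⟩ := quad_model hRV hRZ F hcV' hcZ' s hs hs0 B hB hBadd hBne
  have hF2 : ∀ x : F, x + x = 0 := CharTwo.add_self_eq_zero
  -- injectivity
  have hsinj : ∀ u v, s u = s v → u = v := by
    intro u v h
    by_cases hu : u = 0
    · rw [hu, hs0] at h
      rw [hu]
      exact (hs1 v h.symm).symm
    by_cases hv : v = 0
    · rw [hv, hs0] at h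
      rw [hv]
      exact hs1 u h
    obtain ⟨k, hk, -⟩ := hRV.reg u v hu hv
    have h1 : TZ k (s u) = TZ 1 (s u) := by
      rw [← hs, hk, hRZ.one, h]
    have hsu : s u ≠ 0 := fun h0 => hu (hs1 u h0)
    obtain ⟨m, -, hm⟩ := hRZ.reg (s u) (s u) hsu hsu
    have hk1 : k = 1 := by
      rw [hm k (h1.trans (hRZ.one _)), hm 1 (hRZ.one _)]
    rw [← hk, hk1, hRV.one]
  refine ⟨ψ, ?_, ?_, ?_⟩
  · -- `ψ` is not trivial
    intro hψ1
    obtain ⟨u, v, huv⟩ := hBne
    apply huv
    have h1 : ι (s (u + v)) = ι (s u) + ι (s v) := by
      rw [hψ, hψ, hψ, hψ1]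
      simp only [RingEquiv.refl_apply, map_add]
      linear_combination (ν u * ν v) * (CharTwo.two_eq_zero : (2 : F) = 0)
    have h2 : s (u + v) = s u + s v := by
      apply ι.injective
      rw [h1, map_add]
    rw [hB u v] at h2
    exact add_eq_left.mp h2
  · apply odd_orderOf_of_inj hF2
    intro u v h
    have h1 := hψ (ν.symm u)
    have h2 := hψ (ν.symm v)
    rw [ν.apply_symm_apply] at h1 h2
    rw [h, ← h2] at h1
    have h3 := hsinj _ _ (ι.injective h1)
    have h4 := congrArg ν h3
    rwa [ν.apply_symm_apply, ν.apply_symm_apply] at h4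
  · -- the isomorphism
    let π : G →* Multiplicative F :=
      { toFun := fun p => Multiplicative.ofAdd (ν (Additive.ofMul (p : Q)))
        map_one' := by
          have e : Additive.ofMul ((1 : G) : Q) = 0 := rfl
          rw [e, map_zero]
          rfl
        map_mul' := fun p p' => by
          have e : Additive.ofMul ((p * p' : G) : Q) = Additive.ofMul (p : Q) + Additive.ofMul (p' : Q) := rfl
          rw [e, map_add]
          rfl }
    have hpa : ∀ p, pa π p = ν (Additive.ofMul (p : Q)) := fun _ => rfl
    refine iso_of_coords F ψ hF2 π O ?_ (Om_le_center hS) (fun z => ι (Additive.ofMul z)) ?_ ?_ ?_ ?_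
    · intro p
      rw [hpa]
      constructor
      · intro h
        have h1 : Additive.ofMul (p : Q) = 0 := ν.injective (h.trans (map_zero ν).symm)
        exact (QuotientGroup.eq_one_iff p).mp h1
      · intro h
        have h1 : Additive.ofMul (p : Q) = 0 := (QuotientGroup.eq_one_iff p).mpr h
        rw [h1, map_zero]
    · intro a b
      show ι (Additive.ofMul a + Additive.ofMul b) = _
      rw [map_add]
    · intro a h
      have h1 : Additive.ofMul a = 0 := ι.injective (h.trans (map_zero ι).symm)
      exact h1
    · intro p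
      refine ⟨hsq p, ?_⟩
      rw [hpa, ← hψ, hsmk]
    · rw [hcard, hF]

end Cfsg.Agent.Suz2
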