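import Mathlib
import Cfsg.Agent.Lib.Suz2.MA3
import Cfsg.Agent.Lib.Suz2.Gauss
import Cfsg.Agent.Lib.Suz2.TypeA

/-!
Suzuki 2-groups: the order is `q²` or `q³` and the exponent is four.
-/

set_option autoImplicit false
set_option linter.unusedSectionVars false
set_option linter.style.haveILetI false

namespace Cfsg.Agent.Suz2

universe u v

variable {G : Type u} [Group G] {K : Type v} [Group K] {φ : K →* MulAut G}

theorem card_general (hS : Sz2 φ) (hna : ∃ a b : G, a * b ≠ b * a) :
    Nat.card G = Nat.card (Om hS) ^ 2 ∨ Nat.card G = Nat.card (Om hS) ^ 3 := by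
  classical
  haveI := hS.fin
  haveI : Fact (Nat.Prime 2) := ⟨Nat.prime_two⟩
  obtain ⟨hsq, hcc⟩ := elem_general hS hna
  let O := Om hS
  let Q := G ⧸ O
  have hQ2 : ∀ q : Q, q * q = 1 := by
    intro q
    induction q using QuotientGroup.induction_on with
    | H x =>
      rw [← QuotientGroup.mk_mul, QuotientGroup.eq_one_iff]
      exact hsq x
  letI iQ : CommGroup Q :=
    { (inferInstance : Group Q) with
      mul_comm := fun a b => by
        calc a * b = a * b * (b * a * (b * a)) := by rw [hQ2 (b * a), mul_one]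
          _ = a * (b * b) * a * (b * a) := by group
          _ = b * a := by rw [hQ2 b, mul_one, hQ2 a, one_mul] }
  letI iO : CommGroup O :=
    { (inferInstance : Group O) with
      mul_comm := fun a b => by
        apply Subtype.ext
        exact (Subgroup.mem_center_iff.mp (Om_le_center hS a.2) (b : G)).symm }
  let TV : K → Additive Q →+ Additive Q := fun k => (phiQ' hS k).toMonoidHom.toAdditive
  have hTV : ∀ (k : K) (x : G), TV k (Additive.ofMul (x : Q)) = Additive.ofMul ((φ k x : G) : Q) := fun _ _ => rfl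
  have hzero : ∀ a : Additive O, a = 0 ↔ ((a.toMul : O) : G) = 1 := by
    intro a
    constructor
    · rintro rfl
      rfl
    · intro h
      exact Additive.toMul.injective (Subtype.ext h)
  -- the squaring map
  let s : Additive Q → Additive O := fun q =>
    Additive.ofMul ⟨(q.toMul).out * (q.toMul).out, hsq _⟩
  have hsmk : ∀ x : G, s (Additive.ofMul (x : Q)) = Additive.ofMul (⟨x * x, hsq x⟩ : O) := by
    intro x
    apply Additive.toMul.injective
    apply Subtype.ext
    show ((x : Q)).out * ((x : Q)).out = x * x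
    exact sq_eq_of_mk_eq hS (QuotientGroup.out_eq' (x : Q))
  have hrep : ∀ q : Additive Q, ∃ x : G, q = Additive.ofMul (x : Q) := by
    intro q
    exact ⟨(q.toMul).out, by
      apply Additive.toMul.injective
      exact (QuotientGroup.out_eq' q.toMul).symm⟩
  have hs0 : s 0 = 0 := by
    have h := hsmk 1
    apply Additive.toMul.injective
    apply Subtype.ext
    have h' := congrArg (fun a : Additive O => ((a.toMul : O) : G)) h
    have e : (Additive.ofMul ((1 : G) : Q)) = 0 := rfl
    rw [e] at h'
    have h'' : ((s 0).toMul : G) = 1 * 1 := h'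
    rw [h'', mul_one]
    rfl
  have hs1 : ∀ v, s v = 0 → v = 0 := by
    intro v hv
    obtain ⟨x, rfl⟩ := hrep v
    rw [hsmk] at hv
    have h1 : x * x = 1 := (hzero _).mp hv
    apply Additive.toMul.injective
    exact (QuotientGroup.eq_one_iff x).mpr h1
  have hV2 : ∀ v : Additive Q, v + v = 0 := fun v => hQ2 v.toMul
  have hZ2 : ∀ z : Additive O, z + z = 0 := by
    intro z
    apply (hzero _).mpr
    exact z.toMul.2
  -- the bilinear form
  let B : Additive Q → Additive Q → Additive O := fun u v => s (u + v) + s u + s v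
  have hB : ∀ u v, s (u + v) = s u + s v + B u v := by
    intro u v
    show s (u + v) = s u + s v + (s (u + v) + s u + s v)
    have h1 := hZ2 (s u)
    have h2 := hZ2 (s v)
    calc s (u + v) = s (u + v) + (s u + s u) + (s v + s v) := by rw [h1, h2, add_zero, add_zero]
      _ = _ := by abel
  have hcG : ∀ x y : G, BB x y ∈ Subgroup.center G := fun x y => Om_le_center hS (hcc x y)
  have hBform : ∀ x y : G, B (Additive.ofMul (x : Q)) (Additive.ofMul (y : Q)) =
      Additive.ofMul (⟨BB y x, hcc y x⟩ : O) := by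
    intro x y
    show s (Additive.ofMul (x : Q) + Additive.ofMul (y : Q)) + s (Additive.ofMul (x : Q)) +
      s (Additive.ofMul (y : Q)) = _
    have e : Additive.ofMul (x : Q) + Additive.ofMul (y : Q) = Additive.ofMul ((x * y : G) : Q) := rfl
    rw [e, hsmk, hsmk, hsmk]
    apply Additive.toMul.injective
    apply Subtype.ext
    show (x * y) * (x * y) * (x * x) * (y * y) = BB y x
    rw [sq_mul_of_class2 hcG]
    have hxx : (x * x) * (x * x) = 1 := hsq x
    have hyy : (y * y) * (y * y) = 1 := hsq y
    have hcx := Subgroup.mem_center_iff.mp (Om_le_center hS (hsq x))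
    have hcy := Subgroup.mem_center_iff.mp (Om_le_center hS (hsq y))
    have hcb := Subgroup.mem_center_iff.mp (hcG y x)
    calc x * x * (y * y) * BB y x * (x * x) * (y * y) = x * x * (y * y) * (BB y x * (x * x)) * (y * y) := by group
      _ = x * x * (y * y) * ((x * x) * BB y x) * (y * y) := by rw [hcb (x * x)]
      _ = x * x * ((y * y) * (x * x)) * BB y x * (y * y) := by group
      _ = x * x * ((x * x) * (y * y)) * BB y x * (y * y) := by rw [← hcy (x * x)]
      _ = ((x * x) * (x * x)) * ((y * y) * (BB y x * (y * y))) := by group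
      _ = ((x * x) * (x * x)) * ((y * y) * ((y * y) * BB y x)) := by rw [hcb (y * y)]
      _ = ((x * x) * (x * x)) * (((y * y) * (y * y)) * BB y x) := by group
      _ = BB y x := by rw [hxx, hyy, one_mul, one_mul]
  have hBadd : ∀ u u' v, B (u + u') v = B u v + B u' v := by
    intro u u' v
    obtain ⟨x, rfl⟩ := hrep u
    obtain ⟨x', rfl⟩ := hrep u'
    obtain ⟨y, rfl⟩ := hrep v
    have e : Additive.ofMul (x : Q) + Additive.ofMul (x' : Q) = Additive.ofMul ((x * x' : G) : Q) := rfl
    rw [e, hBform, hBform, hBform]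
    apply Additive.toMul.injective
    apply Subtype.ext
    show BB y (x * x') = BB y x * BB y x'
    exact BB_mul_right hcG y x x'
  have hreg : ∀ z z' : Additive O, z ≠ 0 → z' ≠ 0 → ∃ f : Additive Q → Additive Q, Function.Injective f ∧
      ∀ v, s v = z → s (f v) = z' := by
    intro z z' hz hz'
    have h1 : ((z.toMul : O) : G) ≠ 1 := fun h => hz ((hzero z).mpr h)
    have h2 : ((z'.toMul : O) : G) ≠ 1 := fun h => hz' ((hzero z').mpr h)
    obtain ⟨k, hk, -⟩ := hS.reg _ _ h1 z.toMul.2 h2 z'.toMul.2
    refine ⟨TV k, ?_, ?_⟩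
    · intro u v he
      obtain ⟨x, rfl⟩ := hrep u
      obtain ⟨y, rfl⟩ := hrep v
      rw [hTV, hTV] at he
      have h3 := congrArg (TV k⁻¹) he
      rw [hTV, hTV, ← phi_mul_apply, ← phi_mul_apply, inv_mul_cancel, phi_one_apply, phi_one_apply] at h3
      exact h3
    · intro v hv
      obtain ⟨x, rfl⟩ := hrep v
      rw [hTV, hsmk]
      rw [hsmk] at hv
      apply Additive.toMul.injective
      apply Subtype.ext
      show φ k x * φ k x = _
      rw [← map_mul]
      have h3 : x * x = ((z.toMul : O) : G) := congrArg (fun a : Additive O => ((a.toMul : O) : G)) hv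
      rw [h3]
      exact hk
  obtain ⟨x₁, x₂, hx12, hx₁, hx₁2, hx₂, hx₂2⟩ := hS.invs
  have hnt : ∃ z : Additive O, z ≠ 0 := by
    refine ⟨Additive.ofMul ⟨x₁, hx₁2⟩, ?_⟩
    intro h
    exact hx₁ ((hzero _).mp h)
  letI : Fintype (Additive Q) := Fintype.ofFinite _
  letI : Fintype (Additive O) := Fintype.ofFinite _
  obtain ⟨N, hN1, hN2⟩ := gauss_count hV2 hZ2 s hs0 hs1 B hB hBadd hreg hnt
  obtain ⟨m, hm⟩ := IsPGroup.iff_card.mp ((hS.two.to_quotient O) : IsPGroup 2 Q)
  obtain ⟨n, hn⟩ := IsPGroup.iff_card.mp (hS.two.to_subgroup O)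
  have hcV : Fintype.card (Additive Q) = 2 ^ m := by
    rw [← Nat.card_eq_fintype_card]
    exact hm
  have hcZ : Fintype.card (Additive O) = 2 ^ n := by
    rw [← Nat.card_eq_fintype_card]
    exact hn
  have hn0 : n ≠ 0 := by
    rintro rfl
    rw [pow_zero] at hn
    haveI := Finite.card_le_one_iff_subsingleton.mp (le_of_eq hn)
    exact hx₁ (congrArg Subtype.val (Subsingleton.elim (⟨x₁, hx₁2⟩ : O) 1))
  have hG : Nat.card G = 2 ^ m * 2 ^ n := by
    rw [← hm, ← hn]
    exact Subgroup.card_eq_card_quotient_mul_card_subgroup O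
  rw [hcV, hcZ] at hN1
  push_cast at hN1
  have hm0 : m ≠ 0 := by
    rintro rfl
    rw [pow_zero] at hm
    haveI := Finite.card_le_one_iff_subsingleton.mp (le_of_eq hm)
    obtain ⟨a, b, hab⟩ := hna
    have h1 : (a : Q) = 1 := Subsingleton.elim _ _
    have h2 : a ∈ O := (QuotientGroup.eq_one_iff a).mp h1
    exact hab (Om_comm hS h2)
  have hNpos : 1 ≤ N := by
    by_contra h
    have h0 : N = 0 := by omega
    rw [h0] at hN1
    have h2 : (2 : ℤ) ^ m = 1 := by
      rw [hN1]
      simp
    have h3 : 2 ^ m = 1 := by exact_mod_cast h2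
    exact hm0 ((Nat.pow_eq_one.mp h3).resolve_left (by norm_num))
  have hNc : N = 1 ∨ ∃ t, N = 2 ^ t + 1 := by
    obtain ⟨k, rfl⟩ : ∃ k, N = k + 1 := ⟨N - 1, by omega⟩
    rcases hN2 with h | ⟨r, hr, h⟩
    · left
      push_cast at h
      have : k = 0 := by omega
      rw [this]
    · right
      rw [hcV] at hr h
      obtain ⟨a, -, rfl⟩ := (Nat.dvd_prime_pow Nat.prime_two).mp hr
      have h1 : k ^ 2 = 2 ^ m * 2 ^ a := by
        push_cast at h
        have h2 : ((k : ℤ)) ^ 2 = 2 ^ m * 2 ^ a := by
          rw [← h]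
          ring
        exact_mod_cast h2
      have hdvd : k ∣ 2 ^ (m + a) := by
        rw [pow_add, ← h1]
        exact Dvd.intro_left _ (pow_two k).symm
      obtain ⟨t, -, rfl⟩ := (Nat.dvd_prime_pow Nat.prime_two).mp hdvd
      exact ⟨t, rfl⟩
  have hNO : Nat.card (Om hS) = 2 ^ n := hn
  rw [hNO, hG]
  rcases card_cases hn0 hN1 hNc with h | h
  · left
    rw [h]
    ring
  · right
    rw [h]
    ring

theorem exponent_general (hS : Sz2 φ) (hna : ∃ a b : G, a * b ≠ b * a) : Monoid.exponent G = 4 := by
  obtain ⟨hsq, hcc⟩ := elem_general hS hna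
  have h4 : ∀ x : G, x ^ 4 = 1 := by
    intro x
    have h : (x * x) * (x * x) = 1 := hsq x
    calc x ^ 4 = (x * x) * (x * x) := by simp only [pow_succ, pow_zero, one_mul, mul_assoc]
      _ = 1 := h
  have hd : Monoid.exponent G ∣ 4 := Monoid.exponent_dvd_of_forall_pow_eq_one h4
  have hnot2 : ¬ Monoid.exponent G ∣ 2 := by
    intro h2
    obtain ⟨a, b, hab⟩ := hna
    have h : ∀ x : G, x * x = 1 := by
      intro x
      have := Monoid.pow_exponent_eq_one x
      obtain ⟨c, hc⟩ := h2
      rw [← pow_two, hc, pow_mul, this, one_pow]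
    exact hab (Om_comm hS (h a))
  have hle : Monoid.exponent G ≤ 4 := Nat.le_of_dvd (by norm_num) hd
  interval_cases h : Monoid.exponent G <;> first | rfl | omega | (exfalso; revert hd hnot2; decide)

end Cfsg.Agent.Suz2
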