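import Mathlib
import Cfsg.Agent.Lib.Suz2.RigidGp
import Cfsg.Agent.Lib.Sz.Syl2
import Cfsg.Agent.Lib.Sz.Lie
import Cfsg.Agent.Lib.Sz.Bridge

/-!
Coordinates on the unipotent subgroup of the Suzuki group.
-/

set_option autoImplicit false
set_option linter.unusedSectionVars false
set_option linter.style.haveILetI false

namespace Cfsg.Agent.Suz2.Rig

open Cfsg.Agent.SzT

variable {F : Type*} [Field F] [Fintype F] {s : ℕ} [h : SzF F s]

/-- The twisting automorphism. -/
noncomputable def thetaS (s : ℕ) (F : Type*) [Field F] [Fintype F] [SzF F s] : F ≃+* F :=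
  RingEquiv.ofBijective (thetaR s F) ⟨fun _ _ he => s_inj (s := s) he, fun a => s_surj (s := s) a⟩

lemma thetaS_apply (x : F) : thetaS s F x = x ^ s := rfl

/-- first coordinate -/
noncomputable def caU (z : Uni s F) : F := (uU_surj z).choose
/-- second coordinate -/
noncomputable def cbU (z : Uni s F) : F := (uU_surj z).choose_spec.choose

lemma eq_uU (z : Uni s F) : z = uU s (caU z) (cbU z) := (uU_surj z).choose_spec.choose_spec
lemma caU_uU (a b : F) : caU (uU s a b) = a := (uU_inj (eq_uU (uU s a b))).1.symm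
lemma cbU_uU (a b : F) : cbU (uU s a b) = b := (uU_inj (eq_uU (uU s a b))).2.symm

lemma caU_mul (x y : Uni s F) : caU (x * y) = caU x + caU y := by
  conv_lhs => rw [eq_uU x, eq_uU y, uU_mul, caU_uU]

lemma cbU_mul (x y : Uni s F) : cbU (x * y) = cbU x + cbU y + caU x ^ s * caU y := by
  conv_lhs => rw [eq_uU x, eq_uU y, uU_mul, cbU_uU]

lemma theta_four : ∃ x : F, thetaS s F (thetaS s F (thetaS s F (thetaS s F x))) ≠ x := by
  classical
  by_contra hn
  push Not at hn
  have h4 : ∀ x : F, x ^ 4 = x := by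
    intro x
    have h1 := hn x
    simp only [thetaS_apply] at h1
    have h3 : ((x ^ s) ^ s) = x ^ 2 := h.sq x
    rw [h3, h.sq] at h1
    linear_combination h1
  have hsub : (Finset.univ.erase (0 : F)) ⊆ (Polynomial.nthRoots 3 (1 : F)).toFinset := by
    intro x hx
    have hx0 : x ≠ 0 := (Finset.mem_erase.mp hx).1
    rw [Multiset.mem_toFinset, Polynomial.mem_nthRoots (by norm_num)]
    apply mul_left_cancel₀ hx0
    have := h4 x
    linear_combination this
  have h1 := Finset.card_le_card hsub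
  have h3 := Multiset.toFinset_card_le (Polynomial.nthRoots 3 (1 : F))
  have h5 := Polynomial.card_nthRoots 3 (1 : F)
  rw [Finset.card_erase_of_mem (Finset.mem_univ _), Finset.card_univ] at h1
  have h6 := card_gt (F := F) (s := s)
  have h7 := h.s4
  omega

/-- The coordinates. -/
noncomputable def rdSz (s : ℕ) (F : Type*) [Field F] [Fintype F] [SzF F s] : RD (Uni s F) F (thetaS s F) where
  ca := caU
  cb := cbU
  ca_mul := caU_mul
  ca_surj a := ⟨uU s a 0, caU_uU a 0⟩
  mem_center_iff z := by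
    rw [center_Uni_iff]
    constructor
    · rintro ⟨b, rfl⟩
      exact caU_uU 0 b
    · intro hz
      refine ⟨cbU z, ?_⟩
      conv_lhs => rw [eq_uU z, hz]
  cb_mul x y hx hy := by
    rw [cbU_mul, hx, hy, mul_zero, add_zero]
  cb_inj x y hx hy he := by
    rw [eq_uU x, eq_uU y, hx, hy, he]
  cb_sq x := by
    rw [cbU_mul, add_self' (s := s), zero_add, thetaS_apply, mul_comm]
  sq_surj z hz := by
    refine ⟨uU s (cbU z ^ (s - 1)) 0, ?_⟩
    rw [uU_mul, add_self' (s := s), add_zero, zero_add]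
    conv_lhs => rw [eq_uU z, hz]
    rw [← pow_succ, pow_s_add_one_surj]
  θ_comm σ x := by
    simp only [thetaS_apply, map_pow]
  θ_ne := by
    obtain ⟨c, hc⟩ := exists_not_fixed (F := F) (s := s)
    exact ⟨c, hc⟩
  θ_cond := Or.inr theta_four

/-- The semilinear maps. -/
noncomputable def liftS (c : F) (σ : F ≃+* F) (x : Uni s F) : Uni s F :=
  uU s (c * σ (caU x)) (c ^ (s + 1) * σ (cbU x))

theorem exists_liftS (c : F) (σ : F ≃+* F) (hc : c ≠ 0) :
    ∃ φ : MulAut (Uni s F), ∀ x : Uni s F, caU (φ x) = c * σ (caU x) := by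
  have hinj : Function.Injective (liftS (s := s) c σ) := by
    intro x y he
    obtain ⟨h3, h4⟩ := uU_inj he
    rw [eq_uU x, eq_uU y, σ.injective (mul_left_cancel₀ hc h3),
      σ.injective (mul_left_cancel₀ (pow_ne_zero _ hc) h4)]
  have hbij : Function.Bijective (liftS (s := s) c σ) := Finite.injective_iff_bijective.mp hinj
  have hmul : ∀ x y : Uni s F, liftS (s := s) c σ (x * y) = liftS (s := s) c σ x * liftS (s := s) c σ y := by
    intro x y
    unfold liftS
    rw [uU_mul, caU_mul, cbU_mul]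
    congr 1
    · rw [map_add]
      ring
    · simp only [map_add, map_mul, map_pow, mul_pow, pow_succ]
      ring
  exact ⟨MulEquiv.ofBijective (MonoidHom.mk' (liftS (s := s) c σ) hmul) hbij, fun x => caU_uU _ _⟩

/-- Sylow `2`-subgroups of the Suzuki group. -/
theorem sylow_equiv_Sz (P : Sylow 2 (Cfsg.Lie.Sz F s)) :
    Nonempty ((P : Subgroup (Cfsg.Lie.Sz F s)) ≃* Uni s F) := by
  classical
  haveI : Fact (Nat.Prime 2) := ⟨Nat.prime_two⟩
  let ε := szEquiv s F
  have hf : Function.Surjective (ε.toMonoidHom : GG s F →* Cfsg.Lie.Sz F s) := ε.surjective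
  have hfi : Function.Injective (ε.toMonoidHom : GG s F →* Cfsg.Lie.Sz F s) := ε.injective
  let Q : Sylow 2 (Cfsg.Lie.Sz F s) := (UniS s F).mapSurjective hf
  have hQ : (Q : Subgroup (Cfsg.Lie.Sz F s)) = (Uni s F).map ε.toMonoidHom := rfl
  exact ⟨(Sylow.equiv P Q).trans ((MulEquiv.subgroupCongr hQ).trans (Subgroup.equivMapOfInjective _ _ hfi).symm)⟩

end Cfsg.Agent.Suz2.Rig
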